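import Cfsg.Agent.H12.DihFrobA
import Cfsg.Agent.H74.DihBasic

set_option autoImplicit false

/-!
# Piece FROB of S3572 (helper12): the Frobenius congruence in a primitive Schur ring over a
dihedral group
-/

namespace Cfsg.Agent.H12.Dih

open DihedralGroup Cfsg.Agent.H74.Dih

variable {n : ℕ} [NeZero n]

theorem frob (P : PSR n) (p : ℕ) (hp : p.Prime) (hp2 : p ≠ 2) (f : DihedralGroup n → ℤ) (hf : Resp P.rel f) (k : ZMod n) : (p : ℤ) ∣ cpow f p (r k) - ∑ i ∈ Finset.univ.filter (fun i : ZMod n => p • i = k), f (r i) :=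
  dfrob_aux p hp hp2 f (fun i => resp_symm P hf i) k

end Cfsg.Agent.H12.Dih
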