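import Cfsg.Agent.H74.DihBasic
import Cfsg.Agent.H74.SRingFrob

set_option autoImplicit false
set_option linter.unusedSectionVars false

/-!
# The Frobenius congruence for convolution powers on a dihedral group (helper12, for S3572)

`dfrob_aux`: for `f : DihedralGroup n → ℤ` with symmetric rotation part and an odd prime `p`,
`cpow f p (r k) ≡ ∑_{p • i = k} f (r i)` modulo `p`.  Proof in the regular representation over
`ZMod p`.
-/

namespace Cfsg.Agent.H12.Dih

open DihedralGroup Cfsg.Agent.H74.Dih

variable {n : ℕ} [NeZero n]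

/-- right translation matrices of the dihedral group. -/
def dfP (R : Type*) [Semiring R] (h : DihedralGroup n) :
    Matrix (DihedralGroup n) (DihedralGroup n) R :=
  Matrix.of fun x y => if x⁻¹ * y = h then 1 else 0

theorem dfP_apply (R : Type*) [Semiring R] (h x y : DihedralGroup n) :
    dfP R h x y = if x⁻¹ * y = h then 1 else 0 := rfl

theorem dfP_mul (R : Type*) [Semiring R] (h h' : DihedralGroup n) :
    dfP R h * dfP R h' = dfP R (h * h') := by
  ext x y
  rw [Matrix.mul_apply, Finset.sum_eq_single (x * h)]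
  · simp only [dfP_apply, inv_mul_cancel_left, if_true, one_mul]
    by_cases hh : (x * h)⁻¹ * y = h'
    · rw [if_pos hh, if_pos]; rw [← hh]; group
    · rw [if_neg hh, if_neg]; intro h''; apply hh; rw [mul_inv_rev, mul_assoc, h'']; group
  · intro z _ hz
    rw [dfP_apply, if_neg, zero_mul]
    intro h''; apply hz; rw [← h'']; group
  · intro h; exact absurd (Finset.mem_univ _) h

theorem dfP_one (R : Type*) [Semiring R] : dfP R (1 : DihedralGroup n) = 1 := by
  ext x y
  rw [dfP_apply, Matrix.one_apply]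
  by_cases h : x = y
  · subst h; simp
  · rw [if_neg h, if_neg]; intro h'; apply h; exact inv_mul_eq_one.1 h'

theorem dfP_pow (R : Type*) [Semiring R] (h : DihedralGroup n) (a : ℕ) :
    dfP R h ^ a = dfP R (h ^ a) := by
  induction a with
  | zero => simp [dfP_one]
  | succ a ih => rw [pow_succ, ih, dfP_mul, pow_succ]

/-- the matrix of a function in the regular representation. -/
def dfM {R : Type*} [Semiring R] (F : DihedralGroup n → R) :
    Matrix (DihedralGroup n) (DihedralGroup n) R :=
  Matrix.of fun x y => F (x⁻¹ * y)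

theorem dfM_apply {R : Type*} [Semiring R] (F : DihedralGroup n → R) (x y : DihedralGroup n) :
    dfM F x y = F (x⁻¹ * y) := rfl

theorem dfM_eq_sum {R : Type*} [Semiring R] (F : DihedralGroup n → R) :
    dfM F = ∑ h, F h • dfP R h := by
  ext x y
  rw [Matrix.sum_apply]
  simp only [Matrix.smul_apply, dfP_apply, smul_eq_mul, mul_ite, mul_one, mul_zero]
  rw [Finset.sum_ite_eq]
  simp [dfM_apply]

theorem dfM_conv {R : Type*} [Semiring R] (F G : DihedralGroup n → R) :
    dfM (conv F G) = dfM F * dfM G := by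
  ext x y
  rw [Matrix.mul_apply, dfM_apply]
  unfold conv
  rw [← Equiv.sum_comp (Equiv.mulLeft x⁻¹)]
  apply Finset.sum_congr rfl
  intro z _
  simp only [Equiv.coe_mulLeft, dfM_apply]
  congr 2
  group

theorem dfM_cpow (p : ℕ) (f : DihedralGroup n → ℤ) (m : ℕ) :
    dfM (fun h => ((cpow f m h : ℤ) : ZMod p)) = dfM (fun h => ((f h : ℤ) : ZMod p)) ^ m := by
  induction m with
  | zero =>
    rw [pow_zero]
    ext x y
    rw [dfM_apply, Matrix.one_apply]
    show (((if x⁻¹ * y = 1 then (1 : ℤ) else 0 : ℤ)) : ZMod p) = _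
    by_cases h : x = y
    · subst h; simp
    · rw [if_neg h, if_neg (fun h' => h (inv_mul_eq_one.1 h'))]; simp
  | succ m ih =>
    rw [pow_succ, ← ih, ← dfM_conv]
    congr 1
    funext h
    show ((conv (cpow f m) f h : ℤ) : ZMod p) = conv _ _ h
    unfold conv
    push_cast
    rfl

/-- parity of an element: `false` for rotations, `true` for reflections. -/
def dfPar : DihedralGroup n → Bool
  | r _ => false
  | sr _ => true

theorem dfPar_mul (a b : DihedralGroup n) : dfPar (a * b) = xor (dfPar a) (dfPar b) := by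
  cases a <;> cases b <;> simp [dfPar]

/-- a matrix supported on pairs of parity `t`. -/
def dfHasPar {R : Type*} [Semiring R] (t : Bool)
    (A : Matrix (DihedralGroup n) (DihedralGroup n) R) : Prop :=
  ∀ x y, dfPar (x⁻¹ * y) ≠ t → A x y = 0

theorem dfHasPar_mul {R : Type*} [Semiring R] {s t : Bool}
    {A B : Matrix (DihedralGroup n) (DihedralGroup n) R}
    (hA : dfHasPar s A) (hB : dfHasPar t B) : dfHasPar (xor s t) (A * B) := by
  intro x y hxy
  rw [Matrix.mul_apply]
  apply Finset.sum_eq_zero
  intro z _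
  by_cases h1 : dfPar (x⁻¹ * z) = s
  · have h2 : dfPar (z⁻¹ * y) ≠ t := by
      intro h2
      apply hxy
      have : x⁻¹ * y = (x⁻¹ * z) * (z⁻¹ * y) := by group
      rw [this, dfPar_mul, h1, h2]
    rw [hB z y h2, mul_zero]
  · rw [hA x z h1, zero_mul]

theorem dfHasPar_one {R : Type*} [Semiring R] :
    dfHasPar false (1 : Matrix (DihedralGroup n) (DihedralGroup n) R) := by
  intro x y hxy
  rw [Matrix.one_apply, if_neg]
  rintro rfl
  apply hxy
  rw [inv_mul_cancel, DihedralGroup.one_def]; rfl

theorem dfHasPar_pow {R : Type*} [Semiring R]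
    {A : Matrix (DihedralGroup n) (DihedralGroup n) R} (hA : dfHasPar true A) (m : ℕ) :
    (Even m → dfHasPar false (A ^ m)) ∧ (Odd m → dfHasPar true (A ^ m)) := by
  induction m with
  | zero => exact ⟨fun _ => by rw [pow_zero]; exact dfHasPar_one, fun h => absurd h (by decide)⟩
  | succ m ih =>
    constructor
    · intro h
      have hm : Odd m := by
        rcases Nat.even_or_odd m with h' | h'
        · exact absurd h (by rw [Nat.even_add_one]; simpa using h')
        · exact h'
      rw [pow_succ]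
      exact dfHasPar_mul (ih.2 hm) hA
    · intro h
      have hm : Even m := by
        rcases Nat.even_or_odd m with h' | h'
        · exact h'
        · exact absurd h (by rw [Nat.odd_add_one]; simpa using h')
      rw [pow_succ]
      exact dfHasPar_mul (ih.1 hm) hA

theorem dfrob_aux (p : ℕ) (hp : p.Prime) (hp2 : p ≠ 2) (f : DihedralGroup n → ℤ)
    (hsym : ∀ i : ZMod n, f (r (-i)) = f (r i)) (k : ZMod n) :
    (p : ℤ) ∣ cpow f p (r k) -
      ∑ i ∈ Finset.univ.filter (fun i : ZMod n => p • i = k), f (r i) := by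
  classical
  have : Fact p.Prime := ⟨hp⟩
  rw [← ZMod.intCast_zmod_eq_zero_iff_dvd]
  push_cast
  rw [sub_eq_zero]
  have hXY : dfM (fun h => ((f h : ℤ) : ZMod p)) =
      (∑ i : ZMod n, ((f (r i) : ℤ) : ZMod p) • dfP (ZMod p) (r i)) +
      ∑ i : ZMod n, ((f (sr i) : ℤ) : ZMod p) • dfP (ZMod p) (sr i) := by
    rw [dfM_eq_sum, sum_dih]
  have hcomm : Commute (∑ i : ZMod n, ((f (r i) : ℤ) : ZMod p) • dfP (ZMod p) (r i))
      (∑ i : ZMod n, ((f (sr i) : ℤ) : ZMod p) • dfP (ZMod p) (sr i)) := by
    unfold Commute SemiconjBy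
    rw [Finset.sum_mul_sum, Finset.sum_mul_sum, Finset.sum_comm]
    apply Finset.sum_congr rfl
    intro j _
    rw [← Equiv.sum_comp (Equiv.neg (ZMod n))]
    apply Finset.sum_congr rfl
    intro i _
    simp only [Equiv.neg_apply]
    rw [smul_mul_smul_comm, smul_mul_smul_comm, dfP_mul, dfP_mul, r_mul_sr, sr_mul_r, mul_comm,
      sub_neg_eq_add, hsym]
  have h1 : ((cpow f p (r k) : ℤ) : ZMod p) =
      (dfM (fun h => ((f h : ℤ) : ZMod p)) ^ p) 1 (r k) := by
    have := congrFun (congrFun (dfM_cpow p f p) 1) (r k)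
    rw [dfM_apply, inv_one, one_mul] at this
    exact this
  have hYpar : dfHasPar true (∑ i : ZMod n, ((f (sr i) : ℤ) : ZMod p) • dfP (ZMod p) (sr i)) := by
    intro x y hxy
    rw [Matrix.sum_apply]
    apply Finset.sum_eq_zero
    intro i _
    rw [Matrix.smul_apply, dfP_apply, if_neg, smul_zero]
    intro h'
    apply hxy
    rw [h']; rfl
  have hYp : ((∑ i : ZMod n, ((f (sr i) : ℤ) : ZMod p) • dfP (ZMod p) (sr i)) ^ p) 1 (r k) = 0 := by
    apply (dfHasPar_pow hYpar p).2 (hp.odd_of_ne_two hp2)
    rw [inv_one, one_mul]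
    simp [dfPar]
  have hXp : ((∑ i : ZMod n, ((f (r i) : ℤ) : ZMod p) • dfP (ZMod p) (r i)) ^ p) 1 (r k) =
      ∑ i ∈ Finset.univ.filter (fun i : ZMod n => p • i = k), ((f (r i) : ℤ) : ZMod p) := by
    rw [Cfsg.Agent.H74.SR.sum_pow_char_commute p Finset.univ
      (fun i : ZMod n => ((f (r i) : ℤ) : ZMod p) • dfP (ZMod p) (r i)) ?_]
    · rw [Matrix.sum_apply, Finset.sum_filter]
      apply Finset.sum_congr rfl
      intro i _
      rw [smul_pow, ZMod.pow_card, dfP_pow, r_pow, Matrix.smul_apply, dfP_apply, inv_one, one_mul,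
        smul_eq_mul]
      by_cases hk : p • i = k
      · rw [if_pos hk, if_pos, mul_one]; rw [← hk, nsmul_eq_mul, mul_comm]
      · rw [if_neg hk, if_neg, mul_zero]
        intro h'; apply hk; injection h' with h'; rw [h', nsmul_eq_mul, mul_comm]
    · intro i _ j _
      unfold Commute SemiconjBy
      rw [smul_mul_smul_comm, smul_mul_smul_comm, dfP_mul, dfP_mul, r_mul_r, r_mul_r, mul_comm,
        add_comm]
  rw [h1, hXY, add_pow_char_of_commute p hcomm, Matrix.add_apply, hYp, add_zero, hXp]

end Cfsg.Agent.H12.Dih
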