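import Cfsg.Agent.H12.DihRCaA
import Cfsg.Agent.H74.DihBasic
import Cfsg.Agent.H12.DihFrob

set_option autoImplicit false

/-!
# Piece RCa of S3572 (helper12): the rational closure of a primitive Schur ring over a dihedral
group is again one
-/

namespace Cfsg.Agent.H12.Dih

open DihedralGroup Cfsg.Agent.H74.Dih

variable {n : ℕ} [NeZero n]

theorem exists_ratPSR (P : PSR n) : ∃ P' : PSR n, P'.rel = ratRel P :=
  drc_exists_ratPSR_aux P
    (fun q hq hq2 f hf k => frob P q hq hq2 f hf k)
    (fun hn h hh => exists_r P hn h hh)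
    (fun f hf k => resp_cpow P f hf k)
    (fun f g hf hg k => cpow_conv P f g hf hg k)

end Cfsg.Agent.H12.Dih
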