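import Cfsg.Agent.H74.DihDefs
import Cfsg.Agent.H74.SRingCons

set_option autoImplicit false
set_option linter.unusedSectionVars false

/-!
# The rational closure of a primitive Schur ring over a dihedral group (helper12, piece RCa of
S3572)

`drc_exists_ratPSR_aux` is the statement `exists_ratPSR` with the imported facts (Frobenius
congruence, `exists_r`, `resp_cpow`, `cpow_conv`) as hypotheses.
-/

namespace Cfsg.Agent.H12.Dih

open DihedralGroup Cfsg.Agent.H74.Dih

variable {n : ℕ} [NeZero n]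

/-- (U): if `i` and `j` generate the same subgroup of `ZMod n` then `j = q • i` for arbitrarily
large primes `q`. -/
theorem drc_exists_prime (i j : ZMod n)
    (hij : AddSubgroup.zmultiples i = AddSubgroup.zmultiples j) (N : ℕ) :
    ∃ q : ℕ, q.Prime ∧ N < q ∧ j = q • i := by
  have hdn : addOrderOf i ∣ n := by
    have := addOrderOf_dvd_card (x := i); rwa [ZMod.card] at this
  have hd0 : 0 < addOrderOf i := addOrderOf_pos i
  have : NeZero (addOrderOf i) := ⟨hd0.ne'⟩
  have hj : j ∈ AddSubgroup.zmultiples i := by rw [hij]; exact AddSubgroup.mem_zmultiples j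
  have hi : i ∈ AddSubgroup.zmultiples j := by rw [← hij]; exact AddSubgroup.mem_zmultiples i
  rw [← mem_multiples_iff_mem_zmultiples] at hj hi
  obtain ⟨k, hk⟩ := hj
  obtain ⟨l, hl⟩ := hi
  simp only at hk hl
  have hlk : l * k ≡ 1 [MOD addOrderOf i] := by
    rw [← nsmul_eq_nsmul_iff_modEq (x := i), mul_smul, hk, hl, one_smul]
  have hunit : IsUnit ((k : ℕ) : ZMod (addOrderOf i)) := by
    have h1 : ((l * k : ℕ) : ZMod (addOrderOf i)) = ((1 : ℕ) : ZMod (addOrderOf i)) :=
      (ZMod.natCast_eq_natCast_iff _ _ _).2 hlk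
    rw [Nat.cast_mul, Nat.cast_one, mul_comm] at h1
    exact IsUnit.of_mul_eq_one _ h1
  obtain ⟨u, hu⟩ := ZMod.unitsMap_surjective hdn hunit.unit
  have hmc : ((u : ZMod n).val).Coprime n := ZMod.val_coe_unit_coprime u
  have hmk : (u : ZMod n).val ≡ k [MOD addOrderOf i] := by
    rw [← ZMod.natCast_eq_natCast_iff]
    have h1 := congrArg (fun v : (ZMod (addOrderOf i))ˣ => (v : ZMod (addOrderOf i))) hu
    simp only [ZMod.unitsMap_val, IsUnit.unit_spec] at h1
    rw [← h1, ZMod.natCast_val]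
  obtain ⟨q, hqN, hq, hqm⟩ := Nat.forall_exists_prime_gt_and_modEq N (NeZero.ne n) hmc
  refine ⟨q, hq, hqN, ?_⟩
  rw [← hk, nsmul_eq_nsmul_iff_modEq]
  exact hmk.symm.trans (hqm.of_dvd hdn).symm

theorem drc_sum_fib {q : ℕ} (hq : q.Coprime n) (F : ZMod n → ℤ) (k : ZMod n) :
    ∑ x ∈ Finset.univ.filter (fun x : ZMod n => q • x = q • k), F x = F k := by
  classical
  have : Finset.univ.filter (fun x : ZMod n => q • x = q • k) = {k} := by
    ext x
    simp only [Finset.mem_filter, Finset.mem_univ, true_and, Finset.mem_singleton]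
    constructor
    · intro h; exact Cfsg.Agent.H74.SR.nsmul_injective_of_coprime hq h
    · rintro rfl; rfl
  rw [this, Finset.sum_singleton]

theorem drc_zmultiples_nsmul {q : ℕ} (hq : q.Coprime n) (x : ZMod n) :
    AddSubgroup.zmultiples (q • x) = AddSubgroup.zmultiples x := by
  apply le_antisymm
  · rw [AddSubgroup.zmultiples_le]
    exact AddSubgroup.nsmul_mem _ (AddSubgroup.mem_zmultiples _) _
  · rw [AddSubgroup.zmultiples_le]
    obtain ⟨u, hu⟩ := (ZMod.isUnit_iff_coprime q n).2 hq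
    have h1 : ((u⁻¹ : (ZMod n)ˣ) : ZMod n).val • (q • x) = x := by
      rw [nsmul_eq_mul, nsmul_eq_mul, ZMod.natCast_zmod_val, ← hu, ← mul_assoc, Units.inv_mul,
        one_mul]
    have h2 : ((u⁻¹ : (ZMod n)ˣ) : ZMod n).val • (q • x) ∈ AddSubgroup.zmultiples (q • x) :=
      AddSubgroup.nsmul_mem _ (AddSubgroup.mem_zmultiples _) _
    rwa [h1] at h2

theorem drc_ratA_conv (P : PSR n)
    (hfrob : ∀ q : ℕ, q.Prime → q ≠ 2 → ∀ f : DihedralGroup n → ℤ, Resp P.rel f →
      ∀ k : ZMod n, (q : ℤ) ∣ cpow f q (r k) -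
        ∑ i ∈ Finset.univ.filter (fun i : ZMod n => q • i = k), f (r i))
    (hexr : 2 ≤ n → ∀ h : DihedralGroup n, h ≠ 1 → ∃ i : ZMod n, i ≠ 0 ∧ P.rel h (r i))
    (hresp : ∀ f : DihedralGroup n → ℤ, Resp P.rel f → ∀ k : ℕ, Resp P.rel (cpow f k))
    (hcc : ∀ f g : DihedralGroup n → ℤ, Resp P.rel f → Resp P.rel g → ∀ k : ℕ,
      cpow (conv f g) k = conv (cpow f k) (cpow g k))
    (f g : DihedralGroup n → ℤ) (hf : Resp P.rel f) (hg : Resp P.rel g)
    (hfA : ∀ i j : ZMod n, AddSubgroup.zmultiples i = AddSubgroup.zmultiples j →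
      f (r i) = f (r j))
    (hgA : ∀ i j : ZMod n, AddSubgroup.zmultiples i = AddSubgroup.zmultiples j →
      g (r i) = g (r j))
    (i j : ZMod n) (hij : AddSubgroup.zmultiples i = AddSubgroup.zmultiples j) :
    conv f g (r i) = conv f g (r j) := by
  by_cases hn : n = 1
  · subst hn; rw [Subsingleton.elim i j]
  have hn2 : 2 ≤ n := by have := NeZero.ne n; omega
  have hφR : Resp P.rel (conv f g) := P.conv_closed f g hf hg
  obtain ⟨q, hq, hqN, hqj⟩ := drc_exists_prime i j hij
    (n + 2 + (conv f g (r j) - conv f g (r i)).natAbs)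
  have hq2 : q ≠ 2 := by omega
  have hqn : q.Coprime n := by
    rw [Nat.Prime.coprime_iff_not_dvd hq]
    intro h
    have := Nat.le_of_dvd (Nat.pos_of_ne_zero (NeZero.ne n)) h
    omega
  have key : ∀ f : DihedralGroup n → ℤ, Resp P.rel f →
      (∀ i j : ZMod n, AddSubgroup.zmultiples i = AddSubgroup.zmultiples j →
        f (r i) = f (r j)) → ∀ h, (q : ℤ) ∣ cpow f q h - f h := by
    intro f hf hfA
    have hrot : ∀ k : ZMod n, (q : ℤ) ∣ cpow f q (r k) - f (r k) := by
      intro k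
      obtain ⟨k', rfl⟩ := Finite.surjective_of_injective
        (Cfsg.Agent.H74.SR.nsmul_injective_of_coprime hqn) k
      have h1 := hfrob q hq hq2 f hf (q • k')
      rw [drc_sum_fib hqn (fun x => f (r x)) k'] at h1
      rw [hfA (q • k') k' (drc_zmultiples_nsmul hqn k')]
      exact h1
    intro h
    by_cases hh : h = 1
    · subst hh; rw [DihedralGroup.one_def]; exact hrot 0
    · obtain ⟨k, -, hk⟩ := hexr hn2 h hh
      rw [hresp f hf q h (r k) hk, hf h (r k) hk]
      exact hrot k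
  have hkf := key f hf hfA
  have hkg := key g hg hgA
  have hconv : ∀ h, (q : ℤ) ∣ conv (cpow f q) (cpow g q) h - conv f g h := by
    intro h
    unfold conv
    rw [← Finset.sum_sub_distrib]
    apply Finset.dvd_sum
    intro x _
    have e : cpow f q x * cpow g q (x⁻¹ * h) - f x * g (x⁻¹ * h) =
        (cpow f q x - f x) * cpow g q (x⁻¹ * h) +
          f x * (cpow g q (x⁻¹ * h) - g (x⁻¹ * h)) := by ring
    rw [e]
    exact dvd_add (Dvd.dvd.mul_right (hkf x) _) (Dvd.dvd.mul_left (hkg _) _)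
  have h1 := hfrob q hq hq2 (conv f g) hφR (q • i)
  rw [drc_sum_fib hqn (fun x => conv f g (r x)) i] at h1
  have h2 := hconv (r (q • i))
  rw [← hcc f g hf hg q] at h2
  have h3 : (q : ℤ) ∣ conv f g (r j) - conv f g (r i) := by
    rw [hqj]
    have := dvd_sub h1 h2
    have e : ∀ a b c : ℤ, (a - b) - (a - c) = c - b := by intro a b c; ring
    rwa [e] at this
  have h4 : (conv f g (r j) - conv f g (r i)).natAbs < q := by omega
  have h5 : conv f g (r j) - conv f g (r i) = 0 := by
    apply Int.eq_zero_of_abs_lt_dvd h3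
    rw [Int.abs_eq_natAbs]; exact_mod_cast h4
  linarith

theorem drc_exists_ratPSR_aux (P : PSR n)
    (hfrob : ∀ q : ℕ, q.Prime → q ≠ 2 → ∀ f : DihedralGroup n → ℤ, Resp P.rel f →
      ∀ k : ZMod n, (q : ℤ) ∣ cpow f q (r k) -
        ∑ i ∈ Finset.univ.filter (fun i : ZMod n => q • i = k), f (r i))
    (hexr : 2 ≤ n → ∀ h : DihedralGroup n, h ≠ 1 → ∃ i : ZMod n, i ≠ 0 ∧ P.rel h (r i))
    (hresp : ∀ f : DihedralGroup n → ℤ, Resp P.rel f → ∀ k : ℕ, Resp P.rel (cpow f k))
    (hcc : ∀ f g : DihedralGroup n → ℤ, Resp P.rel f → Resp P.rel g → ∀ k : ℕ,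
      cpow (conv f g) k = conv (cpow f k) (cpow g k)) :
    ∃ P' : PSR n, P'.rel = ratRel P := by
  classical
  have hsub : ∀ h h', P.rel h h' → ratRel P h h' := fun h h' hh f hf _ => hf h h' hh
  have hRR : ∀ f : DihedralGroup n → ℤ, Resp (ratRel P) f → Resp P.rel f ∧
      (∀ i j : ZMod n, AddSubgroup.zmultiples i = AddSubgroup.zmultiples j →
        f (r i) = f (r j)) := by
    intro f hf
    refine ⟨fun h h' hh => hf h h' (hsub h h' hh), fun i j hij => hf (r i) (r j) ?_⟩
    intro f' _ hf'A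
    exact hf'A i j hij
  refine ⟨{ rel := ratRel P, equiv := ?_, one_class := ?_, inv_closed := ?_, conv_closed := ?_,
            gen := ?_, stab := ?_ }, rfl⟩
  · exact ⟨fun h f _ _ => rfl, fun hh f hf hfA => (hh f hf hfA).symm,
      fun h1 h2 f hf hfA => (h1 f hf hfA).trans (h2 f hf hfA)⟩
  · intro h hh
    have h1 := hh (fun x => if x = 1 then 1 else 0) ?_ ?_
    · by_contra hne
      simp [hne] at h1
    · intro a b hab
      have : a = 1 ↔ b = 1 :=
        ⟨fun ha => P.one_class b (P.equiv.symm (ha ▸ hab)), fun hb => P.one_class a (hb ▸ hab)⟩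
      simp only [this]
    · intro i j hij
      have : (r i : DihedralGroup n) = 1 ↔ (r j : DihedralGroup n) = 1 := by
        rw [DihedralGroup.one_def, r.injEq, r.injEq]
        constructor
        · rintro rfl
          have : j ∈ AddSubgroup.zmultiples (0 : ZMod n) := hij ▸ AddSubgroup.mem_zmultiples j
          rwa [AddSubgroup.zmultiples_zero_eq_bot, AddSubgroup.mem_bot] at this
        · rintro rfl
          have : i ∈ AddSubgroup.zmultiples (0 : ZMod n) := hij ▸ AddSubgroup.mem_zmultiples i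
          rwa [AddSubgroup.zmultiples_zero_eq_bot, AddSubgroup.mem_bot] at this
      simp only [this]
  · intro h h' hh f hf hfA
    refine hh (fun x => f x⁻¹) (fun a b hab => hf _ _ (P.inv_closed a b hab)) (fun i j hij => ?_)
    show f (r i)⁻¹ = f (r j)⁻¹
    rw [DihedralGroup.inv_r, DihedralGroup.inv_r]
    apply hfA
    rw [AddSubgroup.zmultiples_neg, AddSubgroup.zmultiples_neg, hij]
  · intro f g hf hg
    obtain ⟨hf1, hf2⟩ := hRR f hf
    obtain ⟨hg1, hg2⟩ := hRR g hg
    intro h h' hh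
    exact hh (conv f g) (P.conv_closed f g hf1 hg1)
      (drc_ratA_conv P hfrob hexr hresp hcc f g hf1 hg1 hf2 hg2)
  · intro S hS hne
    exact P.gen S (fun h h' hh => hS h h' (hsub h h' hh)) hne
  · intro S hS hne hun
    exact P.stab S (fun h h' hh => hS h h' (hsub h h' hh)) hne hun

end Cfsg.Agent.H12.Dih
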