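import Cfsg.Agent.H12.DihSTa
import Cfsg.Agent.H74.DihBasic
import Cfsg.Agent.H12.DihFrob

set_option autoImplicit false

/-!
# Piece ST of S3572 (helper12): structure of rational Schur rings over dihedral groups
-/

namespace Cfsg.Agent.H12.Dih

open DihedralGroup Cfsg.Agent.H74.Dih

variable {n : ℕ} [NeZero n]

theorem struct (P : PSR n) (hrat : ∀ i j : ZMod n, AddSubgroup.zmultiples i = AddSubgroup.zmultiples j → P.rel (r i) (r j)) (p : ℕ) (hp : p.Prime) (hpn : p ∣ n) (h2 : p = 2 → ∃ e : ℕ, n = 2 ^ e) (hA : ∀ h : DihedralGroup n, h ≠ 1 → ∃ i : ZMod n, P.rel h (r i) ∧ p ∣ addOrderOf i) (i c : ZMod n) (hi : p • i ≠ 0) (hc : p • c = 0) : P.rel (r i) (r (i + c)) :=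
  dst_struct_aux P hrat p hp hpn h2 hA
    (fun hp2 f hf k => frob P p hp hp2 f hf k)
    (fun f hf => resp_cpow P f hf p) i c hi hc

end Cfsg.Agent.H12.Dih
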