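import Cfsg.Agent.H74.DihDefs
import Cfsg.Agent.H74.SRingCons

set_option autoImplicit false
set_option linter.unusedSectionVars false

/-!
# Structure of rational Schur rings over dihedral groups (helper12, piece ST of S3572)

`dst_struct_aux` is the statement `struct` with the two imported facts (Frobenius congruence and
`Resp` of convolution powers) as hypotheses.
-/

namespace Cfsg.Agent.H12.Dih

open DihedralGroup Cfsg.Agent.H74.Dih

variable {n : ℕ} [NeZero n]

theorem dst_image_sub {p : ℕ} (c1 : ZMod n) (hc1 : p • c1 = 0) :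
    (Finset.range p).image (fun s : ℕ => s • c1) ⊆
      Finset.univ.filter (fun w : ZMod n => p • w = 0) := by
  classical
  intro w hw
  rw [Finset.mem_image] at hw
  obtain ⟨s, -, rfl⟩ := hw
  rw [Finset.mem_filter]
  refine ⟨Finset.mem_univ _, ?_⟩
  rw [smul_comm, hc1, smul_zero]

theorem dst_image_card {p : ℕ} (c1 : ZMod n) (ho : addOrderOf c1 = p) :
    ((Finset.range p).image (fun s : ℕ => s • c1)).card = p := by
  classical
  rw [Finset.card_image_of_injOn, Finset.card_range]
  intro s hs t ht hst
  simp only [Finset.coe_range, Set.mem_Iio] at hs ht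
  exact nsmul_injOn_Iio_addOrderOf (by rw [ho]; exact hs) (by rw [ho]; exact ht) hst

/-- the kernel of multiplication by a prime divisor `p` of `n` has exactly `p` elements. -/
theorem dst_card_ker {p : ℕ} (hp : p.Prime) (hpn : p ∣ n) :
    (Finset.univ.filter (fun w : ZMod n => p • w = 0)).card = p := by
  classical
  apply le_antisymm (Cfsg.Agent.H74.SR.card_ker_le hp.pos hpn)
  have : Fact p.Prime := ⟨hp⟩
  obtain ⟨c0, hc0⟩ := exists_prime_addOrderOf_dvd_card (G := ZMod n) p
    (by rw [ZMod.card]; exact hpn)
  have h0 : p • c0 = 0 := by rw [← hc0]; exact addOrderOf_nsmul_eq_zero c0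
  calc p = _ := (dst_image_card c0 hc0).symm
    _ ≤ _ := Finset.card_le_card (dst_image_sub c0 h0)

/-- every fibre of multiplication by `p` that is nonempty has exactly `p` elements. -/
theorem dst_card_fib {p : ℕ} (hp : p.Prime) (hpn : p ∣ n) (x1 : ZMod n) :
    (Finset.univ.filter (fun x : ZMod n => p • x = p • x1)).card = p := by
  classical
  refine Eq.trans ?_ (dst_card_ker (n := n) hp hpn)
  apply Finset.card_bij (fun x _ => x - x1)
  · intro x hx
    rw [Finset.mem_filter] at hx ⊢
    exact ⟨Finset.mem_univ _, by rw [smul_sub, hx.2, sub_self]⟩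
  · intro a _ b _ hab
    exact sub_left_injective hab
  · intro w hw
    rw [Finset.mem_filter] at hw
    refine ⟨w + x1, ?_, by abel⟩
    rw [Finset.mem_filter]
    exact ⟨Finset.mem_univ _, by rw [smul_add, hw.2, zero_add]⟩

/-- any nonzero element of the kernel generates it. -/
theorem dst_ker_gen {p : ℕ} (hp : p.Prime) (hpn : p ∣ n) (c1 c : ZMod n) (hc1 : p • c1 = 0)
    (hc1' : c1 ≠ 0) (hc : p • c = 0) : ∃ s : ℕ, c = s • c1 := by
  classical
  have : Fact p.Prime := ⟨hp⟩
  have ho : addOrderOf c1 = p := addOrderOf_eq_prime hc1 hc1'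
  have heq := Finset.eq_of_subset_of_card_le (dst_image_sub c1 hc1)
    (by rw [dst_image_card c1 ho, dst_card_ker hp hpn])
  have hmem : c ∈ Finset.univ.filter (fun w : ZMod n => p • w = 0) := by
    rw [Finset.mem_filter]; exact ⟨Finset.mem_univ _, hc⟩
  rw [← heq, Finset.mem_image] at hmem
  obtain ⟨s, -, hs⟩ := hmem
  exact ⟨s, hs.symm⟩

/-- (U1): adding a kernel element does not change the generated subgroup when `p` divides the
order of `p • x`. -/
theorem dst_U1 {p : ℕ} (hp : p.Prime) (hpn : p ∣ n) (x c : ZMod n)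
    (hx : p ∣ addOrderOf (p • x)) (hc : p • c = 0) :
    AddSubgroup.zmultiples (x + c) = AddSubgroup.zmultiples x := by
  have key : c ∈ AddSubgroup.zmultiples (p • x) := by
    obtain ⟨t, ht⟩ := hx
    have hz0 : addOrderOf (p • x) ≠ 0 := (addOrderOf_pos (p • x)).ne'
    have ht0 : 0 < t := by
      rcases Nat.eq_zero_or_pos t with h | h
      · rw [h, mul_zero] at ht; exact absurd ht hz0
      · exact h
    have h1 : p • (t • (p • x)) = 0 := by
      rw [← mul_smul, ← ht, addOrderOf_nsmul_eq_zero]
    have h2 : t • (p • x) ≠ 0 := by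
      apply nsmul_ne_zero_of_lt_addOrderOf ht0.ne'
      rw [ht]; exact lt_mul_of_one_lt_left ht0 hp.one_lt
    obtain ⟨s, hs⟩ := dst_ker_gen hp hpn (t • (p • x)) c h1 h2 hc
    rw [hs, ← mul_smul]
    exact AddSubgroup.nsmul_mem _ (AddSubgroup.mem_zmultiples _) _
  have hle : AddSubgroup.zmultiples (p • x) ≤ AddSubgroup.zmultiples x := by
    rw [AddSubgroup.zmultiples_le]
    exact AddSubgroup.nsmul_mem _ (AddSubgroup.mem_zmultiples _) _
  apply le_antisymm
  · rw [AddSubgroup.zmultiples_le]
    exact add_mem (AddSubgroup.mem_zmultiples _) (hle key)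
  · rw [AddSubgroup.zmultiples_le]
    have hle' : AddSubgroup.zmultiples (p • x) ≤ AddSubgroup.zmultiples (x + c) := by
      rw [AddSubgroup.zmultiples_le]
      have : p • x = p • (x + c) := by rw [smul_add, hc, add_zero]
      rw [this]
      exact AddSubgroup.nsmul_mem _ (AddSubgroup.mem_zmultiples _) _
    have hx' : (x + c) - c ∈ AddSubgroup.zmultiples (x + c) :=
      sub_mem (AddSubgroup.mem_zmultiples _) (hle' key)
    rwa [add_sub_cancel_right] at hx'

theorem dst_struct_aux (P : PSR n)
    (hrat : ∀ i j : ZMod n, AddSubgroup.zmultiples i = AddSubgroup.zmultiples j →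
      P.rel (r i) (r j))
    (p : ℕ) (hp : p.Prime) (hpn : p ∣ n) (h2 : p = 2 → ∃ e : ℕ, n = 2 ^ e)
    (hA : ∀ h : DihedralGroup n, h ≠ 1 → ∃ i : ZMod n, P.rel h (r i) ∧ p ∣ addOrderOf i)
    (hfrob : p ≠ 2 → ∀ f : DihedralGroup n → ℤ, Resp P.rel f → ∀ k : ZMod n,
      (p : ℤ) ∣ cpow f p (r k) -
        ∑ i ∈ Finset.univ.filter (fun i : ZMod n => p • i = k), f (r i))
    (hresp : ∀ f : DihedralGroup n → ℤ, Resp P.rel f → Resp P.rel (cpow f p))
    (i c : ZMod n) (hi : p • i ≠ 0) (hc : p • c = 0) : P.rel (r i) (r (i + c)) := by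
  classical
  by_cases hp2 : p = 2
  · obtain ⟨e, he⟩ := h2 hp2
    apply hrat
    symm
    apply dst_U1 hp hpn i c _ hc
    have hd : addOrderOf (p • i) ∣ 2 ^ e := by
      have := addOrderOf_dvd_card (x := p • i)
      rw [ZMod.card] at this
      exact he ▸ this
    obtain ⟨k, hk, hk'⟩ := (Nat.dvd_prime_pow Nat.prime_two).1 hd
    rw [hk', hp2]
    have : k ≠ 0 := by
      rintro rfl
      rw [pow_zero, AddMonoid.addOrderOf_eq_one_iff] at hk'
      exact hi hk'
    exact dvd_pow_self 2 this
  · have hfrob' := hfrob hp2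
    have hfR : Resp P.rel (fun h : DihedralGroup n => if P.rel h (r i) then (1 : ℤ) else 0) := by
      intro h h' hhh'
      have : P.rel h (r i) ↔ P.rel h' (r i) :=
        ⟨fun H => P.equiv.trans (P.equiv.symm hhh') H, fun H => P.equiv.trans hhh' H⟩
      simp only [this]
    have hgR := hresp _ hfR
    have hry : r (p • i) ≠ (1 : DihedralGroup n) := by
      rw [DihedralGroup.one_def]
      intro h
      exact hi (by injection h)
    obtain ⟨j, hj, hpj⟩ := hA (r (p • i)) hry
    have hgy := hgR _ _ hj
    have hFj : (p : ℤ) ∣ ∑ x ∈ Finset.univ.filter (fun x : ZMod n => p • x = j),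
        (fun h : DihedralGroup n => if P.rel h (r i) then (1 : ℤ) else 0) (r x) := by
      by_cases hne : (Finset.univ.filter (fun x : ZMod n => p • x = j)).Nonempty
      · obtain ⟨x1, hx1⟩ := hne
        rw [Finset.mem_filter] at hx1
        have hx1j := hx1.2
        have hall : ∀ x ∈ Finset.univ.filter (fun x : ZMod n => p • x = j),
            (fun h : DihedralGroup n => if P.rel h (r i) then (1 : ℤ) else 0) (r x) =
            (fun h : DihedralGroup n => if P.rel h (r i) then (1 : ℤ) else 0) (r x1) := by
          intro x hx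
          rw [Finset.mem_filter] at hx
          apply hfR
          apply hrat
          have hxc : x = x1 + (x - x1) := by abel
          rw [hxc]
          apply dst_U1 hp hpn x1 (x - x1) (by rw [hx1j]; exact hpj)
          rw [smul_sub, hx.2, hx1j, sub_self]
        rw [Finset.sum_congr rfl hall, Finset.sum_const, ← hx1j, dst_card_fib hp hpn x1,
          nsmul_eq_mul]
        exact dvd_mul_right _ _
      · rw [Finset.not_nonempty_iff_eq_empty] at hne
        rw [hne, Finset.sum_empty]
        exact dvd_zero _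
    have hFy : (p : ℤ) ∣ ∑ x ∈ Finset.univ.filter (fun x : ZMod n => p • x = p • i),
        (fun h : DihedralGroup n => if P.rel h (r i) then (1 : ℤ) else 0) (r x) := by
      have h1 := hfrob' _ hfR (p • i)
      have h2 := hfrob' _ hfR j
      rw [hgy] at h1
      have h4 := dvd_add (dvd_sub h2 h1) hFj
      have e : ∀ a b c : ℤ, (a - b) - (a - c) + b = c := by intro a b c; ring
      rwa [e] at h4
    have hsum : ∑ x ∈ Finset.univ.filter (fun x : ZMod n => p • x = p • i),
        (fun h : DihedralGroup n => if P.rel h (r i) then (1 : ℤ) else 0) (r x) =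
        (((Finset.univ.filter (fun x : ZMod n => p • x = p • i)).filter
          (fun x => P.rel (r x) (r i))).card : ℤ) := by
      rw [Finset.card_filter]
      push_cast
      rfl
    rw [hsum] at hFy
    have hdvd := Int.natCast_dvd_natCast.1 hFy
    have hiS : i ∈ (Finset.univ.filter (fun x : ZMod n => p • x = p • i)).filter
          (fun x => P.rel (r x) (r i)) := by
      rw [Finset.mem_filter, Finset.mem_filter]
      exact ⟨⟨Finset.mem_univ _, rfl⟩, P.equiv.refl _⟩
    have hpos := Finset.card_pos.2 ⟨i, hiS⟩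
    have hle : (Finset.univ.filter (fun x : ZMod n => p • x = p • i)).card ≤
        ((Finset.univ.filter (fun x : ZMod n => p • x = p • i)).filter
          (fun x => P.rel (r x) (r i))).card := by
      rw [dst_card_fib hp hpn i]
      exact Nat.le_of_dvd hpos hdvd
    have heq := Finset.eq_of_subset_of_card_le (Finset.filter_subset _ _) hle
    have hic : i + c ∈ Finset.univ.filter (fun x : ZMod n => p • x = p • i) := by
      rw [Finset.mem_filter]
      refine ⟨Finset.mem_univ _, ?_⟩
      rw [smul_add, hc, add_zero]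
    rw [← heq, Finset.mem_filter] at hic
    exact P.equiv.symm hic.2

end Cfsg.Agent.H12.Dih
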