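import Mathlib
import Cfsg.Agent.H59.GagDefs

set_option autoImplicit false

/-!
# S4840-BASIS (helper12, for helper59's Gagola project)

In dimension 2 over `𝔽_p`, a linear group as in `Lin` becomes a matrix group as in `MatLin`.
-/

namespace Cfsg.Agent.H12.Gag

open Cfsg Cfsg.Agent.H59.Gag

universe u

/-- **S4840-BASIS.** -/
theorem basis : BasisStmt.{u} := by
  intro X _ p _ V _ _ _ ρ hL hcard
  have hp : p.Prime := Fact.out
  have hfr : Module.finrank (ZMod p) V = 2 := by
    have h1 := Module.natCard_eq_pow_finrank (K := ZMod p) (V := V)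
    rw [hcard, Nat.card_zmod] at h1
    exact (Nat.pow_right_injective hp.two_le h1).symm
  let b : Module.Basis (Fin 2) (ZMod p) V := Module.finBasisOfFinrankEq (ZMod p) V hfr
  let ψ : X →* Matrix.GeneralLinearGroup (Fin 2) (ZMod p) :=
    (Units.map (LinearMap.toMatrixAlgEquiv b).toMonoidHom).comp
      ((LinearMap.GeneralLinearGroup.generalLinearEquiv (ZMod p) V).symm.toMonoidHom.comp ρ)
  have hval : ∀ g, (ψ g).val = LinearMap.toMatrix b b ((ρ g : V ≃ₗ[ZMod p] V) : V →ₗ[ZMod p] V) :=
    fun g => rfl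
  have key : ∀ g x, (ψ g).val.mulVec (b.equivFun x) = b.equivFun (ρ g x) := by
    intro g x
    rw [hval]
    exact LinearMap.toMatrix_mulVec_repr b b ((ρ g : V ≃ₗ[ZMod p] V) : V →ₗ[ZMod p] V) x
  have hsymm : ∀ v : Fin 2 → ZMod p, v ≠ 0 → b.equivFun.symm v ≠ 0 := by
    intro v hv h
    apply hv
    have h1 := congrArg b.equivFun h
    rw [LinearEquiv.apply_symm_apply, map_zero] at h1
    exact h1
  refine ⟨ψ, ⟨?_, ?_, ?_⟩⟩
  · intro g h hgh
    apply hL.inj
    have h1 : (ψ g).val = (ψ h).val := by rw [hgh]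
    rw [hval, hval] at h1
    have h2 := (LinearMap.toMatrix b b).injective h1
    exact LinearEquiv.toLinearMap_injective h2
  · intro v w hv hw
    obtain ⟨g, hg⟩ := hL.trans _ _ (hsymm v hv) (hsymm w hw)
    refine ⟨g, ?_⟩
    have h1 := key g (b.equivFun.symm v)
    rw [hg, LinearEquiv.apply_symm_apply, LinearEquiv.apply_symm_apply] at h1
    exact h1
  · intro v hv g hg
    refine hL.stab _ (hsymm v hv) g ?_
    have h1 := key g (b.equivFun.symm v)
    rw [LinearEquiv.apply_symm_apply, hg] at h1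
    apply b.equivFun.injective
    rw [← h1, LinearEquiv.apply_symm_apply]

example : BasisStmt.{u} := basis

end Cfsg.Agent.H12.Gag
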