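import Mathlib
import Cfsg.Agent.H59.GagDefs
import Cfsg.Agent.H17.O4MinusB

set_option autoImplicit false

/-!
# S4840-SLFIN5 (helper12, for helper59's Gagola project)

A finite group with an injective homomorphism to `GL₂(p)` whose image contains `SL₂(p)`, `p ≥ 5`,
is not solvable.
-/

namespace Cfsg.Agent.H12.Gag

open Cfsg Cfsg.Agent.H59.Gag

universe u

/-- A perfect nontrivial group is not solvable. -/
theorem slfin5_not_solvable_of_perfect {H : Type*} [Group H] [Nontrivial H]
    (h : commutator H = ⊤) : ¬ Group.IsSolvable H := by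
  intro hs
  obtain ⟨n, hn⟩ := hs.solvable
  have h1 : ∀ k : ℕ, derivedSeries H k = ⊤ := by
    intro k
    induction k with
    | zero => rfl
    | succ k ih =>
      rw [derivedSeries_succ, ih]
      exact h
  rw [h1 n] at hn
  exact top_ne_bot hn

/-- **S4840-SLFIN5.** -/
theorem slfin5 : SLFin5Stmt.{u} := by
  intro X _ _ p _ ψ hinj hsl hp5 hsolv
  have hp : p.Prime := Fact.out
  choose s hs using hsl
  have hmul : ∀ A B : Matrix.SpecialLinearGroup (Fin 2) (ZMod p), s (A * B) = s A * s B := by
    intro A B
    apply hinj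
    apply Units.ext
    rw [map_mul, Units.val_mul, hs, hs, hs]
    rfl
  have hone : s 1 = 1 := by
    apply hinj
    apply Units.ext
    rw [map_one, hs]
    rfl
  let f : Matrix.SpecialLinearGroup (Fin 2) (ZMod p) →* X :=
    { toFun := s, map_one' := hone, map_mul' := hmul }
  have hf : Function.Injective f := by
    intro A B hAB
    have h1 : s A = s B := hAB
    apply Subtype.ext
    rw [← hs A, ← hs B, h1]
  have hsol : Group.IsSolvable (Matrix.SpecialLinearGroup (Fin 2) (ZMod p)) :=
    Group.isSolvable_of_isSolvable_injective hf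
  have : NeZero p := ⟨hp.ne_zero⟩
  have hcard : 4 ≤ Fintype.card (ZMod p) := by
    rw [ZMod.card]; omega
  have hperf := Cfsg.Agent.H17.sl2_perfect (K := ZMod p) hcard
  have : Nontrivial (Matrix.SpecialLinearGroup (Fin 2) (ZMod p)) := by
    refine ⟨⟨1, ⟨!![1, 1; 0, 1], by simp [Matrix.det_fin_two]⟩, ?_⟩⟩
    intro h
    have h1 := congrArg (fun A : Matrix.SpecialLinearGroup (Fin 2) (ZMod p) => A.val 0 1) h
    simp at h1
  exact slfin5_not_solvable_of_perfect hperf hsol

example : SLFin5Stmt.{u} := slfin5

end Cfsg.Agent.H12.Gag
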