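import Cfsg.Agent.H79.QuotientRank
import Cfsg.Agent.H4.GalB0
import Cfsg.Agent.H84.PrincipalPairs
import Cfsg.Agent.H20.PElement
import Cfsg.Agent.H82.Irr
import Cfsg.Agent.H81.Proj

/-!
# S4588-DOM (helper12): principal-block characters and a central cyclic `p`-subgroup

Piece `S4588-DOM` of helper84's team project S4588.
-/

set_option autoImplicit false
set_option linter.unusedSectionVars false
set_option linter.style.haveILetI false

namespace Cfsg.Agent.H12.K0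

open Cfsg

universe u

/-- **S4588-DOM** (exact posted statement). -/
theorem exists_quot_char {H : Type u} [Group H] [Fintype H] (p : ℕ) [Fact p.Prime]
    (M : Ideal AlgInt) (hM : IsPModular p M)
    (z : H) (hz : z ∈ Subgroup.center H) (hzp : ∃ k : ℕ, orderOf z = p ^ k)
    (htw : ∀ ω : ℂˣ, ω ^ orderOf z = 1 →
      ∃ τ : H →* ℂˣ, τ z = ω ∧ ∀ y : H, ¬ p ∣ orderOf y → τ y = 1)
    [(Subgroup.zpowers z).Normal] [Fintype (H ⧸ Subgroup.zpowers z)]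
    (ξ : IrrCharacter H) (hξ : ξ ∈ principalBlock M H) :
    ∃ ψ : IrrCharacter (H ⧸ Subgroup.zpowers z),
      ψ ∈ principalBlock M (H ⧸ Subgroup.zpowers z) ∧
      ∀ y : H, ¬ p ∣ orderOf y →
        (ξ : H → ℂ) y = (ψ : H ⧸ Subgroup.zpowers z → ℂ) (QuotientGroup.mk y) := by
  classical
  have hξ1 : (ξ : H → ℂ) 1 ≠ 0 := Cfsg.Agent.H4.irr_one_ne_zero ξ
  set ω₀ : ℂ := (ξ : H → ℂ) z / (ξ : H → ℂ) 1 with hω₀
  have hpow : ∀ n : ℕ, (ξ : H → ℂ) (z ^ n) = ω₀ ^ n * (ξ : H → ℂ) 1 :=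
    fun n => Cfsg.Agent.H20.irr_central_pow ξ hz n
  have hω₀ord : ω₀ ^ orderOf z = 1 := by
    have h := hpow (orderOf z)
    rw [pow_orderOf_eq_one] at h
    have h' : ω₀ ^ orderOf z * (ξ : H → ℂ) 1 = 1 * (ξ : H → ℂ) 1 := by rw [← h, one_mul]
    exact mul_right_cancel₀ hξ1 h'
  have hω₀ne : ω₀ ≠ 0 := by
    intro h0
    rw [h0, zero_pow (orderOf_pos z).ne'] at hω₀ord
    exact zero_ne_one hω₀ord
  let ωu : ℂˣ := Units.mk0 ω₀ hω₀ne
  have hωu : ωu⁻¹ ^ orderOf z = 1 := by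
    rw [inv_pow, inv_eq_one]
    apply Units.ext
    rw [Units.val_pow_eq_pow_val]
    exact hω₀ord
  obtain ⟨τ, hτz, hτreg⟩ := htw ωu⁻¹ hωu
  let ξ' : IrrCharacter H := ⟨fun g => ((τ g : ℂˣ) : ℂ) * (ξ : H → ℂ) g,
    Cfsg.Agent.H4.isIrrCharacter_hom_mul τ ξ.2⟩
  have hξ'N : ∀ x ∈ Subgroup.zpowers z, ξ'.1 x = ξ'.1 1 := by
    intro x hx
    obtain ⟨n, rfl⟩ := (mem_powers_iff_mem_zpowers.mpr hx)
    show ((τ (z ^ n) : ℂˣ) : ℂ) * (ξ : H → ℂ) (z ^ n) = ((τ 1 : ℂˣ) : ℂ) * (ξ : H → ℂ) 1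
    rw [map_pow, hτz, hpow n, map_one]
    have h1 : ((ωu⁻¹ ^ n : ℂˣ) : ℂ) * ω₀ ^ n = 1 := by
      rw [Units.val_pow_eq_pow_val, ← mul_pow]
      have : ((ωu⁻¹ : ℂˣ) : ℂ) * ω₀ = 1 := by
        rw [Units.val_inv_eq_inv_val]
        exact inv_mul_cancel₀ hω₀ne
      rw [this, one_pow]
    rw [← mul_assoc, h1, Units.val_one]
  obtain ⟨ψ, hψ⟩ := Cfsg.Agent.H82.exists_deflate (Subgroup.zpowers z) ξ' hξ'N
  have hval : ∀ y : H, ¬ p ∣ orderOf y → ξ'.1 y = ξ.1 y := by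
    intro y hy
    show ((τ y : ℂˣ) : ℂ) * (ξ : H → ℂ) y = _
    rw [hτreg y hy, Units.val_one, one_mul]
  have hreg : Cfsg.Agent.H84.regSum p ξ'.1 = Cfsg.Agent.H84.regSum p ξ.1 := by
    unfold Cfsg.Agent.H84.regSum
    refine Finset.sum_congr rfl fun g _ => ?_
    by_cases hg : p ∣ orderOf g
    · rw [Cfsg.Agent.H81.pRegularPart_of_dvd p _ hg, Cfsg.Agent.H81.pRegularPart_of_dvd p _ hg]
    · rw [Cfsg.Agent.H81.pRegularPart_of_not_dvd p _ hg,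
        Cfsg.Agent.H81.pRegularPart_of_not_dvd p _ hg, hval g hg]
  have hξ'B : ξ' ∈ principalBlock M H := by
    rw [Cfsg.Agent.H84.mem_principalBlock_iff_regSum hM, hreg]
    exact (Cfsg.Agent.H84.mem_principalBlock_iff_regSum hM ξ).mp hξ
  have hQ : IsPGroup p (Subgroup.zpowers z) := by
    obtain ⟨k, hk⟩ := hzp
    exact IsPGroup.of_card (n := k) (by rw [Nat.card_zpowers, hk])
  have hsup : Subgroup.zpowers z ⊔
      Subgroup.centralizer ((Subgroup.zpowers z : Subgroup H) : Set H) = ⊤ := by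
    rw [eq_top_iff]
    intro g _
    apply Subgroup.mem_sup_right
    rw [Subgroup.mem_centralizer_iff]
    intro x hx
    have hxc : x ∈ Subgroup.center H := (Subgroup.zpowers_le.mpr hz) hx
    exact (Subgroup.mem_center_iff.mp hxc g).symm
  refine ⟨ψ, ?_, ?_⟩
  · rw [← Cfsg.Agent.H79.inflate_mem_principalBlock_iff hM (Subgroup.zpowers z) hQ hsup ψ, hψ]
    exact hξ'B
  · intro y hy
    rw [← hval y hy, ← hψ, Cfsg.Agent.H82.inflate_apply]

end Cfsg.Agent.H12.K0
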