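import Mathlib
import Cfsg.Agent.H64.MgDefs

/-!
# MG-DES (helper12, for helper64's S3620)

`des : DESStmt` : the translates of a set under a 2-transitive group form a 2-design
(the number of translates through two distinct points does not depend on the points).
-/

set_option autoImplicit false
open scoped Pointwise
open MulAction

namespace Cfsg.Agent.H12.Mg

open Cfsg.Agent.H64.Mg

universe u v

/-- 2-transitivity on ordered pairs, from `KT M α 2`. -/
theorem kt2_pair {M : Type u} {α : Type v} [Group M] [MulAction M α]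
    (hKT : KT M α 2) {x y x' y' : α} (hxy : x ≠ y) (hxy' : x' ≠ y') :
    ∃ g : M, g • x = x' ∧ g • y = y' := by
  obtain ⟨g₁, -, h₁⟩ := hKT ∅ (by simp) x (by simp) x' (by simp)
  have hne : g₁ • y ∉ ({x'} : Finset α) := by
    rw [Finset.mem_singleton]
    intro h
    apply hxy
    rw [← h₁] at h
    exact (smul_left_cancel g₁ h).symm
  have hne' : y' ∉ ({x'} : Finset α) := by
    rw [Finset.mem_singleton]
    exact fun h => hxy' h.symm
  obtain ⟨g₂, h₂, h₂'⟩ := hKT {x'} (by simp) (g₁ • y) hne y' hne'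
  refine ⟨g₂ * g₁, ?_, ?_⟩
  · rw [mul_smul, h₁]
    exact h₂ x' (Finset.mem_singleton_self _)
  · rw [mul_smul]
    exact h₂'

/-- **MG-DES**. -/
theorem des : DESStmt.{u, v} := by
  intro M α _ _ _ _ hKT Γ x y x' y' hxy hxy'
  obtain ⟨g, hgx, hgy⟩ := kt2_pair hKT hxy hxy'
  apply Set.ncard_congr (fun T _ => g • T)
  · rintro T ⟨⟨k, rfl⟩, hx, hy⟩
    refine ⟨⟨g * k, by rw [mul_smul]⟩, ?_, ?_⟩
    · rw [← hgx]
      exact Finset.smul_mem_smul_finset hx
    · rw [← hgy]
      exact Finset.smul_mem_smul_finset hy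
  · intro T₁ T₂ _ _ h
    exact smul_left_cancel g h
  · rintro T ⟨⟨k, rfl⟩, hx, hy⟩
    refine ⟨g⁻¹ • (k • Γ), ⟨⟨g⁻¹ * k, by rw [mul_smul]⟩, ?_, ?_⟩, by simp⟩
    · rw [Finset.mem_inv_smul_finset_iff, hgx]
      exact hx
    · rw [Finset.mem_inv_smul_finset_iff, hgy]
      exact hy

example : DESStmt.{u, v} := des

end Cfsg.Agent.H12.Mg
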