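import Mathlib
import Cfsg.Agent.H64.MgDefs
import Cfsg.Agent.H12.MgDes

/-!
# MG-DA (helper12, for helper64's S3620)

`da : CONJStmt → DAStmt` : the setwise stabilizer of `Δ` is 2-transitive on `Δ` and has `W`
as a `JC` set.
-/

set_option autoImplicit false
open scoped Pointwise
open MulAction

namespace Cfsg.Agent.H12.Mg

open Cfsg.Agent.H64.Mg

universe u v

/-- **MG-DA**. -/
theorem da (hconj : CONJStmt.{u, v}) : DAStmt.{u, v} := by
  intro M α _ _ _ _ hKT Δ hJC hcard W hWΔ hJW hW1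
  refine ⟨?_, ?_⟩
  · intro x₁ hx₁ x₂ hx₂ y₁ hy₁ y₂ hy₂ hx hy
    obtain ⟨g, hg1, hg2⟩ := kt2_pair hKT hx hy
    have hy₁' : y₁ ∈ g • Δ ∩ Δ := by
      rw [Finset.mem_inter]
      exact ⟨by rw [← hg1]; exact Finset.smul_mem_smul_finset hx₁, hy₁⟩
    have hy₂' : y₂ ∈ g • Δ ∩ Δ := by
      rw [Finset.mem_inter]
      exact ⟨by rw [← hg2]; exact Finset.smul_mem_smul_finset hx₂, hy₂⟩
    have hc2 : 2 ≤ (g • Δ ∩ Δ).card := by
      have hsub : ({y₁, y₂} : Finset α) ⊆ g • Δ ∩ Δ := by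
        intro z hz
        rw [Finset.mem_insert, Finset.mem_singleton] at hz
        rcases hz with rfl | rfl
        · exact hy₁'
        · exact hy₂'
      have h2 := Finset.card_le_card hsub
      rw [Finset.card_pair hy] at h2
      exact h2
    obtain ⟨h₂, hfix, hmap⟩ := hconj M α (g • Δ) Δ (Finset.card_smul_finset g Δ) (hJC.smul g) hJC
      (by rw [Finset.card_smul_finset]; omega)
    refine ⟨h₂ * g, ?_, ?_, ?_⟩
    · rw [mul_smul]; exact hmap
    · rw [mul_smul, hg1]; exact hfix y₁ hy₁'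
    · rw [mul_smul, hg2]; exact hfix y₂ hy₂'
  · intro x hx hxW y hy hyW
    obtain ⟨g, hgW, hgx⟩ := hJW x hxW y hyW
    have hWsub : W ⊆ g • Δ ∩ Δ := by
      intro z hz
      rw [Finset.mem_inter]
      refine ⟨?_, hWΔ hz⟩
      rw [← hgW z hz]
      exact Finset.smul_mem_smul_finset (hWΔ hz)
    have hy' : y ∈ g • Δ ∩ Δ := by
      rw [Finset.mem_inter]
      exact ⟨by rw [← hgx]; exact Finset.smul_mem_smul_finset hx, hy⟩
    have hc2 : 2 ≤ (g • Δ ∩ Δ).card := by
      have hsub : insert y W ⊆ g • Δ ∩ Δ := by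
        intro z hz
        rw [Finset.mem_insert] at hz
        rcases hz with rfl | hz
        · exact hy'
        · exact hWsub hz
      have h2 := Finset.card_le_card hsub
      rw [Finset.card_insert_of_notMem hyW] at h2
      omega
    obtain ⟨h₂, hfix, hmap⟩ := hconj M α (g • Δ) Δ (Finset.card_smul_finset g Δ) (hJC.smul g) hJC
      (by rw [Finset.card_smul_finset]; omega)
    refine ⟨h₂ * g, ?_, ?_, ?_⟩
    · rw [mul_smul]; exact hmap
    · intro z hz
      rw [mul_smul, hgW z hz]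
      exact hfix z (hWsub hz)
    · rw [mul_smul, hgx]; exact hfix y hy'

example (hconj : CONJStmt.{u, v}) : DAStmt.{u, v} := da hconj

end Cfsg.Agent.H12.Mg
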