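import Mathlib
import Cfsg.Agent.H64.MgDefs
import Cfsg.Agent.H12.MgDA

/-!
# MG-C1SUB (helper12, for helper64's S3620)

`c1sub : CONJStmt → C1SUBStmt` : if `Δ` minus a point is `JC`, every subset of `Δ` is `JC`.
-/

set_option autoImplicit false
open scoped Pointwise
open MulAction

namespace Cfsg.Agent.H12.Mg

open Cfsg.Agent.H64.Mg

universe u v

/-- **MG-C1SUB**. -/
theorem c1sub (hconj : CONJStmt.{u, v}) : C1SUBStmt.{u, v} := by
  intro M α _ _ _ _ hKT Δ hJC hcard hcard' δ hδ hJδ
  -- a point outside `Δ`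
  obtain ⟨z₀, hz₀⟩ : ∃ z, z ∉ Δ := by
    by_contra hcon
    push Not at hcon
    have h1 : Δ = Finset.univ := Finset.eq_univ_iff_forall.mpr hcon
    rw [h1, Finset.card_univ] at hcard'
    omega
  have hpos : 1 ≤ Δ.card := Finset.card_pos.mpr ⟨δ, hδ⟩
  -- (a), (b): `Δ.erase x` is `JC` for every `x ∈ Δ`
  have herase : ∀ x ∈ Δ, JC M (Δ.erase x) := by
    intro x hx
    by_cases hxδ : x = δ
    · rw [hxδ]; exact hJδ
    · obtain ⟨h, hΔ, h1, -⟩ := (da hconj M α hKT Δ hJC hcard Δ (Finset.Subset.refl _) hJC hpos).1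
        δ hδ x hx x hx δ hδ (fun e => hxδ e.symm) hxδ
      have h2 : Δ.erase x = h • Δ.erase δ := by
        rw [Finset.erase_eq, Finset.erase_eq, Finset.smul_finset_sdiff, hΔ,
          Finset.smul_finset_singleton, h1]
      rw [h2]
      exact hJδ.smul h
  -- (c): induction on `(Δ \ S).card`
  have key : ∀ n : ℕ, ∀ S : Finset α, S ⊆ Δ → (Δ \ S).card = n → JC M S := by
    intro n
    induction n with
    | zero =>
      intro S hS hn
      have h1 : Δ \ S = ∅ := Finset.card_eq_zero.mp hn
      have h2 : Δ ⊆ S := Finset.sdiff_eq_empty_iff_subset.mp h1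
      rw [Finset.Subset.antisymm hS h2]
      exact hJC
    | succ n ih =>
      intro S hS hn
      have hne : (Δ \ S).Nonempty := by
        rw [← Finset.card_pos]; omega
      obtain ⟨x, hx⟩ := hne
      rw [Finset.mem_sdiff] at hx
      have hS' : insert x S ⊆ Δ := Finset.insert_subset hx.1 hS
      have hn' : (Δ \ insert x S).card = n := by
        have h3 : Δ \ insert x S = (Δ \ S).erase x := by
          ext z
          simp only [Finset.mem_sdiff, Finset.mem_insert, Finset.mem_erase]
          tauto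
        rw [h3, Finset.card_erase_of_mem (Finset.mem_sdiff.mpr hx), hn]
        rfl
      have hJ1 : JC M (insert x S) := ih _ hS' hn'
      have hJ2 : JC M (Δ.erase x) := herase x hx.1
      have hSeq : S = insert x S ∩ Δ.erase x := by
        ext z
        simp only [Finset.mem_inter, Finset.mem_insert, Finset.mem_erase]
        constructor
        · intro hz
          exact ⟨Or.inr hz, fun e => hx.2 (e ▸ hz), hS hz⟩
        · rintro ⟨hz | hz, hzx, -⟩
          · exact absurd hz hzx
          · exact hz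
      rw [hSeq]
      exact hJ1.inter hJ2 ⟨z₀, fun h => hz₀ (hS' h), fun h => hz₀ (Finset.mem_of_mem_erase h)⟩
  intro S hS
  exact key _ S hS rfl

example (hconj : CONJStmt.{u, v}) : C1SUBStmt.{u, v} := c1sub hconj

end Cfsg.Agent.H12.Mg
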