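import Mathlib
import Cfsg.Prelude.Def_Blocks
import Cfsg.Agent.H79.OddIndex
import Cfsg.Agent.H79.PrincipalCover
import Cfsg.Agent.Lib.Glaub.Cyc
import Cfsg.Agent.H82.CyclicExtChar
import Cfsg.Agent.H4.Clifford

/-!
# Galois-fixed characters over a normal subgroup of odd index: existence and the cyclic case
(helper12, after the lead's design D2)

* `oddExt_exists_fixed_over`: for `N` normal of odd index and `θ ∈ Irr(N)` fixed by `n ↦ n ^ k`
  (`k` of 2-power order modulo `|G|`), some `χ ∈ Irr(G | θ)` is fixed by `g ↦ g ^ k`.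
* `oddExt_cyclic`: if moreover `θ` is `G`-invariant and `G / N` is cyclic, that `χ` extends `θ`.
-/

set_option autoImplicit false

namespace Cfsg.Agent.H12

open Cfsg Cfsg.Agent.H4 Cfsg.Agent.H79 Cfsg.Agent.Clifford
open scoped ComplexConjugate

universe u

section

variable {G : Type u} [Group G] [Fintype G]

/-- **Existence by parity.** -/
theorem oddExt_exists_fixed_over (N : Subgroup G) [hN : N.Normal] [Fintype N] (hidx : Odd N.index)
    (k e : ℕ) (hk : k.Coprime (Nat.card G)) (hke : k ^ (2 ^ e) ≡ 1 [MOD Nat.card G])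
    (θ : IrrCharacter N) (hθ : ∀ n : N, θ.1 (n ^ k) = θ.1 n) :
    ∃ χ : IrrCharacter G, (∀ g, χ.1 (g ^ k) = χ.1 g) ∧
      classInner (fun n : N => χ.1 n) θ.1 ≠ 0 := by
  classical
  let _ : Fintype (IrrCharacter G) := fintypeIrr G
  have hnat : ∀ χ : IrrCharacter G, ∃ n : ℕ, classInner (fun n : N => χ.1 n) θ.1 = n := fun χ =>
    classInner_isCharacter_nat (isCharacter_restrict N (isCharacter_of_isIrrCharacter χ.2))
      (isCharacter_of_isIrrCharacter θ.2)
  choose eN heN using hnat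
  obtain ⟨t, ht⟩ := exists_orbit_card N θ
  let w : IrrCharacter G → ℕ := fun χ => eN χ ^ 2
  have hθ1 : θ.1 1 ≠ 0 := Cfsg.Agent.H4.irr_one_ne_zero θ
  have hind : indFun N θ.1 = ∑ χ : IrrCharacter G, (eN χ : ℂ) • χ.1 := by
    have hcl : IsClassFunction G (indFun N θ.1) := indFun_isClassFunction N θ.1
    have h := classFunction_eq_finsum hcl
    rw [finsum_irr_eq_sum] at h
    refine h.trans ?_
    refine Finset.sum_congr rfl fun χ _ => ?_
    congr 1
    rw [frobenius_reciprocity N θ.1 χ.1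
      (isClassFunction_of_isCharacter (isCharacter_of_isIrrCharacter χ.2)),
      ← classInner_conj_symm, heN, Complex.conj_natCast]
  have h1 : (N.index : ℂ) * θ.1 1 = ∑ χ : IrrCharacter G, (eN χ : ℂ) * χ.1 1 := by
    rw [← indFun_one_eq N θ.1, hind]
    simp [Finset.sum_apply]
  have h2 : ∀ χ : IrrCharacter G, (eN χ : ℂ) * χ.1 1 = ((w χ : ℕ) : ℂ) * ((t : ℂ) * θ.1 1) := by
    intro χ
    have h := ht χ
    rw [heN, Complex.conj_natCast] at h
    simp only [w]
    push_cast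
    rw [mul_comm, h]
    ring
  have h3 : (N.index : ℂ) * θ.1 1 = ((t * ∑ χ : IrrCharacter G, w χ : ℕ) : ℂ) * θ.1 1 := by
    rw [h1, Finset.sum_congr rfl (fun χ _ => h2 χ), ← Finset.sum_mul]
    push_cast
    ring
  have h4 : N.index = t * ∑ χ : IrrCharacter G, w χ := by
    have := mul_right_cancel₀ hθ1 h3
    exact_mod_cast this
  have hodd : Odd (∑ χ : IrrCharacter G, w χ) := by
    rw [h4] at hidx
    exact (Nat.odd_mul.mp hidx).2
  have hfix : ∀ χ : IrrCharacter G, (irrPow k hk)^[2 ^ e] χ = χ := by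
    intro χ
    apply Subtype.ext
    funext g
    rw [iterate_irrPow]
    have h1 : k ^ (2 ^ e) ≡ 1 [MOD orderOf g] := hke.of_dvd (orderOf_dvd_natCard g)
    have h2 := pow_eq_pow_iff_modEq.mpr h1
    rw [pow_one] at h2
    rw [h2]
  have hw : ∀ χ, w (irrPow k hk χ) = w χ := by
    intro χ
    have h3 : eN (irrPow k hk χ) = eN χ := by
      have h := classInner_res_irrPow N k hk θ.1 hθ χ
      rw [heN, heN] at h
      exact_mod_cast h
    simp only [w, h3]
  obtain ⟨χ, hχfix, hχodd⟩ := exists_fixed_odd (irrPow k hk) e hfix w hw hodd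
  refine ⟨χ, ?_, ?_⟩
  · intro g
    exact congrFun (congrArg Subtype.val hχfix) g
  · rw [heN]
    intro h0
    have h4 : eN χ = 0 := by exact_mod_cast h0
    simp only [w] at hχodd
    rw [h4] at hχodd
    simp at hχodd

/-- **The cyclic case.** -/
theorem oddExt_cyclic (N : Subgroup G) [hN : N.Normal] [Fintype N] (hidx : Odd N.index)
    (k e : ℕ) (hk : k.Coprime (Nat.card G)) (hke : k ^ (2 ^ e) ≡ 1 [MOD Nat.card G])
    (hcyc : IsCyclic (G ⧸ N)) (θ : N → ℂ) (hθirr : IsIrrCharacter N θ)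
    (hθ : ∀ n : N, θ (n ^ k) = θ n) (hinv : ∀ g : G, conjChar N θ g = θ) :
    ∃ χ : G → ℂ, IsIrrCharacter G χ ∧ (∀ g, χ (g ^ k) = χ g) ∧ ∀ n : N, χ n = θ n := by
  classical
  obtain ⟨η, hηirr, hηres⟩ := Cfsg.Agent.H82.exists_extension_of_cyclic N hcyc θ hθirr
    (fun g n => congrFun (hinv g) n)
  obtain ⟨ψ, hψfix, hψover⟩ := oddExt_exists_fixed_over N hidx k e hk hke ⟨θ, hθirr⟩ hθ
  obtain ⟨ℓ, x₀, hker, hpow, -, -⟩ := Cfsg.Agent.Glaub.Cyc.exists_lin hcyc
  have hcard : Nat.card G = Nat.card N * N.index := (Subgroup.card_mul_index N).symm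
  have h1 := Cfsg.Agent.Glaub.Cyc.coset_inner N.index ℓ hker hpow hcard ψ.1 η (1 : G)
  have hN0 : (Nat.card N : ℂ) ≠ 0 := by
    have : 0 < Nat.card N := Nat.card_pos
    exact_mod_cast this.ne'
  have hL : ∑ u : N, ψ.1 ((u : G) * 1) * conj (η ((u : G) * 1))
      = (Nat.card N : ℂ) * classInner (fun n : N => ψ.1 n) θ := by
    unfold classInner
    rw [← mul_assoc, mul_inv_cancel₀ hN0, one_mul]
    refine Finset.sum_congr rfl fun u _ => ?_
    rw [mul_one, hηres]
  rw [hL] at h1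
  have h2 : ∑ i ∈ Finset.range N.index, ((ℓ 1 : ℂˣ) : ℂ) ^ i *
      classInner ψ.1 (fun x => ((ℓ x : ℂˣ) : ℂ) ^ i * η x) ≠ 0 := by
    intro h0
    rw [h0, mul_zero] at h1
    exact (mul_ne_zero hN0 hψover) h1
  obtain ⟨i, -, hi⟩ := Finset.exists_ne_zero_of_sum_ne_zero h2
  have hi' : classInner ψ.1 (fun x => ((ℓ x : ℂˣ) : ℂ) ^ i * η x) ≠ 0 := right_ne_zero_of_mul hi
  have heq := eq_of_classInner_ne_zero ψ.2 (Cfsg.Agent.Glaub.twist_irr ℓ i hηirr) hi'
  refine ⟨ψ.1, ψ.2, hψfix, fun n => ?_⟩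
  rw [heq]
  simp only
  rw [(hker n).mpr n.2, hηres]
  simp

end

end Cfsg.Agent.H12
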