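import Mathlib
import Cfsg.Agent.H12.OddExtA
import Cfsg.Agent.Lib.Glaub.Sub
import Cfsg.Agent.H4.PSection2

/-!
# Galois-fixed extensions on intermediate subgroups (helper12)

`OddExtGood N k θ H f`: the restriction of `f : G → ℂ` to the subgroup `H ≥ N` is an irreducible
character fixed by `h ↦ h ^ k` and extending `θ`.  Uniqueness, restriction, conjugation, and the
group-theoretic lemmas on cyclic and nilpotent quotients.
-/

set_option autoImplicit false
set_option linter.style.haveILetI false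

namespace Cfsg.Agent.H12

open Cfsg Cfsg.Agent.H4 Cfsg.Agent.H79 Cfsg.Agent.Clifford
open scoped ComplexConjugate

universe u

section

variable {G : Type u} [Group G]

/-- `f` restricted to `H` is an irreducible character fixed by `k`-th powers and extending `θ`. -/
def OddExtGood (N : Subgroup G) (k : ℕ) (θ : N → ℂ) (H : Subgroup G) (f : G → ℂ) : Prop :=
  IsIrrCharacter H (fun h : H => f h) ∧ (∀ h ∈ H, f (h ^ k) = f h) ∧ ∀ n : N, f n = θ n

/-- Uniqueness of the Galois-fixed extension. -/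
theorem OddExtGood.unique [Finite G] {N : Subgroup G} [hN : N.Normal] (hidx : Odd N.index)
    {k : ℕ} (hk : k.Coprime (Nat.card G)) (hk₂ : ∀ g : G, Odd (orderOf g) → g ^ k = g⁻¹)
    {θ : N → ℂ} (hθ : IsIrrCharacter N θ) {H : Subgroup G} (hNH : N ≤ H) {f f' : G → ℂ}
    (hf : OddExtGood N k θ H f) (hf' : OddExtGood N k θ H f') : ∀ h ∈ H, f h = f' h := by
  classical
  obtain ⟨M, hM⟩ := Cfsg.Agent.H4.exists_isPModular Nat.prime_two
  haveI : Fintype H := Fintype.ofFinite _
  haveI : Fintype (N.subgroupOf H) := Fintype.ofFinite _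
  haveI : (N.subgroupOf H).Normal := Subgroup.normal_subgroupOf
  let e : N.subgroupOf H ≃* N := Subgroup.subgroupOfEquivOfLe hNH
  have hidx' : Odd (N.subgroupOf H).index := by
    have h1 : N.relIndex H * H.index = N.index := Subgroup.relIndex_mul_index hNH
    have h2 : Odd (N.relIndex H * H.index) := h1 ▸ hidx
    exact (Nat.odd_mul.mp h2).1
  have hk' : k.Coprime (Nat.card H) :=
    Nat.Coprime.coprime_dvd_right (Subgroup.card_subgroup_dvd_card H) hk
  have hk₂' : ∀ g : H, Odd (orderOf g) → g ^ k = g⁻¹ := by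
    intro g hg
    apply Subtype.ext
    rw [Subgroup.coe_pow, Subgroup.coe_inv]
    exact hk₂ g (by rwa [Subgroup.orderOf_coe])
  let θ' : IrrCharacter (N.subgroupOf H) := ⟨fun n => θ (e n), isIrrCharacter_comp_equiv e hθ⟩
  let χ₁ : IrrCharacter H := ⟨fun h : H => f h, hf.1⟩
  let χ₂ : IrrCharacter H := ⟨fun h : H => f' h, hf'.1⟩
  have ho : ∀ F : G → ℂ, (∀ n : N, F n = θ n) →
      classInner (fun n : N.subgroupOf H => F ((n : H) : G)) θ'.1 ≠ 0 := by
    intro F hF
    have hres : (fun n : N.subgroupOf H => F ((n : H) : G)) = θ'.1 := by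
      funext n
      exact hF (e n)
    rw [hres, irr_inner_self θ']
    exact one_ne_zero
  have hfix : ∀ F : G → ℂ, (∀ h ∈ H, F (h ^ k) = F h) → ∀ g : H, F ((g ^ k : H) : G) = F g := by
    intro F hF g
    rw [Subgroup.coe_pow]
    exact hF g g.2
  have key : χ₁ = χ₂ := eq_of_fixed_of_over hM (N.subgroupOf H) hidx' k hk' hk₂' θ' χ₁ χ₂
    (hfix f hf.2.1) (hfix f' hf'.2.1) (ho f hf.2.2) (ho f' hf'.2.2)
  intro h hh
  exact congrFun (congrArg Subtype.val key) ⟨h, hh⟩

/-- Restriction to an intermediate subgroup. -/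
theorem OddExtGood.restrict [Finite G] {N : Subgroup G} {k : ℕ} {θ : N → ℂ}
    (hθ : IsIrrCharacter N θ) {H H' : Subgroup G} (hNH' : N ≤ H') (hH'H : H' ≤ H) {f : G → ℂ}
    (hf : OddExtGood N k θ H f) : OddExtGood N k θ H' f := by
  refine ⟨?_, fun h hh => hf.2.1 h (hH'H hh), hf.2.2⟩
  have hchar : IsCharacter H' (fun h : H' => f h) :=
    isCharacter_comp (Subgroup.inclusion hH'H) (isCharacter_of_isIrrCharacter hf.1)
  refine Cfsg.Agent.Glaub.isIrrCharacter_of_comp_irr (Subgroup.inclusion hNH') hchar ?_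
  have h1 : (fun a : N => f ((Subgroup.inclusion hNH' a : H') : G)) = θ := funext fun a => hf.2.2 a
  rw [h1]
  exact hθ

/-- Conjugation. -/
theorem OddExtGood.conj [Finite G] {N : Subgroup G} [hN : N.Normal] {k : ℕ} {θ : N → ℂ}
    (hθ : IsIrrCharacter N θ) (hinv : ∀ g : G, conjChar N θ g = θ) {H H'' : Subgroup G}
    (hNH'' : N ≤ H'') (x : G) (hx : ∀ y ∈ H'', x⁻¹ * y * x ∈ H) {f : G → ℂ}
    (hf : OddExtGood N k θ H f) : OddExtGood N k θ H'' (fun y => f (x⁻¹ * y * x)) := by
  have hres : ∀ n : N, f (x⁻¹ * n * x) = θ n := by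
    intro n
    have hmem : x⁻¹ * (n : G) * x ∈ N := by
      have := hN.conj_mem (n : G) n.2 x⁻¹
      simpa using this
    have h1 := hf.2.2 ⟨x⁻¹ * n * x, hmem⟩
    have h2 := congrFun (hinv x⁻¹) n
    rw [conjChar_apply] at h2
    rw [← h2]
    refine h1.trans (congrArg θ (Subtype.ext ?_))
    simp
  refine ⟨?_, ?_, hres⟩
  · let φ : H'' →* H :=
      { toFun := fun y => ⟨x⁻¹ * y * x, hx y y.2⟩
        map_one' := by apply Subtype.ext; simp
        map_mul' := by intro a b; apply Subtype.ext; simp [mul_assoc] }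
    have hchar : IsCharacter H'' (fun y : H'' => f (x⁻¹ * y * x)) :=
      isCharacter_comp φ (isCharacter_of_isIrrCharacter hf.1)
    refine Cfsg.Agent.Glaub.isIrrCharacter_of_comp_irr (Subgroup.inclusion hNH'') hchar ?_
    have h1 : (fun a : N => f (x⁻¹ * ((Subgroup.inclusion hNH'' a : H'') : G) * x)) = θ :=
      funext hres
    rw [h1]
    exact hθ
  · intro y hy
    have h1 : x⁻¹ * y ^ k * x = (x⁻¹ * y * x) ^ k := by
      have := conj_pow (i := k) (a := x⁻¹) (b := y)
      simpa using this.symm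
    simp only
    rw [h1]
    exact hf.2.1 _ (hx y hy)

/-- Transport from the subgroup as a type. -/
theorem OddExtGood.of_subtype {N : Subgroup G} {k : ℕ} {θ : N → ℂ} {H : Subgroup G}
    (hNH : N ≤ H) (χ' : H → ℂ) (h1 : IsIrrCharacter H χ') (h2 : ∀ h : H, χ' (h ^ k) = χ' h)
    (h3 : ∀ n : N, χ' ⟨n, hNH n.2⟩ = θ n) : ∃ f : G → ℂ, OddExtGood N k θ H f := by
  classical
  refine ⟨fun g => if h : g ∈ H then χ' ⟨g, h⟩ else 0, ?_, ?_, ?_⟩
  · have h4 : (fun h : H => (fun g : G => if h : g ∈ H then χ' ⟨g, h⟩ else 0) (h : G)) = χ' := by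
      funext h
      simp
    rw [h4]
    exact h1
  · intro h hh
    have hk : h ^ k ∈ H := H.pow_mem hh k
    simp only [dif_pos hh, dif_pos hk]
    exact h2 ⟨h, hh⟩
  · intro n
    simp only [dif_pos (hNH n.2)]
    exact h3 n

/-- If `N K = G` then `K` maps onto `G / N`. -/
theorem oddExt_surj {N K : Subgroup G} [N.Normal] (h : N ⊔ K = ⊤) :
    Function.Surjective ((QuotientGroup.mk' N).comp K.subtype) := by
  rw [← MonoidHom.range_eq_top, MonoidHom.range_comp, Subgroup.range_subtype]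
  have h1 : Subgroup.map (QuotientGroup.mk' N) (N ⊔ K) = ⊤ := by
    rw [h, ← MonoidHom.range_eq_map, MonoidHom.range_eq_top]
    exact QuotientGroup.mk'_surjective N
  rw [Subgroup.map_sup] at h1
  have h2 : Subgroup.map (QuotientGroup.mk' N) N = ⊥ :=
    (Subgroup.map_eq_bot_iff N).mpr (le_of_eq (QuotientGroup.ker_mk' N).symm)
  rw [h2, bot_sup_eq] at h1
  exact h1

/-- If `N ⟨g⟩ = G` then `G / N` is cyclic. -/
theorem oddExt_cyclic_of_sup {N : Subgroup G} [N.Normal] {g : G}
    (h : N ⊔ Subgroup.zpowers g = ⊤) : IsCyclic (G ⧸ N) :=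
  isCyclic_of_surjective _ (oddExt_surj h)

/-- An elementary group is nilpotent. -/
theorem oddExt_elementary_nilpotent {E : Type*} [Group E] [Finite E] {p : ℕ} (hp : p.Prime)
    (hE : IsElementary p E) : Group.IsNilpotent E := by
  obtain ⟨x, hx, -, j, hj⟩ := hE
  haveI : Fact p.Prime := ⟨hp⟩
  apply Group.of_quotient_center_nilpotent
  have hle : Subgroup.zpowers x ≤ Subgroup.center E := by
    rw [Subgroup.zpowers_le]; exact hx
  have hdvd : (Subgroup.center E).index ∣ p ^ j := hj ▸ Subgroup.index_dvd_of_le hle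
  obtain ⟨i, -, hi⟩ := (Nat.dvd_prime_pow hp).mp hdvd
  have h1 : IsPGroup p (E ⧸ Subgroup.center E) :=
    IsPGroup.of_card (n := i) (by rw [← Subgroup.index_eq_card]; exact hi)
  exact h1.isNilpotent

/-- A proper normal subgroup with nilpotent quotient lies in a proper normal subgroup with cyclic
quotient. -/
theorem oddExt_nilpotent_step [Finite G] {N : Subgroup G} [hN : N.Normal]
    (hnil : Group.IsNilpotent (G ⧸ N)) (hne : N ≠ ⊤) :
    ∃ M : Subgroup G, ∃ _ : M.Normal, N ≤ M ∧ M ≠ ⊤ ∧ IsCyclic (G ⧸ M) := by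
  classical
  have hnt : (⊥ : Subgroup (G ⧸ N)) ≠ ⊤ := by
    intro h
    apply hne
    apply QuotientGroup.subgroup_eq_top_of_subsingleton
    refine ⟨fun a b => ?_⟩
    have ha : a ∈ (⊥ : Subgroup (G ⧸ N)) := h ▸ Subgroup.mem_top a
    have hb : b ∈ (⊥ : Subgroup (G ⧸ N)) := h ▸ Subgroup.mem_top b
    rw [Subgroup.mem_bot.mp ha, Subgroup.mem_bot.mp hb]
  obtain ⟨C, hC⟩ : ∃ C : Subgroup (G ⧸ N), IsCoatom C := by
    rcases eq_top_or_exists_le_coatom (⊥ : Subgroup (G ⧸ N)) with h | ⟨C, hC, -⟩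
    · exact absurd h hnt
    · exact ⟨C, hC⟩
  haveI hCn : C.Normal :=
    Subgroup.NormalizerCondition.normal_of_coatom C Group.normalizerCondition_of_isNilpotent hC
  let M : Subgroup G := C.comap (QuotientGroup.mk' N)
  haveI hMn : M.Normal := hCn.comap _
  have hNM : N ≤ M := by
    intro n hn
    change QuotientGroup.mk' N n ∈ C
    have : QuotientGroup.mk' N n = 1 := (QuotientGroup.eq_one_iff n).mpr hn
    rw [this]
    exact C.one_mem
  have hMtop : M ≠ ⊤ := by
    intro h
    apply hC.1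
    rw [eq_top_iff]
    intro q _
    obtain ⟨g, rfl⟩ := QuotientGroup.mk_surjective q
    have : g ∈ M := h ▸ Subgroup.mem_top g
    exact this
  obtain ⟨q, hq⟩ : ∃ q, q ∉ C := by
    by_contra hall
    push Not at hall
    exact hC.1 (eq_top_iff.mpr fun q _ => hall q)
  obtain ⟨g, rfl⟩ := QuotientGroup.mk_surjective q
  have hsup : M ⊔ Subgroup.zpowers g = ⊤ := by
    have h1 : C ⊔ Subgroup.zpowers (QuotientGroup.mk' N g) = ⊤ := by
      apply hC.2
      refine lt_of_le_of_ne le_sup_left ?_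
      intro heq
      apply hq
      have : QuotientGroup.mk' N g ∈ C ⊔ Subgroup.zpowers (QuotientGroup.mk' N g) :=
        (le_sup_right : Subgroup.zpowers (QuotientGroup.mk' N g) ≤ _) (Subgroup.mem_zpowers _)
      rw [← heq] at this
      exact this
    rw [eq_top_iff]
    intro y _
    have hy : QuotientGroup.mk' N y ∈
        ((C ⊔ Subgroup.zpowers (QuotientGroup.mk' N g) : Subgroup (G ⧸ N)) : Set (G ⧸ N)) := by
      rw [h1]; exact Subgroup.mem_top _
    rw [Subgroup.normal_mul] at hy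
    obtain ⟨c, hc, z, hz, hcz⟩ := Set.mem_mul.mp hy
    obtain ⟨i, rfl⟩ := Subgroup.mem_zpowers_iff.mp hz
    have h2 : y * (g ^ i)⁻¹ ∈ M := by
      change QuotientGroup.mk' N (y * (g ^ i)⁻¹) ∈ C
      have : QuotientGroup.mk' N (y * (g ^ i)⁻¹) = c := by
        rw [map_mul, map_inv, map_zpow, ← hcz]
        group
      rw [this]
      exact hc
    have h3 : y = (y * (g ^ i)⁻¹) * g ^ i := by group
    rw [h3]
    exact Subgroup.mul_mem_sup h2 (Subgroup.zpow_mem_zpowers g i)
  exact ⟨M, hMn, hNM, hMtop, oddExt_cyclic_of_sup hsup⟩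

end

end Cfsg.Agent.H12
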