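import Mathlib
import Cfsg.Agent.H12.OddExtB
import Cfsg.Agent.H4.Brauer
import Cfsg.Agent.H4.IrrCount
import Cfsg.Agent.H19.BSTransfer

/-!
# The Galois-fixed extension over a normal subgroup of odd index (helper12; lead's design D2)

`oddExt_main`: `N ⊴ G` of odd index, `k` coprime to `|G|` of 2-power order modulo `|G|` inverting
the elements of odd order, `θ ∈ Irr(N)` `G`-invariant and fixed by `n ↦ n ^ k`: then `θ` has an
extension `χ ∈ Irr(G)` fixed by `g ↦ g ^ k`.  Induction on `[G : N]`; the case where `G / N` has no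
proper normal subgroup with cyclic quotient uses Brauer's characterization of characters.
-/

set_option autoImplicit false
set_option linter.style.haveILetI false

namespace Cfsg.Agent.H12

open Cfsg Cfsg.Agent.H4 Cfsg.Agent.H79 Cfsg.Agent.Clifford
open scoped ComplexConjugate

universe u

section

variable {G : Type u} [Group G] [Fintype G]

/-- Going up through a cyclic quotient. -/
theorem oddExt_step_cyclic (N : Subgroup G) [hN : N.Normal] [Fintype N] (hidx : Odd N.index)
    (k e : ℕ) (hk : k.Coprime (Nat.card G)) (hke : k ^ (2 ^ e) ≡ 1 [MOD Nat.card G])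
    (hk₂ : ∀ g : G, Odd (orderOf g) → g ^ k = g⁻¹)
    (θ : N → ℂ) (hθirr : IsIrrCharacter N θ) (hinv : ∀ g : G, conjChar N θ g = θ)
    (M : Subgroup G) [hM : M.Normal] (hNM : N ≤ M) (hcyc : IsCyclic (G ⧸ M))
    (f : G → ℂ) (hf : OddExtGood N k θ M f) :
    ∃ χ : G → ℂ, IsIrrCharacter G χ ∧ (∀ g, χ (g ^ k) = χ g) ∧ ∀ n : N, χ n = θ n := by
  classical
  haveI : Fintype M := Fintype.ofFinite _
  have hidxM : Odd M.index := by
    obtain ⟨c, hc⟩ := Subgroup.index_dvd_of_le hNM
    rw [hc] at hidx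
    exact (Nat.odd_mul.mp hidx).1
  have hηk : ∀ m : M, (fun m : M => f m) (m ^ k) = (fun m : M => f m) m := by
    intro m
    show f ((m ^ k : M) : G) = f m
    rw [Subgroup.coe_pow]
    exact hf.2.1 m m.2
  have hηinv : ∀ g : G, conjChar M (fun m : M => f m) g = fun m : M => f m := by
    intro g
    funext m
    rw [conjChar_apply]
    have hgood : OddExtGood N k θ M (fun y => f (g⁻¹⁻¹ * y * g⁻¹)) :=
      OddExtGood.conj hθirr hinv hNM g⁻¹
        (fun y hy => by simpa using hM.conj_mem y hy g) hf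
    have h1 := OddExtGood.unique hidx hk hk₂ hθirr hNM hgood hf m m.2
    simpa using h1
  obtain ⟨χ, hχirr, hχk, hχres⟩ :=
    oddExt_cyclic M hidxM k e hk hke hcyc (fun m : M => f m) hf.1 hηk hηinv
  refine ⟨χ, hχirr, hχk, fun n => ?_⟩
  have h1 := hχres ⟨n, hNM n.2⟩
  exact h1.trans (hf.2.2 n)

/-- The case where Brauer's characterization is needed. -/
theorem oddExt_brauer_case (N : Subgroup G) [hN : N.Normal] [Fintype N] (hidx : Odd N.index)
    (k : ℕ) (hk : k.Coprime (Nat.card G)) (hk₂ : ∀ g : G, Odd (orderOf g) → g ^ k = g⁻¹)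
    (θ : N → ℂ) (hθirr : IsIrrCharacter N θ) (hinv : ∀ g : G, conjChar N θ g = θ)
    (hIH : ∀ H : Subgroup G, N ≤ H → H ≠ ⊤ → ∃ f : G → ℂ, OddExtGood N k θ H f)
    (hcycB : ∀ g : G, N ⊔ Subgroup.zpowers g ≠ ⊤)
    (helB : ∀ (E : Subgroup G) (p : ℕ), p.Prime → IsElementary p E → N ⊔ E ≠ ⊤) :
    ∃ χ : G → ℂ, IsIrrCharacter G χ ∧ (∀ g, χ (g ^ k) = χ g) ∧ ∀ n : N, χ n = θ n := by
  classical
  choose! F hF using hIH
  let χ : G → ℂ := fun g => F (N ⊔ Subgroup.zpowers g) g
  have hU : ∀ (H : Subgroup G) (_ : N ≤ H) (f f' : G → ℂ), OddExtGood N k θ H f →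
      OddExtGood N k θ H f' → ∀ h ∈ H, f h = f' h :=
    fun H hNH f f' h1 h2 => OddExtGood.unique hidx hk hk₂ hθirr hNH h1 h2
  have key : ∀ H : Subgroup G, N ≤ H → H ≠ ⊤ → ∀ h ∈ H, χ h = F H h := by
    intro H hNH hH h hh
    have hle : N ⊔ Subgroup.zpowers h ≤ H :=
      sup_le hNH (by rw [Subgroup.zpowers_le]; exact hh)
    have hg1 := hF (N ⊔ Subgroup.zpowers h) le_sup_left (hcycB h)
    have hg2 : OddExtGood N k θ (N ⊔ Subgroup.zpowers h) (F H) :=
      OddExtGood.restrict hθirr le_sup_left hle (hF H hNH hH)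
    exact hU _ le_sup_left _ _ hg1 hg2 h
      ((le_sup_right : Subgroup.zpowers h ≤ _) (Subgroup.mem_zpowers h))
  have hNtop : N ≠ ⊤ := by
    have h1 := hcycB 1
    rwa [Subgroup.zpowers_one_eq_bot, sup_bot_eq] at h1
  have hres : ∀ n : N, χ n = θ n := by
    intro n
    rw [key N le_rfl hNtop n n.2]
    exact (hF N le_rfl hNtop).2.2 n
  have hfix : ∀ g, χ (g ^ k) = χ g := by
    intro g
    have hH := hF (N ⊔ Subgroup.zpowers g) le_sup_left (hcycB g)
    have hg : g ∈ N ⊔ Subgroup.zpowers g :=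
      (le_sup_right : Subgroup.zpowers g ≤ _) (Subgroup.mem_zpowers g)
    rw [key _ le_sup_left (hcycB g) (g ^ k) (Subgroup.pow_mem _ hg k)]
    exact hH.2.1 g hg
  have hcl : IsClassFunction G χ := by
    intro g x
    have hx : ∀ y ∈ N ⊔ Subgroup.zpowers (x * g * x⁻¹),
        x⁻¹ * y * x ∈ N ⊔ Subgroup.zpowers g := by
      intro y hy
      have hle : N ⊔ Subgroup.zpowers (x * g * x⁻¹)
          ≤ (N ⊔ Subgroup.zpowers g).comap (MulAut.conj x⁻¹).toMonoidHom := by
        refine sup_le ?_ ?_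
        · intro n hn
          have h1 : x⁻¹ * n * x⁻¹⁻¹ ∈ N := hN.conj_mem n hn x⁻¹
          exact (le_sup_left : N ≤ N ⊔ Subgroup.zpowers g) h1
        · rw [Subgroup.zpowers_le]
          show x⁻¹ * (x * g * x⁻¹) * x⁻¹⁻¹ ∈ N ⊔ Subgroup.zpowers g
          have h1 : x⁻¹ * (x * g * x⁻¹) * x⁻¹⁻¹ = g := by group
          rw [h1]
          exact (le_sup_right : Subgroup.zpowers g ≤ _) (Subgroup.mem_zpowers g)
      have h3 : x⁻¹ * y * x⁻¹⁻¹ ∈ N ⊔ Subgroup.zpowers g := hle hy
      simpa using h3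
    have hg1 := hF (N ⊔ Subgroup.zpowers (x * g * x⁻¹)) le_sup_left (hcycB _)
    have hg2 : OddExtGood N k θ (N ⊔ Subgroup.zpowers (x * g * x⁻¹))
        (fun y => F (N ⊔ Subgroup.zpowers g) (x⁻¹ * y * x)) :=
      OddExtGood.conj hθirr hinv le_sup_left x hx (hF (N ⊔ Subgroup.zpowers g) le_sup_left (hcycB g))
    have h4 := hU _ le_sup_left _ _ hg1 hg2 (x * g * x⁻¹)
      ((le_sup_right : Subgroup.zpowers (x * g * x⁻¹) ≤ _) (Subgroup.mem_zpowers _))
    show F (N ⊔ Subgroup.zpowers (x * g * x⁻¹)) (x * g * x⁻¹) = F (N ⊔ Subgroup.zpowers g) g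
    rw [h4]
    have h5 : x⁻¹ * (x * g * x⁻¹) * x = g := by group
    simp only [h5]
  have hgen : IsGeneralizedCharacter G χ := by
    apply brauer_characterization χ hcl
    intro E p hp hE
    have hH := hF (N ⊔ E) le_sup_left (helB E p hp hE)
    have heq : (fun e : E => χ e) = fun e : E => F (N ⊔ E) e := by
      funext e
      exact key _ le_sup_left (helB E p hp hE) e ((le_sup_right : E ≤ N ⊔ E) e.2)
    rw [heq]
    have hchar : IsCharacter E (fun e : E => F (N ⊔ E) e) :=
      isCharacter_comp (Subgroup.inclusion (le_sup_right : E ≤ N ⊔ E))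
        (isCharacter_of_isIrrCharacter hH.1)
    exact ⟨_, 0, hchar, isCharacter_zero, by simp⟩
  have hcoset : ∀ t : G, ∑ u : N, χ (u * t) * conj (χ (u * t)) = (Nat.card N : ℂ) := by
    intro t
    have hNH : N ≤ N ⊔ Subgroup.zpowers t := le_sup_left
    have htH : t ∈ N ⊔ Subgroup.zpowers t :=
      (le_sup_right : Subgroup.zpowers t ≤ _) (Subgroup.mem_zpowers t)
    have hHgood := hF (N ⊔ Subgroup.zpowers t) hNH (hcycB t)
    generalize hHdef : N ⊔ Subgroup.zpowers t = H at hNH htH hHgood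
    haveI : Fintype H := Fintype.ofFinite _
    haveI : Fintype (N.subgroupOf H) := Fintype.ofFinite _
    haveI : (N.subgroupOf H).Normal := Subgroup.normal_subgroupOf
    let e : N.subgroupOf H ≃* N := Subgroup.subgroupOfEquivOfLe hNH
    have hcyc : IsCyclic (H ⧸ N.subgroupOf H) := by
      apply oddExt_cyclic_of_sup (g := (⟨t, htH⟩ : H))
      apply Subgroup.map_injective H.subtype_injective
      rw [Subgroup.map_sup, Subgroup.subgroupOf_map_subtype, MonoidHom.map_zpowers,
        ← MonoidHom.range_eq_map, Subgroup.range_subtype, inf_eq_left.mpr hNH]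
      exact hHdef
    obtain ⟨ℓ, x₀, hker, hpow, -, -⟩ := Cfsg.Agent.Glaub.Cyc.exists_lin hcyc
    have hcard : Nat.card H = Nat.card (N.subgroupOf H) * (N.subgroupOf H).index :=
      (Subgroup.card_mul_index _).symm
    have hXG : IsIrrCharacter (N.subgroupOf H)
        (fun g : N.subgroupOf H => (fun h : H => F H h) (g : H)) := by
      have h1 : (fun g : N.subgroupOf H => (fun h : H => F H h) (g : H)) = fun g => θ (e g) := by
        funext g
        exact hHgood.2.2 (e g)
      rw [h1]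
      exact isIrrCharacter_comp_equiv e hθirr
    have h1 := Cfsg.Agent.Glaub.Cyc.coset_norm (N.subgroupOf H).index ℓ hker hpow hcard
      hHgood.1 hXG (⟨t, htH⟩ : H)
    have hcardN : Nat.card (N.subgroupOf H) = Nat.card N := Nat.card_congr e.toEquiv
    rw [hcardN] at h1
    rw [← h1]
    symm
    refine Fintype.sum_equiv e.toEquiv _ _ (fun u => ?_)
    show F H (((u : H) : G) * t) * conj (F H (((u : H) : G) * t))
      = χ (((u : H) : G) * t) * conj (χ (((u : H) : G) * t))
    have hHtop : H ≠ ⊤ := hHdef ▸ hcycB t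
    rw [key H hNH hHtop _ (H.mul_mem (u : H).2 htH)]
  have hnorm : classInner χ χ = 1 := by
    unfold classInner
    have hN0 : (Nat.card N : ℂ) ≠ 0 := by
      have : 0 < Nat.card N := Nat.card_pos
      exact_mod_cast this.ne'
    have hG0 : (Nat.card G : ℂ) ≠ 0 := by
      have : 0 < Nat.card G := Nat.card_pos
      exact_mod_cast this.ne'
    have hsum : (Nat.card N : ℂ) * ∑ g : G, χ g * conj (χ g)
        = (Nat.card G : ℂ) * (Nat.card N : ℂ) := by
      have h1 : ∑ t : G, ∑ u : N, χ (u * t) * conj (χ (u * t))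
          = (Nat.card G : ℂ) * (Nat.card N : ℂ) := by
        rw [Finset.sum_congr rfl (fun t _ => hcoset t), Finset.sum_const, Finset.card_univ,
          nsmul_eq_mul, ← Nat.card_eq_fintype_card]
      rw [← h1, Finset.sum_comm]
      have h2 : ∀ u : N, ∑ t : G, χ (u * t) * conj (χ (u * t)) = ∑ g : G, χ g * conj (χ g) := by
        intro u
        exact Fintype.sum_equiv (Equiv.mulLeft (u : G)) _ _ (fun t => rfl)
      rw [Finset.sum_congr rfl (fun u _ => h2 u), Finset.sum_const, Finset.card_univ,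
        nsmul_eq_mul, ← Nat.card_eq_fintype_card]
    have h3 : ∑ g : G, χ g * conj (χ g) = (Nat.card G : ℂ) := by
      apply mul_left_cancel₀ hN0
      rw [hsum]
      ring
    rw [h3, inv_mul_cancel₀ hG0]
  have hpos : 0 < (χ 1).re := by
    have h1 : χ 1 = θ 1 := by
      have h2 := hres 1
      simpa using h2
    obtain ⟨n, hn, hn1⟩ := irr_one_eq_natCast (⟨θ, hθirr⟩ : IrrCharacter N)
    have hn2 : θ 1 = (n : ℂ) := hn1
    rw [h1, hn2]
    simpa using hn
  exact ⟨χ, Cfsg.Agent.H19.isIrrCharacter_of_genChar_norm_one χ hgen hnorm hpos, hfix, hres⟩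

end

/-- **Main theorem**: the Galois-fixed extension exists. -/
theorem oddExt_main (n : ℕ) : ∀ (G : Type u) [Group G] [Fintype G] (N : Subgroup G) [N.Normal]
    [Fintype N], N.index ≤ n → Odd N.index → ∀ (k e : ℕ), k.Coprime (Nat.card G) →
    k ^ (2 ^ e) ≡ 1 [MOD Nat.card G] → (∀ g : G, Odd (orderOf g) → g ^ k = g⁻¹) →
    ∀ θ : N → ℂ, IsIrrCharacter N θ → (∀ n : N, θ (n ^ k) = θ n) →
    (∀ g : G, conjChar N θ g = θ) →
    ∃ χ : G → ℂ, IsIrrCharacter G χ ∧ (∀ g, χ (g ^ k) = χ g) ∧ ∀ n : N, χ n = θ n := by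
  induction n using Nat.strong_induction_on with
  | _ n ih =>
    intro G _ _ N hN _ hle hidx k e hk hke hk₂ θ hθirr hθ hinv
    classical
    have hIH : ∀ H : Subgroup G, N ≤ H → H ≠ ⊤ → ∃ f : G → ℂ, OddExtGood N k θ H f := by
      intro H hNH hH
      haveI : Fintype H := Fintype.ofFinite _
      haveI : Fintype (N.subgroupOf H) := Fintype.ofFinite _
      haveI : (N.subgroupOf H).Normal := Subgroup.normal_subgroupOf
      let e' : N.subgroupOf H ≃* N := Subgroup.subgroupOfEquivOfLe hNH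
      have h1 : N.relIndex H * H.index = N.index := Subgroup.relIndex_mul_index hNH
      have hidx' : Odd (N.subgroupOf H).index := by
        have h2 : Odd (N.relIndex H * H.index) := h1 ▸ hidx
        exact (Nat.odd_mul.mp h2).1
      have hlt : (N.subgroupOf H).index < n := by
        have hH1 : H.index ≠ 1 := fun h => hH (Subgroup.index_eq_one.mp h)
        have hH0 : H.index ≠ 0 := Subgroup.index_ne_zero_of_finite
        have hN0 : N.index ≠ 0 := Subgroup.index_ne_zero_of_finite
        have hr0 : N.relIndex H ≠ 0 := by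
          intro h0
          rw [h0, zero_mul] at h1
          exact hN0 h1.symm
        have h3 : N.relIndex H < N.index := by
          rw [← h1]
          exact lt_mul_of_one_lt_right (Nat.pos_of_ne_zero hr0) (by omega)
        exact lt_of_lt_of_le h3 hle
      have hk' : k.Coprime (Nat.card H) :=
        Nat.Coprime.coprime_dvd_right (Subgroup.card_subgroup_dvd_card H) hk
      have hke' : k ^ (2 ^ e) ≡ 1 [MOD Nat.card H] :=
        hke.of_dvd (Subgroup.card_subgroup_dvd_card H)
      have hk₂' : ∀ g : H, Odd (orderOf g) → g ^ k = g⁻¹ := by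
        intro g hg
        apply Subtype.ext
        rw [Subgroup.coe_pow, Subgroup.coe_inv]
        exact hk₂ g (by rwa [Subgroup.orderOf_coe])
      have hθ' : ∀ m : N.subgroupOf H,
          (fun m : N.subgroupOf H => θ (e' m)) (m ^ k) = (fun m : N.subgroupOf H => θ (e' m)) m := by
        intro m
        show θ (e' (m ^ k)) = θ (e' m)
        rw [map_pow]
        exact hθ _
      have hinv' : ∀ g : H, conjChar (N.subgroupOf H) (fun m : N.subgroupOf H => θ (e' m)) g
          = fun m : N.subgroupOf H => θ (e' m) := by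
        intro g
        funext m
        rw [conjChar_apply]
        have h4 := congrFun (hinv (g : G)) (e' m)
        rw [conjChar_apply] at h4
        refine Eq.trans (congrArg θ (Subtype.ext ?_)) h4
        rfl
      obtain ⟨χ', h1', h2', h3'⟩ := ih _ hlt H (N.subgroupOf H) le_rfl hidx' k e hk' hke' hk₂'
        (fun m : N.subgroupOf H => θ (e' m)) (isIrrCharacter_comp_equiv e' hθirr) hθ' hinv'
      refine OddExtGood.of_subtype hNH χ' h1' h2' (fun m => ?_)
      have h5 := h3' (e'.symm m)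
      simp only [MulEquiv.apply_symm_apply] at h5
      refine Eq.trans (congrArg χ' (Subtype.ext ?_)) h5
      have h6 : ((e' (e'.symm m) : N) : G) = (((e'.symm m : N.subgroupOf H) : H) : G) := rfl
      rw [MulEquiv.apply_symm_apply] at h6
      exact h6
    by_cases hA0 : IsCyclic (G ⧸ N)
    · exact oddExt_cyclic N hidx k e hk hke hA0 θ hθirr hθ hinv
    by_cases hA : ∃ M : Subgroup G, ∃ _ : M.Normal, N ≤ M ∧ M ≠ ⊤ ∧ IsCyclic (G ⧸ M)
    · obtain ⟨M, hMn, hNM, hMtop, hcyc⟩ := hA
      obtain ⟨f, hf⟩ := hIH M hNM hMtop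
      exact oddExt_step_cyclic N hidx k e hk hke hk₂ θ hθirr hinv M hNM hcyc f hf
    · have hcycB : ∀ g : G, N ⊔ Subgroup.zpowers g ≠ ⊤ :=
        fun g h => hA0 (oddExt_cyclic_of_sup h)
      have hNtop : N ≠ ⊤ := by
        intro h
        apply hcycB 1
        rw [h, top_sup_eq]
      have helB : ∀ (E : Subgroup G) (p : ℕ), p.Prime → IsElementary p E → N ⊔ E ≠ ⊤ := by
        intro E p hp hE h
        haveI : Group.IsNilpotent E := oddExt_elementary_nilpotent hp hE
        have hnil : Group.IsNilpotent (G ⧸ N) := Group.nilpotent_of_surjective _ (oddExt_surj h)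
        exact hA (oddExt_nilpotent_step hnil hNtop)
      exact oddExt_brauer_case N hidx k hk hk₂ θ hθirr hinv hIH hcycB helB

end Cfsg.Agent.H12
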