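import Mathlib
import Cfsg.Prelude.Def_Classical
import Cfsg.Agent.H48.OmTransfer
import Cfsg.Agent.H45.OAsm

set_option autoImplicit false

/-! helper12: the form `x·y + z₀(z₀+z₁)` in minus-shaped coordinates (`quadFormMinus k F 1 0`)
is isometric to the plus form of dimension `2(k+1)`; transfer of two-generation of `Ω`
(for the S2414 team project of helper45). -/

namespace Cfsg.Agent.H12.PIso

open Matrix

variable {F : Type*} [Field F]

/-- The linear equivalence carrying `x·y + z₀(z₀+z₁)` (minus-shaped coordinates with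
`a = 1, b = 0`) to the plus form in dimension `2(k+1)`. -/
def linEq (k : ℕ) : ((Fin k ⊕ Fin k) ⊕ Fin 2 → F) ≃ₗ[F] (Fin (k+1) ⊕ Fin (k+1) → F) where
  toFun v := Sum.elim (Fin.snoc (fun j => v (.inl (.inl j))) (v (.inr 0)))
    (Fin.snoc (fun j => v (.inl (.inr j))) (v (.inr 0) + v (.inr 1)))
  map_add' v w := by
    funext i
    rcases i with i | i
    · refine Fin.lastCases ?_ (fun j => ?_) i
      · simp
      · simp
    · refine Fin.lastCases ?_ (fun j => ?_) i
      · simp; ring
      · simp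
  map_smul' c v := by
    funext i
    rcases i with i | i
    · refine Fin.lastCases ?_ (fun j => ?_) i
      · simp
      · simp
    · refine Fin.lastCases ?_ (fun j => ?_) i
      · simp; ring
      · simp
  invFun w := Sum.elim (Sum.elim (fun j => w (.inl j.castSucc)) (fun j => w (.inr j.castSucc)))
    ![w (.inl (Fin.last k)), w (.inr (Fin.last k)) - w (.inl (Fin.last k))]
  left_inv v := by
    funext i
    rcases i with (i | i) | i
    · simp
    · simp
    · fin_cases i
      · simp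
      · simp
  right_inv w := by
    funext i
    rcases i with i | i
    · refine Fin.lastCases ?_ (fun j => ?_) i
      · simp
      · simp
    · refine Fin.lastCases ?_ (fun j => ?_) i
      · simp
      · simp

theorem linEq_isometry (k : ℕ) (v : (Fin k ⊕ Fin k) ⊕ Fin 2 → F) :
    Cfsg.quadFormPlus (k+1) F (linEq k v) = Cfsg.quadFormMinus k F 1 0 v := by
  unfold Cfsg.quadFormPlus Cfsg.quadFormMinus
  rw [Fin.sum_univ_castSucc]
  simp [linEq]
  ring

/-- The isometry groups agree. -/
noncomputable def isoPlus (k : ℕ) :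
    ↥(Cfsg.isometryGroup F (Cfsg.quadFormMinus k F 1 0)) ≃*
      ↥(Cfsg.isometryGroup F (Cfsg.quadFormPlus (k+1) F)) :=
  Cfsg.Agent.H48.isoEquiv _ _ (linEq k) (linEq_isometry k)

end Cfsg.Agent.H12.PIso

namespace Cfsg.Agent.H12.PIso

variable {F : Type*} [Field F]

theorem map_commutator_equiv {G₁ G₂ : Type*} [Group G₁] [Group G₂] (e : G₁ ≃* G₂) :
    (commutator G₁).map e.toMonoidHom = commutator G₂ := by
  rw [commutator_def, Subgroup.map_commutator, commutator_def,
    Subgroup.map_top_of_surjective _ e.surjective]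

/-- Transfer: two generators of `Ω` of the form `x·y + z₀(z₀+z₁)` give two generators of
`Ω⁺_{2(k+1)}`. -/
theorem omega_plus_gen_of (k : ℕ)
    (h : ∃ g h : ↥(Cfsg.isometryGroup F (Cfsg.quadFormMinus k F 1 0)),
      g ∈ commutator ↥(Cfsg.isometryGroup F (Cfsg.quadFormMinus k F 1 0)) ∧
      h ∈ commutator ↥(Cfsg.isometryGroup F (Cfsg.quadFormMinus k F 1 0)) ∧
      Subgroup.closure {g, h} = commutator ↥(Cfsg.isometryGroup F (Cfsg.quadFormMinus k F 1 0))) :
    ∃ g h : ↥(Cfsg.isometryGroup F (Cfsg.quadFormPlus (k+1) F)),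
      g ∈ commutator ↥(Cfsg.isometryGroup F (Cfsg.quadFormPlus (k+1) F)) ∧
      h ∈ commutator ↥(Cfsg.isometryGroup F (Cfsg.quadFormPlus (k+1) F)) ∧
      Subgroup.closure {g, h} = commutator ↥(Cfsg.isometryGroup F (Cfsg.quadFormPlus (k+1) F)) := by
  obtain ⟨g, h, hg, hh, hgh⟩ := h
  have hc := map_commutator_equiv (isoPlus (F := F) k)
  refine ⟨isoPlus k g, isoPlus k h, ?_, ?_, ?_⟩
  · rw [← hc]; exact Subgroup.mem_map_of_mem _ hg
  · rw [← hc]; exact Subgroup.mem_map_of_mem _ hh
  · rw [← hc, ← hgh, MonoidHom.map_closure, Set.image_pair]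
    rfl

end Cfsg.Agent.H12.PIso

namespace Cfsg.Agent.H12.PIso

variable {F : Type*} [Field F]

/-- Final transfer in the shape of S2414: two generators of `Ω` of the form
`x·y + z₀(z₀+z₁)` in minus-shaped coordinates (`k = m - 1`) give two generators of
`PΩ⁺_{2m}`. -/
theorem pomega_plus_two_gen_of (m : ℕ) (hm : 1 ≤ m)
    (h : ∃ g h : ↥(Cfsg.isometryGroup F (Cfsg.quadFormMinus (m - 1) F 1 0)),
      g ∈ commutator ↥(Cfsg.isometryGroup F (Cfsg.quadFormMinus (m - 1) F 1 0)) ∧
      h ∈ commutator ↥(Cfsg.isometryGroup F (Cfsg.quadFormMinus (m - 1) F 1 0)) ∧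
      Subgroup.closure {g, h} =
        commutator ↥(Cfsg.isometryGroup F (Cfsg.quadFormMinus (m - 1) F 1 0))) :
    ∃ a b : Cfsg.POmega F (Cfsg.quadFormPlus m F),
      Subgroup.closure ({a, b} : Set (Cfsg.POmega F (Cfsg.quadFormPlus m F))) = ⊤ := by
  obtain ⟨k, rfl⟩ : ∃ k, m = k + 1 := ⟨m - 1, by omega⟩
  rw [Nat.add_sub_cancel] at h
  obtain ⟨g, h', hg, hh, hgh⟩ := omega_plus_gen_of k h
  exact Cfsg.Agent.H45.O.quot_two_gen_of_closure
    (commutator ↥(Cfsg.isometryGroup F (Cfsg.quadFormPlus (k + 1) F))) g h' hg hh hgh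
    (Subgroup.center _)

end Cfsg.Agent.H12.PIso
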