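import Mathlib
import Cfsg.Agent.H12.PsuFABb
import Cfsg.Agent.H45.Singer

set_option autoImplicit false

/-!
# Finite-field piece FAB of S2412 (helper12)
-/

namespace Cfsg.Agent.H12.Psu

open Matrix Polynomial Cfsg.Agent.H45.U

theorem field_AB {F : Type*} [Field F] [Fintype F] {q : ℕ} (hF : Fintype.card F = q ^ 2)
    (k : ℕ) (hk : 1 ≤ k) :
    ∃ B B' G G' : Matrix (Fin k) (Fin k) F, B * B' = 1 ∧ B' * B = 1 ∧ G * G' = 1 ∧ G' * G = 1 ∧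
      G * B = ct (H17.frobHom hF) (B ^ q) * G ∧
      ((2 ≤ k ∨ 3 ≤ q) → ∀ lam : F, lam ^ (q + 1) = 1 → ∀ x : Fin k → F, x ≠ 0 →
        (B ^ q) *ᵥ x ≠ lam • x) ∧
      ((2 ≤ k ∨ 3 ≤ q) → ∀ X : AddSubgroup (Matrix (Fin k) (Fin 1) F),
        (∀ c ∈ X, (B.det * (B.det ^ q)⁻¹) • (B * c) ∈ X) → ∀ c₁ ∈ X, c₁ ≠ 0 → X = ⊤) ∧
      (2 ≤ k → ∀ δ : Fin 2 → F, (∀ l, δ l ^ (q + 1) = 1) → δ 0 ≠ δ 1 →
        ∀ X : AddSubgroup (Matrix (Fin k) (Fin 2) F),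
        (∀ c ∈ X, B * c * Matrix.diagonal δ ∈ X) → ∀ c₁ ∈ X, (∀ l, ∃ i, c₁ i l ≠ 0) → X = ⊤) := by
  classical
  obtain ⟨f, hfm, hf, hfd, -, -⟩ := Cfsg.Agent.H45.exists_singer_poly (F := F) k hk
  have : Fact (Irreducible f) := ⟨hf⟩
  have hfin : Module.finrank F (AdjoinRoot f) = k := by
    rw [(AdjoinRoot.powerBasis hf.ne_zero).finrank, AdjoinRoot.powerBasis_dim, hfd]
  have : Module.Finite F (AdjoinRoot f) := (AdjoinRoot.powerBasis hf.ne_zero).finite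
  have : Finite (AdjoinRoot f) := Module.finite_of_finite F
  let _ : Fintype (AdjoinRoot f) := Fintype.ofFinite _
  have hcard : Fintype.card (AdjoinRoot f) = (q ^ 2) ^ k := by
    rw [Module.card_eq_pow_finrank (K := F), hfin, hF]
  obtain ⟨b⟩ : Nonempty (Module.Basis (Fin k) F (AdjoinRoot f)) :=
    ⟨Module.finBasisOfFinrankEq F (AdjoinRoot f) hfin⟩
  obtain ⟨ζ, hζ⟩ := IsCyclic.exists_generator (α := (AdjoinRoot f)ˣ)
  have hAA' : Algebra.leftMulMatrix b (ζ : AdjoinRoot f) *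
      Algebra.leftMulMatrix b ((ζ⁻¹ : (AdjoinRoot f)ˣ) : AdjoinRoot f) = 1 := by
    rw [← map_mul, Units.mul_inv, map_one]
  have hA'A : Algebra.leftMulMatrix b ((ζ⁻¹ : (AdjoinRoot f)ˣ) : AdjoinRoot f) *
      Algebra.leftMulMatrix b (ζ : AdjoinRoot f) = 1 := by
    rw [← map_mul, Units.inv_mul, map_one]
  have hGunit : IsUnit (fabGam hF b).det := isUnit_iff_ne_zero.mpr (fabGam_det hF b)
  have hGG' : (fabGam hF b).map (H17.frobHom hF) * ((fabGam hF b)⁻¹).map (H17.frobHom hF) = 1 := by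
    rw [← Matrix.map_mul, Matrix.mul_nonsing_inv _ hGunit, Matrix.map_one _ (map_zero _) (map_one _)]
  have hG'G : ((fabGam hF b)⁻¹).map (H17.frobHom hF) * (fabGam hF b).map (H17.frobHom hF) = 1 := by
    rw [← Matrix.map_mul, Matrix.nonsing_inv_mul _ hGunit, Matrix.map_one _ (map_zero _) (map_one _)]
  refine ⟨Algebra.leftMulMatrix b (ζ : AdjoinRoot f),
    Algebra.leftMulMatrix b ((ζ⁻¹ : (AdjoinRoot f)ˣ) : AdjoinRoot f),
    (fabGam hF b).map (H17.frobHom hF), ((fabGam hF b)⁻¹).map (H17.frobHom hF),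
    hAA', hA'A, hGG', hG'G, fab_GB hF b (ζ : AdjoinRoot f), ?_, ?_, ?_⟩
  · intro hkq lam hlam x hx
    exact fab_nz hF b ζ hζ hcard hk hkq lam hlam x hx
  · intro hkq X hX c₁ hc₁ hc₁0
    exact fab_xp1 hF b ζ hζ hcard hk hkq X hX c₁ hc₁ hc₁0
  · intro hk2 δ hδ hδ01 X hX c₁ hc₁ hc₁0
    exact fab_xp2 hF b ζ hζ hcard hk2 δ hδ hδ01 X hX c₁ hc₁ hc₁0

end Cfsg.Agent.H12.Psu
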