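import Cfsg.Agent.H12.QSRee4Core
import Cfsg.Agent.H68.ReeLite

/-!
# QS-REE4, light closure (helper12, for helper52's S2787)

`ree4L : StRee4` : an element `g` of the Ree group `²G₂(3^(2m+1))` with `g^4 = 1` has `g^2 = 1`.

Same three lines as `Cfsg/Agent/H12/QSRee4.lean`, with the two generic Chevalley facts taken at
type G2 from helper96's `Cfsg.Agent.H96.G2L.G2Facts` and S1152 replaced by helper68's light copy
`Cfsg.Agent.H68.RL.l1152`, so that the import closure holds no table of any other type.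
-/

set_option autoImplicit false

namespace Cfsg.Agent.H12.QSL

open Cfsg.Agent.H52.QS Cfsg.Agent.H12.QS

/-- **QS-REE4**, light closure. -/
theorem ree4L : StRee4 := by
  intro K _ _ m hK g hg
  have hc : CharP K 3 := Cfsg.Agent.H22.Ree.charP_three_of_card hK
  obtain ⟨C⟩ := Cfsg.Agent.H22.Ree.exists_ctx hK (Cfsg.Agent.H96.G2L.steinberg_G2 K)
    (Cfsg.Agent.H96.G2L.factor_G2 (F := K)).1
  exact ree4_of_ctx C (fun a haH ha1 ha2 => (Cfsg.Agent.H68.RL.l1152 hK a haH ha1 ha2).2) g hg

example : StRee4 := ree4L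

end Cfsg.Agent.H12.QSL
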