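import Mathlib
import Cfsg.Prelude.Def_LocalEven
import Cfsg.Agent.H52.ThS4

/-!
# `S₄`-sections from a 2-element inverting an element of order three on a normal 2-subgroup

* `s4i_exact`: if `T` is a normal `2`-subgroup of the finite group `E`, `y ^ 3 = 1`, `g` is a
  `2`-element with `g y g⁻¹ = y⁻¹` and `y` does not centralise `T`, then `S₄` is involved in `E`.
-/

set_option autoImplicit false

universe u

namespace Cfsg.Agent.H12

open Cfsg

theorem s4i_mem_normalizer {E : Type*} [Group E] [Finite E] (W : Subgroup E) (x : E)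
    (hx : ∀ w ∈ W, x * w * x⁻¹ ∈ W) : x ∈ Subgroup.normalizer (W : Set E) := by
  have h1 : W.map (MulAut.conj x).toMonoidHom ≤ W := by
    rintro _ ⟨w, hw, rfl⟩
    simpa using hx w hw
  have h2 : W.map (MulAut.conj x).toMonoidHom = W :=
    Subgroup.eq_of_le_of_card_ge h1
      (le_of_eq (Subgroup.card_map_of_injective (MulAut.conj x).injective).symm)
  rw [Subgroup.mem_normalizer_iff_map_conj_eq]
  exact h2

/-- Recognition of a section isomorphic to `S₄` (elementwise form). -/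
theorem s4i_of_elements {E : Type*} [Group E] [Finite E] (w₁ w₂ y g : E)
    (h1 : w₁ ≠ 1) (h2 : w₂ ≠ 1) (h12 : w₁ ≠ w₂) (hw₁ : w₁ * w₁ = 1) (hw₂ : w₂ * w₂ = 1)
    (hc : w₁ * w₂ = w₂ * w₁) (hy : y ^ 3 = 1) (hy1 : y * w₁ * y⁻¹ = w₂)
    (hy2 : y * w₂ * y⁻¹ = w₁ * w₂) (hg1 : g * w₁ * g⁻¹ = w₁) (hg2 : g * w₂ * g⁻¹ = w₁ * w₂)
    (hg : g * y * g⁻¹ = y⁻¹) : Involves (Equiv.Perm (Fin 4)) E := by
  have e1 : w₁ * (w₁ * w₂) = w₂ := by rw [← mul_assoc, hw₁, one_mul]
  have e2 : w₂ * (w₁ * w₂) = w₁ := by rw [hc, ← mul_assoc, hw₂, one_mul]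
  have e3 : (w₁ * w₂) * w₁ = w₂ := by rw [hc, mul_assoc, hw₁, mul_one]
  have e4 : (w₁ * w₂) * w₂ = w₁ := by rw [mul_assoc, hw₂, mul_one]
  have e5 : (w₁ * w₂) * (w₁ * w₂) = 1 := by rw [mul_assoc, e2, hw₁]
  have e6 : w₂ * w₁ = w₁ * w₂ := hc.symm
  have i1 : w₁⁻¹ = w₁ := inv_eq_of_mul_eq_one_right hw₁
  have i2 : w₂⁻¹ = w₂ := inv_eq_of_mul_eq_one_right hw₂
  have i3 : (w₁ * w₂)⁻¹ = w₁ * w₂ := inv_eq_of_mul_eq_one_right e5
  have n1 : w₁ * w₂ ≠ 1 := by
    intro h
    apply h12
    have := inv_eq_of_mul_eq_one_right h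
    rw [i1] at this; exact this
  have n2 : w₁ * w₂ ≠ w₁ := by
    intro h; apply h2
    have := congrArg (fun x => w₁ * x) h
    simp only [e1, hw₁] at this; exact this
  have n3 : w₁ * w₂ ≠ w₂ := by
    intro h; apply h1
    have := congrArg (fun x => x * w₂) h
    simp only [e4, hw₂] at this; exact this
  obtain ⟨W, hW⟩ : ∃ W : Subgroup E, ∀ x, x ∈ W ↔ (x = 1 ∨ x = w₁ ∨ x = w₂ ∨ x = w₁ * w₂) := by
    refine ⟨{ carrier := {x | x = 1 ∨ x = w₁ ∨ x = w₂ ∨ x = w₁ * w₂}
              mul_mem' := ?_, one_mem' := Or.inl rfl, inv_mem' := ?_ }, fun x => Iff.rfl⟩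
    · intro a b ha hb
      simp only [Set.mem_ofPred_eq] at ha hb ⊢
      rcases ha with ha | ha | ha | ha <;> rcases hb with hb | hb | hb | hb <;> rw [ha, hb] <;>
        simp [e1, e2, e3, e4, e5, e6, hw₁, hw₂]
    · intro a ha
      simp only [Set.mem_ofPred_eq] at ha ⊢
      rcases ha with ha | ha | ha | ha <;> rw [ha] <;> simp [i1, i2, i3]
  have hcard : Nat.card W = 4 := by
    have hset : (W : Set E) = {1, w₁, w₂, w₁ * w₂} := by
      ext x
      simp only [SetLike.mem_coe, hW, Set.mem_insert_iff, Set.mem_singleton_iff]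
    have h3 : Nat.card W = (W : Set E).ncard := (Nat.card_coe_set_eq (W : Set E))
    rw [h3, hset, Set.ncard_insert_of_notMem, Set.ncard_insert_of_notMem, Set.ncard_pair]
    · exact fun h => n3 h.symm
    · simp only [Set.mem_insert_iff, Set.mem_singleton_iff, not_or]
      exact ⟨h12, fun h => n2 h.symm⟩
    · simp only [Set.mem_insert_iff, Set.mem_singleton_iff, not_or]
      exact ⟨fun h => h1 h.symm, fun h => h2 h.symm, fun h => n1 h.symm⟩
  have hy3 : y * (w₁ * w₂) * y⁻¹ = w₁ := by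
    rw [show y * (w₁ * w₂) * y⁻¹ = (y * w₁ * y⁻¹) * (y * w₂ * y⁻¹) by group, hy1, hy2, e2]
  have hg3 : g * (w₁ * w₂) * g⁻¹ = w₂ := by
    rw [show g * (w₁ * w₂) * g⁻¹ = (g * w₁ * g⁻¹) * (g * w₂ * g⁻¹) by group, hg1, hg2, e1]
  apply H52.involves_S4_of_data W y g hcard hy
  · intro w hw
    rw [hW] at hw ⊢
    rcases hw with hw | hw | hw | hw
    · left; rw [hw]; simp
    · right; right; left; rw [hw, hy1]
    · right; right; right; rw [hw, hy2]
    · right; left; rw [hw, hy3]
  · intro w hw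
    rw [hW] at hw ⊢
    rcases hw with hw | hw | hw | hw
    · left; rw [hw]; simp
    · right; left; rw [hw, hg1]
    · right; right; right; rw [hw, hg2]
    · right; right; left; rw [hw, hg3]
  · exact hg
  · intro w hw hfix
    rw [hW] at hw
    rcases hw with hw | hw | hw | hw
    · exact hw
    · exfalso; rw [hw, hy1] at hfix; exact h12 hfix.symm
    · exfalso; rw [hw, hy2] at hfix; exact n3 hfix
    · exfalso; rw [hw, hy3] at hfix; exact n2 hfix.symm

theorem s4i_exact_aux (n : ℕ) : ∀ (E : Type u) [Group E] [Finite E] (T : Subgroup E) [T.Normal],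
    IsPGroup 2 T → ∀ g y : E, (∃ k : ℕ, g ^ 2 ^ k = 1) → y ^ 3 = 1 → g * y * g⁻¹ = y⁻¹ →
    (∃ t ∈ T, y * t * y⁻¹ ≠ t) → Nat.card E + Nat.card T = n →
    Involves (Equiv.Perm (Fin 4)) E := by
  induction n using Nat.strong_induction_on with
  | _ n ih =>
  intro E _ _ T hTn hT g y hg hy3 hgy hyT hn
  haveI : Fact (Nat.Prime 2) := ⟨Nat.prime_two⟩
  obtain ⟨t0, ht0, hyt0⟩ := hyT
  -- Step a: reduce to `E = T ⊔ ⟨g, y⟩`
  by_cases hK : T ⊔ Subgroup.closure {g, y} = ⊤
  swap
  · obtain ⟨K, hKdef⟩ : ∃ K : Subgroup E, K = T ⊔ Subgroup.closure {g, y} := ⟨_, rfl⟩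
    rw [← hKdef] at hK
    have hgK : g ∈ K := by
      rw [hKdef]
      exact (le_sup_right : Subgroup.closure {g, y} ≤ _) (Subgroup.subset_closure (by simp))
    have hyK : y ∈ K := by
      rw [hKdef]
      exact (le_sup_right : Subgroup.closure {g, y} ≤ _) (Subgroup.subset_closure (by simp))
    have hTK : T ≤ K := by rw [hKdef]; exact le_sup_left
    have hlt : Nat.card K < Nat.card E := by
      have h1 : Nat.card K ≤ Nat.card E := Subgroup.card_le_card_group K
      rcases h1.lt_or_eq with h | h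
      · exact h
      · exact absurd (Subgroup.eq_top_of_card_eq K h) hK
    have hcT : Nat.card (T.subgroupOf K) = Nat.card T :=
      Nat.card_congr (Subgroup.subgroupOfEquivOfLe hTK).toEquiv
    have hinv : Involves (Equiv.Perm (Fin 4)) K := by
      refine ih (Nat.card K + Nat.card (T.subgroupOf K)) (by omega) K (T.subgroupOf K)
        (hT.comap_subtype) ⟨g, hgK⟩ ⟨y, hyK⟩ ?_ ?_ ?_ ?_ rfl
      · obtain ⟨k, hk⟩ := hg
        exact ⟨k, Subtype.ext (by simpa using hk)⟩
      · exact Subtype.ext (by simpa using hy3)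
      · exact Subtype.ext (by simpa using hgy)
      · refine ⟨⟨t0, hTK ht0⟩, ?_, ?_⟩
        · exact Subgroup.mem_subgroupOf.2 ht0
        · intro h
          exact hyt0 (congrArg Subtype.val h)
    exact H52.involves_of_injective K.subtype K.subtype_injective hinv
  -- normality from generators
  have hnormal : ∀ L : Subgroup E, (∀ t ∈ T, ∀ l ∈ L, t * l * t⁻¹ ∈ L) →
      (∀ l ∈ L, g * l * g⁻¹ ∈ L) → (∀ l ∈ L, y * l * y⁻¹ ∈ L) → L.Normal := by
    intro L h1 h2 h3
    rw [← Subgroup.normalizer_eq_top_iff, eq_top_iff, ← hK]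
    refine sup_le ?_ ?_
    · intro t ht
      exact s4i_mem_normalizer L t (h1 t ht)
    · rw [Subgroup.closure_le]
      intro x hx
      simp only [Set.mem_insert_iff, Set.mem_singleton_iff] at hx
      rcases hx with rfl | rfl
      · exact s4i_mem_normalizer L _ h2
      · exact s4i_mem_normalizer L _ h3
  -- Step b: `T` is a minimal normal subgroup
  have hyyy : y * (y * y) = 1 := by rw [← hy3, pow_succ', pow_two]
  by_cases hmin : ∀ N : Subgroup E, N.Normal → N ≤ T → N = ⊥ ∨ N = T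
  swap
  · push Not at hmin
    obtain ⟨N, hNn, hNT, hN1, hN2⟩ := hmin
    haveI := hNn
    have hNlt : Nat.card N < Nat.card T := by
      have h1 : Nat.card N ≤ Nat.card T := Subgroup.card_le_of_le hNT
      rcases h1.lt_or_eq with h | h
      · exact h
      · exact absurd (Subgroup.eq_of_le_of_card_ge hNT (le_of_eq h.symm)) hN2
    have hN2' : 2 ≤ Nat.card N := by
      by_contra h
      exact hN1 (Subgroup.eq_bot_of_card_le N (by omega))
    by_cases hc : ∀ t ∈ T, y * t * y⁻¹ * t⁻¹ ∈ N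
    · have hex : ∃ n ∈ N, y * n * y⁻¹ ≠ n := by
        by_contra hno
        push Not at hno
        obtain ⟨n0, hn0⟩ : ∃ n0, n0 = y * t0 * y⁻¹ * t0⁻¹ := ⟨_, rfl⟩
        have hn0N : n0 ∈ N := by rw [hn0]; exact hc t0 ht0
        have hyn0 : y * n0 * y⁻¹ = n0 := hno n0 hn0N
        have e1 : y * t0 * y⁻¹ = n0 * t0 := by rw [hn0]; group
        have a1 : y * (n0 * t0) * y⁻¹ = n0 * (n0 * t0) := by
          calc y * (n0 * t0) * y⁻¹ = (y * n0 * y⁻¹) * (y * t0 * y⁻¹) := by group
            _ = n0 * (n0 * t0) := by rw [hyn0, e1]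
        have a2 : y * (n0 * (n0 * t0)) * y⁻¹ = n0 * (n0 * (n0 * t0)) := by
          calc y * (n0 * (n0 * t0)) * y⁻¹ = (y * n0 * y⁻¹) * (y * (n0 * t0) * y⁻¹) := by group
            _ = n0 * (n0 * (n0 * t0)) := by rw [hyn0, a1]
        have e2 : y * (y * (y * t0 * y⁻¹) * y⁻¹) * y⁻¹ = n0 * (n0 * (n0 * t0)) := by
          rw [e1, a1, a2]
        have e2' : y * (y * (y * t0 * y⁻¹) * y⁻¹) * y⁻¹ = t0 := by
          calc y * (y * (y * t0 * y⁻¹) * y⁻¹) * y⁻¹
              = (y * (y * y)) * t0 * (y * (y * y))⁻¹ := by group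
            _ = t0 := by rw [hyyy]; group
        have e3 : n0 ^ 3 = 1 := by
          have h5 : n0 * (n0 * n0) * t0 = 1 * t0 := by
            rw [one_mul]
            calc n0 * (n0 * n0) * t0 = n0 * (n0 * (n0 * t0)) := by group
              _ = t0 := by rw [← e2, e2']
          rw [pow_succ', pow_two]
          exact mul_right_cancel h5
        obtain ⟨k, hk⟩ := hT ⟨n0, hNT hn0N⟩
        have hk' : n0 ^ 2 ^ k = 1 := by simpa using congrArg Subtype.val hk
        have e4 : n0 = 1 := by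
          have h1 : orderOf n0 ∣ 3 := orderOf_dvd_of_pow_eq_one e3
          have h2 : orderOf n0 ∣ 2 ^ k := orderOf_dvd_of_pow_eq_one hk'
          have h3 : orderOf n0 ∣ Nat.gcd 3 (2 ^ k) := Nat.dvd_gcd h1 h2
          have h4 : Nat.gcd 3 (2 ^ k) = 1 := Nat.Coprime.pow_right k (by norm_num)
          rw [h4, Nat.dvd_one] at h3
          exact orderOf_eq_one_iff.1 h3
        apply hyt0
        rw [e1, e4, one_mul]
      obtain ⟨n1, hn1, hyn1⟩ := hex
      exact ih (Nat.card E + Nat.card N) (by omega) E N (hT.to_le hNT) g y hg hy3 hgy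
        ⟨n1, hn1, hyn1⟩ rfl
    · push Not at hc
      obtain ⟨t1, ht1, hyt1⟩ := hc
      have hcard1 : Nat.card (E ⧸ N) < Nat.card E := by
        have h1 := Subgroup.card_eq_card_quotient_mul_card_subgroup N
        have hpos : 0 < Nat.card (E ⧸ N) := Nat.card_pos
        nlinarith
      have hcard2 : Nat.card (T.map (QuotientGroup.mk' N)) ≤ Nat.card T :=
        Nat.le_of_dvd Nat.card_pos (Subgroup.card_map_dvd _ _)
      haveI : (T.map (QuotientGroup.mk' N)).Normal :=
        Subgroup.Normal.map hTn _ (QuotientGroup.mk'_surjective N)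
      have hinv : Involves (Equiv.Perm (Fin 4)) (E ⧸ N) := by
        refine ih (Nat.card (E ⧸ N) + Nat.card (T.map (QuotientGroup.mk' N))) (by omega) (E ⧸ N)
          (T.map (QuotientGroup.mk' N)) (hT.map _) (QuotientGroup.mk' N g)
          (QuotientGroup.mk' N y) ?_ ?_ ?_ ?_ rfl
        · obtain ⟨k, hk⟩ := hg
          exact ⟨k, by rw [← map_pow, hk, map_one]⟩
        · rw [← map_pow, hy3, map_one]
        · simpa only [map_mul, map_inv] using congrArg (QuotientGroup.mk' N) hgy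
        · refine ⟨QuotientGroup.mk' N t1, Subgroup.mem_map_of_mem _ ht1, ?_⟩
          intro h
          apply hyt1
          have h2 : QuotientGroup.mk' N (y * t1 * y⁻¹ * t1⁻¹) = 1 := by
            simp only [map_mul, map_inv]
            rw [h, mul_inv_cancel]
          exact (QuotientGroup.eq_one_iff _).1 h2
      exact H52.involves_of_surjective (QuotientGroup.mk' N) (QuotientGroup.mk'_surjective N) hinv
  have ht0ne : t0 ≠ 1 := by
    rintro rfl
    apply hyt0; group
  haveI : Nontrivial T := ⟨⟨⟨t0, ht0⟩, 1, fun h => ht0ne (congrArg Subtype.val h)⟩⟩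
  have h2card : 2 ∣ Nat.card T := by
    rcases hT.card_eq_or_dvd with h | h
    · exact absurd h (by have := Finite.one_lt_card (α := T); omega)
    · exact h
  -- Step c: `T` is abelian
  have hab : ∀ a ∈ T, ∀ b ∈ T, a * b = b * a := by
    have hZn : ((Subgroup.center T).map T.subtype).Normal := inferInstance
    have hZle : (Subgroup.center T).map T.subtype ≤ T := by
      rintro _ ⟨z, _, rfl⟩; exact z.2
    have hZne : (Subgroup.center T).map T.subtype ≠ ⊥ := by
      intro h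
      rw [Subgroup.map_eq_bot_iff_of_injective _ T.subtype_injective] at h
      exact (hT.bot_lt_center).ne' h
    rcases hmin _ hZn hZle with h | h
    · exact absurd h hZne
    · intro a ha b hb
      have ha' : a ∈ (Subgroup.center T).map T.subtype := by rw [h]; exact ha
      obtain ⟨z, hz, rfl⟩ := ha'
      have h5 := Subgroup.mem_center_iff.1 hz ⟨b, hb⟩
      exact (congrArg Subtype.val h5).symm
  -- Step d: `T` has exponent two
  have hsq : ∀ a ∈ T, a * a = 1 := by
    let Ω : Subgroup E :=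
      { carrier := {a | a ∈ T ∧ a * a = 1}
        one_mem' := ⟨T.one_mem, by simp⟩
        mul_mem' := by
          rintro a b ⟨ha, ha2⟩ ⟨hb, hb2⟩
          refine ⟨T.mul_mem ha hb, ?_⟩
          calc a * b * (a * b) = a * (b * a) * b := by group
            _ = a * (a * b) * b := by rw [hab b hb a ha]
            _ = (a * a) * (b * b) := by group
            _ = 1 := by rw [ha2, hb2, one_mul]
        inv_mem' := by
          rintro a ⟨ha, ha2⟩
          refine ⟨T.inv_mem ha, ?_⟩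
          calc a⁻¹ * a⁻¹ = (a * a)⁻¹ := by group
            _ = 1 := by rw [ha2, inv_one] }
    have hΩn : Ω.Normal := by
      refine ⟨fun a ha x => ?_⟩
      obtain ⟨ha1, ha2⟩ := ha
      refine ⟨hTn.conj_mem a ha1 x, ?_⟩
      calc x * a * x⁻¹ * (x * a * x⁻¹) = x * (a * a) * x⁻¹ := by group
        _ = 1 := by rw [ha2]; group
    have hΩle : Ω ≤ T := fun a ha => ha.1
    have hΩne : Ω ≠ ⊥ := by
      obtain ⟨a, ha⟩ := exists_prime_orderOf_dvd_card' 2 h2card
      intro hbot
      have ha1 : (a : E) ∈ Ω := ⟨a.2, by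
        have h5 : a ^ 2 = 1 := by rw [← ha]; exact pow_orderOf_eq_one a
        have h6 := congrArg Subtype.val h5
        simpa [pow_two] using h6⟩
      rw [hbot, Subgroup.mem_bot] at ha1
      have h7 : a = 1 := Subtype.ext ha1
      rw [h7, orderOf_one] at ha
      omega
    rcases hmin Ω hΩn hΩle with h | h
    · exact absurd h hΩne
    · intro a ha
      have h5 : a ∈ Ω := by rw [h]; exact ha
      exact h5.2
  -- Step e: `y` acts fixed-point-freely on `T`
  have hfix : ∀ a ∈ T, y * a * y⁻¹ = a → a = 1 := by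
    let F : Subgroup E :=
      { carrier := {a | a ∈ T ∧ y * a * y⁻¹ = a}
        one_mem' := ⟨T.one_mem, by group⟩
        mul_mem' := by
          rintro a b ⟨ha, ha2⟩ ⟨hb, hb2⟩
          refine ⟨T.mul_mem ha hb, ?_⟩
          calc y * (a * b) * y⁻¹ = (y * a * y⁻¹) * (y * b * y⁻¹) := by group
            _ = a * b := by rw [ha2, hb2]
        inv_mem' := by
          rintro a ⟨ha, ha2⟩
          refine ⟨T.inv_mem ha, ?_⟩
          calc y * a⁻¹ * y⁻¹ = (y * a * y⁻¹)⁻¹ := by group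
            _ = a⁻¹ := by rw [ha2] }
    have hFn : F.Normal := by
      apply hnormal
      · rintro t ht l ⟨hl, hl2⟩
        have h5 : t * l * t⁻¹ = l := by rw [hab t ht l hl]; group
        rw [h5]; exact ⟨hl, hl2⟩
      · rintro l ⟨hl, hl2⟩
        refine ⟨hTn.conj_mem l hl g, ?_⟩
        have h1 : g⁻¹ * y * g = y⁻¹ := by
          have h5 : y = g⁻¹ * y⁻¹ * g := by rw [← hgy]; group
          calc g⁻¹ * y * g = (g⁻¹ * y⁻¹ * g)⁻¹ := by group
            _ = y⁻¹ := by rw [← h5]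
        have h2 : y⁻¹ * l * y = l := by
          calc y⁻¹ * l * y = y⁻¹ * (y * l * y⁻¹) * y := by rw [hl2]
            _ = l := by group
        calc y * (g * l * g⁻¹) * y⁻¹
            = g * ((g⁻¹ * y * g) * l * (g⁻¹ * y * g)⁻¹) * g⁻¹ := by group
          _ = g * (y⁻¹ * l * y) * g⁻¹ := by rw [h1, inv_inv]
          _ = g * l * g⁻¹ := by rw [h2]
      · rintro l ⟨hl, hl2⟩
        rw [hl2]; exact ⟨hl, hl2⟩
    have hFle : F ≤ T := fun a ha => ha.1
    rcases hmin F hFn hFle with h | h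
    · intro a ha ha2
      have h5 : a ∈ F := ⟨ha, ha2⟩
      rw [h, Subgroup.mem_bot] at h5
      exact h5
    · exfalso
      have h5 : t0 ∈ F := by rw [h]; exact ht0
      exact hyt0 h5.2
  -- Step f: a nontrivial fixed point of `g`
  obtain ⟨v, hvT, hv1, hgv⟩ : ∃ v ∈ T, v ≠ 1 ∧ g * v * g⁻¹ = v := by
    obtain ⟨k, hk⟩ := hg
    have hZ : IsPGroup 2 (Subgroup.zpowers g) := by
      rintro ⟨_, i, rfl⟩
      refine ⟨k, Subtype.ext ?_⟩
      show (g ^ i) ^ 2 ^ k = 1
      rw [← zpow_natCast, ← zpow_mul, mul_comm, zpow_mul, zpow_natCast, hk, one_zpow]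
    letI : MulAction (Subgroup.zpowers g) T :=
      { smul := fun h t => ⟨(h : E) * t * (h : E)⁻¹, hTn.conj_mem t t.2 h⟩
        one_smul := fun t => Subtype.ext (by
          show ((1 : Subgroup.zpowers g) : E) * t * ((1 : Subgroup.zpowers g) : E)⁻¹ = t
          simp)
        mul_smul := fun a b t => Subtype.ext (by
          show ((a * b : Subgroup.zpowers g) : E) * t * ((a * b : Subgroup.zpowers g) : E)⁻¹ =
            (a : E) * ((b : E) * t * (b : E)⁻¹) * (a : E)⁻¹
          rw [Subgroup.coe_mul]; group) }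
    have h1fix : (1 : T) ∈ MulAction.fixedPoints (Subgroup.zpowers g) T := by
      intro h
      exact Subtype.ext (by
        show (h : E) * ((1 : T) : E) * (h : E)⁻¹ = ((1 : T) : E)
        simp)
    obtain ⟨b, hb, hb1⟩ := hZ.exists_fixed_point_of_prime_dvd_card_of_fixed_point T h2card h1fix
    refine ⟨b, b.2, ?_, ?_⟩
    · intro h; exact hb1 (Subtype.ext h.symm)
    · have h5 := hb ⟨g, Subgroup.mem_zpowers g⟩
      exact congrArg Subtype.val h5
  -- Step g: the four-group
  obtain ⟨v', hv'⟩ : ∃ v', v' = y * v * y⁻¹ := ⟨_, rfl⟩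
  have hv'T : v' ∈ T := by rw [hv']; exact hTn.conj_mem v hvT y
  have hvv' : v ≠ v' := by
    intro h
    exact hv1 (hfix v hvT (by rw [← hv']; exact h.symm))
  have hv'1 : v' ≠ 1 := by
    intro h
    apply hv1
    have h5 : v = y⁻¹ * v' * y := by rw [hv']; group
    rw [h5, h]; group
  have hc : v * v' = v' * v := hab v hvT v' hv'T
  obtain ⟨v'', hv''⟩ : ∃ v'', v'' = y * v' * y⁻¹ := ⟨_, rfl⟩
  have hv''T : v'' ∈ T := by rw [hv'']; exact hTn.conj_mem v' hv'T y
  have hyv'' : y * v'' * y⁻¹ = v := by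
    calc y * v'' * y⁻¹ = (y * (y * y)) * v * (y * (y * y))⁻¹ := by rw [hv'', hv']; group
      _ = v := by rw [hyyy]; group
  have hw : v * v' * v'' = 1 := by
    apply hfix _ (T.mul_mem (T.mul_mem hvT hv'T) hv''T)
    calc y * (v * v' * v'') * y⁻¹
        = (y * v * y⁻¹) * (y * v' * y⁻¹) * (y * v'' * y⁻¹) := by group
      _ = v' * v'' * v := by rw [hyv'', ← hv', ← hv'']
      _ = v * v' * v'' := by
          rw [hab (v' * v'') (T.mul_mem hv'T hv''T) v hvT, mul_assoc]
  have hy2 : y * v' * y⁻¹ = v * v' := by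
    have h1 : v'' = (v * v')⁻¹ := eq_inv_of_mul_eq_one_right hw
    have h2 : (v * v')⁻¹ = v * v' := inv_eq_of_mul_eq_one_right (hsq _ (T.mul_mem hvT hv'T))
    rw [← hv'', h1, h2]
  have hg2 : g * v' * g⁻¹ = v * v' := by
    have h1 : g * v' * g⁻¹ = y⁻¹ * v * y := by
      calc g * v' * g⁻¹ = (g * y * g⁻¹) * (g * v * g⁻¹) * (g * y * g⁻¹)⁻¹ := by rw [hv']; group
        _ = y⁻¹ * v * y := by rw [hgy, hgv, inv_inv]
    have h3 : y⁻¹ = y * y := inv_eq_of_mul_eq_one_right hyyy
    have h2 : y⁻¹ * v * y = v'' := by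
      calc y⁻¹ * v * y = y⁻¹ * v * (y⁻¹)⁻¹ := by rw [inv_inv]
        _ = (y * y) * v * (y * y)⁻¹ := by rw [h3]
        _ = v'' := by rw [hv'', hv']; group
    rw [h1, h2, hv'']; exact hy2
  exact s4i_of_elements v v' y g hv1 hv'1 hvv' (hsq v hvT) (hsq v' hv'T) hc hy3 hv'.symm hy2
    hgv hg2 hgy

/-- If `T` is a normal `2`-subgroup of the finite group `E`, `y ^ 3 = 1`, `g` is a `2`-element
inverting `y`, and `y` does not centralise `T`, then `S₄` is involved in `E`. -/
theorem s4i_exact {E : Type u} [Group E] [Finite E] (T : Subgroup E) [T.Normal]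
    (hT : IsPGroup 2 T) (g y : E) (hg : ∃ k : ℕ, g ^ 2 ^ k = 1) (hy3 : y ^ 3 = 1)
    (hgy : g * y * g⁻¹ = y⁻¹) (hyT : ∃ t ∈ T, y * t * y⁻¹ ≠ t) :
    Involves (Equiv.Perm (Fin 4)) E :=
  s4i_exact_aux _ E T hT g y hg hy3 hgy hyT rfl

end Cfsg.Agent.H12
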