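import Mathlib
import Cfsg.Prelude.Def_LocalEven
import Cfsg.Agent.H52.ThS4
import Cfsg.Agent.H10.Dihedral
import Cfsg.Agent.H51.DihInv
import Cfsg.Agent.H12.S4InvA

/-!
# `S₃` involved in `N(T)/C(T)` for a 2-subgroup `T` forces an `S₄`-section

* `s4i_frattini`: Frattini-type lifting of an inverted element of order three.
* `s4i_backward`: if `T` is a `2`-subgroup of the finite group `G` and `S₃` is involved in
  `N_G(T)/C_G(T)`, then `S₄` is involved in `G`.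
-/

set_option autoImplicit false

universe u

namespace Cfsg.Agent.H12

open Cfsg

theorem s4i_conj_pow_odd {Q : Type*} [Group Q] (u w : Q) (h : u * w * u⁻¹ = w⁻¹) (k : ℕ) :
    u ^ (2 * k + 1) * w * (u ^ (2 * k + 1))⁻¹ = w⁻¹ := by
  have h2 : u ^ 2 * w * (u ^ 2)⁻¹ = w := by
    calc u ^ 2 * w * (u ^ 2)⁻¹ = u * (u * w * u⁻¹) * u⁻¹ := by
          rw [pow_two, mul_inv_rev]; simp only [mul_assoc]
      _ = u * w⁻¹ * u⁻¹ := by rw [h]
      _ = (u * w * u⁻¹)⁻¹ := by group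
      _ = w := by rw [h, inv_inv]
  have h3 : Commute (u ^ 2) w := by
    show u ^ 2 * w = w * u ^ 2
    calc u ^ 2 * w = (u ^ 2 * w * (u ^ 2)⁻¹) * u ^ 2 := by
          rw [mul_assoc, mul_assoc, inv_mul_cancel, mul_one]
      _ = w * u ^ 2 := by rw [h2]
  have h4 : Commute (u ^ (2 * k)) w := by rw [pow_mul]; exact h3.pow_left k
  calc u ^ (2 * k + 1) * w * (u ^ (2 * k + 1))⁻¹
      = u ^ (2 * k) * (u * w * u⁻¹) * (u ^ (2 * k))⁻¹ := by
        rw [pow_succ, mul_inv_rev]; simp only [mul_assoc]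
    _ = u ^ (2 * k) * w⁻¹ * (u ^ (2 * k))⁻¹ := by rw [h]
    _ = w⁻¹ := by rw [(h4.inv_right).eq, mul_assoc, mul_inv_cancel, mul_one]

theorem s4i_conj_pow_inv {Q : Type*} [Group Q] (u w : Q) (h : u * w * u⁻¹ = w⁻¹) (j : ℕ) :
    u * w ^ j * u⁻¹ = (w ^ j)⁻¹ := by
  rw [← conj_pow, h, inv_pow]

/-- Frattini-type lifting: if `f y0` has order three, is inverted by `f x0` and generates a
subgroup normalised by the image of `f`, then there are a `3`-subgroup `P`, an element `y ∈ P`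
whose image still has order three and a `2`-element `g` normalising `P` whose image inverts the
image of `y`. -/
theorem s4i_frattini {H Q : Type*} [Group H] [Finite H] [Group Q] (f : H →* Q) (x0 y0 : H)
    (hy1 : f y0 ≠ 1) (hy3 : f y0 ^ 3 = 1) (hxy : f x0 * f y0 * (f x0)⁻¹ = (f y0)⁻¹)
    (hN : ∀ h : H, f h ∈ Subgroup.normalizer ((Subgroup.zpowers (f y0) : Subgroup Q) : Set Q)) :
    ∃ (g y : H) (P : Subgroup H), IsPGroup 3 P ∧ g ∈ Subgroup.normalizer (P : Set H) ∧ y ∈ P ∧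
      f y ≠ 1 ∧ f y ^ 3 = 1 ∧ f g * f y * (f g)⁻¹ = (f y)⁻¹ ∧ ∃ k : ℕ, g ^ 2 ^ k = 1 := by
  classical
  haveI : Fact (Nat.Prime 3) := ⟨Nat.prime_three⟩
  obtain ⟨A, hA⟩ : ∃ A : Subgroup H, A = (Subgroup.zpowers (f y0)).comap f := ⟨_, rfl⟩
  have hAmem : ∀ a : H, a ∈ A ↔ f a ∈ Subgroup.zpowers (f y0) := by
    intro a; rw [hA]; exact Iff.rfl
  haveI hAn : A.Normal := ⟨fun a ha h => by
    rw [hAmem] at ha ⊢
    rw [map_mul, map_mul, map_inv]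
    exact (Subgroup.mem_normalizer_iff.1 (hN h) (f a)).1 ha⟩
  obtain ⟨a, m, hm, ho⟩ := Nat.exists_eq_pow_mul_and_not_dvd (orderOf_pos y0).ne' 3 (by norm_num)
  have hy1pow : (y0 ^ m) ^ 3 ^ a = 1 := by rw [← pow_mul, mul_comm, ← ho, pow_orderOf_eq_one]
  have hy1A : y0 ^ m ∈ A := by
    rw [hAmem, map_pow]; exact Subgroup.pow_mem _ (Subgroup.mem_zpowers _) m
  have hpg : IsPGroup 3 (Subgroup.zpowers (⟨y0 ^ m, hy1A⟩ : A)) := by
    rintro ⟨_, z, rfl⟩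
    refine ⟨a, ?_⟩
    apply Subtype.ext
    apply Subtype.ext
    show ((y0 ^ m) ^ z) ^ (3 ^ a) = 1
    rw [← zpow_natCast, ← zpow_mul, mul_comm, zpow_mul, zpow_natCast, hy1pow, one_zpow]
  obtain ⟨P, hP⟩ := hpg.exists_le_sylow
  have hyP : (⟨y0 ^ m, hy1A⟩ : A) ∈ P := hP (Subgroup.mem_zpowers _)
  have hfr := Sylow.normalizer_sup_eq_top P
  have hx0 : x0 ∈ ((Subgroup.normalizer (((P : Subgroup A).map A.subtype : Subgroup H) : Set H) ⊔
      A : Subgroup H) : Set H) := by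
    rw [hfr]; exact Subgroup.mem_top x0
  rw [Subgroup.mul_normal] at hx0
  obtain ⟨n, hn, b, hb, hnb⟩ := Set.mem_mul.1 hx0
  have hfb : f b ∈ Subgroup.zpowers (f y0) := (hAmem b).1 hb
  obtain ⟨i, hi⟩ := Subgroup.mem_zpowers_iff.1 hfb
  have hcomm : (f b)⁻¹ * f y0 * f b = f y0 := by
    rw [← hi]
    have h5 : Commute (f y0 ^ i) (f y0) := (Commute.refl (f y0)).zpow_left i
    rw [mul_assoc, ← h5.eq, ← mul_assoc, inv_mul_cancel, one_mul]
  have hfn : f n * f y0 * (f n)⁻¹ = (f y0)⁻¹ := by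
    have h1 : f n = f x0 * (f b)⁻¹ := by rw [← hnb, map_mul]; group
    rw [h1]
    calc f x0 * (f b)⁻¹ * f y0 * (f x0 * (f b)⁻¹)⁻¹
        = f x0 * ((f b)⁻¹ * f y0 * f b) * (f x0)⁻¹ := by group
      _ = (f y0)⁻¹ := by rw [hcomm, hxy]
  obtain ⟨c, m2, hm2odd, hom⟩ := Nat.exists_eq_two_pow_mul_odd (orderOf_pos n).ne'
  have hg2 : (n ^ m2) ^ 2 ^ c = 1 := by rw [← pow_mul, mul_comm, ← hom, pow_orderOf_eq_one]
  obtain ⟨j, hj⟩ := hm2odd
  have hfg : f (n ^ m2) * f y0 * (f (n ^ m2))⁻¹ = (f y0)⁻¹ := by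
    rw [map_pow, hj]
    exact s4i_conj_pow_odd (f n) (f y0) hfn j
  have ho3 : orderOf (f y0) = 3 := orderOf_eq_prime hy3 hy1
  refine ⟨n ^ m2, y0 ^ m, (P : Subgroup A).map A.subtype, P.isPGroup'.map _, pow_mem hn m2,
    ⟨⟨y0 ^ m, hy1A⟩, hyP, rfl⟩, ?_, ?_, ?_, ⟨c, hg2⟩⟩
  · intro h
    rw [map_pow] at h
    have h5 : orderOf (f y0) ∣ m := orderOf_dvd_of_pow_eq_one h
    rw [ho3] at h5
    exact hm h5
  · rw [map_pow, ← pow_mul, mul_comm, pow_mul, hy3, one_pow]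
  · rw [map_pow (f := f) y0 m]
    exact s4i_conj_pow_inv _ _ hfg m

theorem s4i_backward_aux {G : Type u} [Group G] [Finite G] (T N CG : Subgroup G)
    (hT : IsPGroup 2 T) (hNdef : N = Subgroup.normalizer (T : Set G))
    (hCGdef : CG = Subgroup.centralizer (T : Set G)) [hCn : (CG.subgroupOf N).Normal]
    (h : Involves (Equiv.Perm (Fin 3)) (↥N ⧸ CG.subgroupOf N)) :
    Involves (Equiv.Perm (Fin 4)) G := by
  classical
  haveI : Fact (Nat.Prime 2) := ⟨Nat.prime_two⟩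
  haveI : Fact (Nat.Prime 3) := ⟨Nat.prime_three⟩
  have hCGmem : ∀ c : G, c ∈ CG ↔ ∀ t ∈ T, t * c = c * t := by
    intro c; rw [hCGdef]; exact Subgroup.mem_centralizer_iff
  have hCGconj : ∀ c ∈ CG, ∀ n ∈ N, n * c * n⁻¹ ∈ CG := by
    intro c hc n hn
    rw [hCGdef] at hc ⊢
    rw [hNdef] at hn
    exact (Subgroup.normal_subgroupOf_iff (Subgroup.centralizer_le_normalizer _)).1
      inferInstance c n hc hn
  have hTN : T ≤ N := by rw [hNdef]; exact Subgroup.le_normalizer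
  have hNconj : ∀ n ∈ N, ∀ t ∈ T, n * t * n⁻¹ ∈ T := by
    intro n hn t ht
    rw [hNdef] at hn
    exact (Subgroup.mem_normalizer_iff.1 hn t).1 ht
  -- the dihedral configuration in the quotient
  have hD : Involves (DihedralGroup 3) (↥N ⧸ CG.subgroupOf N) := by
    obtain ⟨K, R, hn, ⟨e⟩⟩ := h
    obtain ⟨ψ⟩ := Cfsg.Agent.H10.nonempty_dihedral3_equiv_perm
    exact ⟨K, R, hn, ⟨e.trans ψ.symm⟩⟩
  obtain ⟨xq, yq0, -, ⟨l, hl⟩, hyq01, hxyq0⟩ :=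
    (Cfsg.Agent.H51.dih_main (G := ↥N ⧸ CG.subgroupOf N) (p := 3) (by norm_num)).2.1 hD
  -- an element of order three
  obtain ⟨l', rfl⟩ : ∃ l', l = l' + 1 := by
    rcases l with _ | l'
    · exfalso
      rw [pow_zero, orderOf_eq_one_iff] at hl
      exact hyq01 hl
    · exact ⟨l', rfl⟩
  obtain ⟨yq, hyqdef⟩ : ∃ yq, yq = yq0 ^ 3 ^ l' := ⟨_, rfl⟩
  have hyq3 : yq ^ 3 = 1 := by
    rw [hyqdef, ← pow_mul, ← pow_succ, ← hl, pow_orderOf_eq_one]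
  have hyq1 : yq ≠ 1 := by
    intro h1
    rw [hyqdef] at h1
    have h2 : orderOf yq0 ∣ 3 ^ l' := orderOf_dvd_of_pow_eq_one h1
    rw [hl] at h2
    have h3 : 3 ^ (l' + 1) ≤ 3 ^ l' := Nat.le_of_dvd (by positivity) h2
    have h4 : 3 ^ l' < 3 ^ (l' + 1) := Nat.pow_lt_pow_right (by norm_num) (by omega)
    omega
  have hxyq : xq * yq * xq⁻¹ = yq⁻¹ := by
    rw [hyqdef]; exact s4i_conj_pow_inv _ _ hxyq0 _
  -- the subgroup `X`
  obtain ⟨X, hXdef⟩ : ∃ X : Subgroup ↥N, X = (Subgroup.normalizer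
      ((Subgroup.zpowers yq : Subgroup (↥N ⧸ CG.subgroupOf N)) : Set (↥N ⧸ CG.subgroupOf N))).comap
      (QuotientGroup.mk' (CG.subgroupOf N)) := ⟨_, rfl⟩
  have hXmem : ∀ a : ↥N, a ∈ X ↔ QuotientGroup.mk' (CG.subgroupOf N) a ∈ Subgroup.normalizer
      ((Subgroup.zpowers yq : Subgroup (↥N ⧸ CG.subgroupOf N)) : Set (↥N ⧸ CG.subgroupOf N)) := by
    intro a; rw [hXdef]; exact Iff.rfl
  obtain ⟨x0, hx0⟩ := QuotientGroup.mk'_surjective (CG.subgroupOf N) xq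
  obtain ⟨y0, hy0⟩ := QuotientGroup.mk'_surjective (CG.subgroupOf N) yq
  have hx0X : x0 ∈ X := by
    rw [hXmem, hx0]
    apply s4i_mem_normalizer
    rintro w ⟨i, rfl⟩
    show xq * yq ^ i * xq⁻¹ ∈ Subgroup.zpowers yq
    rw [← conj_zpow, hxyq]
    exact Subgroup.zpow_mem _ (Subgroup.inv_mem _ (Subgroup.mem_zpowers _)) i
  have hy0X : y0 ∈ X := by
    rw [hXmem, hy0]
    exact Subgroup.le_normalizer (Subgroup.mem_zpowers yq)
  obtain ⟨f, hfdef⟩ : ∃ f : ↥X →* ↥N ⧸ CG.subgroupOf N,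
      f = (QuotientGroup.mk' (CG.subgroupOf N)).comp X.subtype := ⟨_, rfl⟩
  have hfapp : ∀ a : ↥X, f a = QuotientGroup.mk' (CG.subgroupOf N) (a : ↥N) := by
    intro a; rw [hfdef]; rfl
  have hf1 : ∀ a : ↥X, f a = 1 ↔ (((a : ↥N) : G)) ∈ CG := by
    intro a
    rw [hfapp]
    exact (QuotientGroup.eq_one_iff _).trans Subgroup.mem_subgroupOf
  have hfy0 : f ⟨y0, hy0X⟩ = yq := by rw [hfapp]; exact hy0
  have hfx0 : f ⟨x0, hx0X⟩ = xq := by rw [hfapp]; exact hx0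
  obtain ⟨g, y, P, hP3, hgP, hyP, hfy1, hfy3, hfgy, ⟨k, hgk⟩⟩ :=
    s4i_frattini f ⟨x0, hx0X⟩ ⟨y0, hy0X⟩ (by rw [hfy0]; exact hyq1) (by rw [hfy0]; exact hyq3)
      (by rw [hfy0, hfx0]; exact hxyq)
      (by
        intro a
        rw [hfy0, hfapp]
        exact (hXmem _).1 a.2)
  -- pass to `G`
  obtain ⟨gG, hgGdef⟩ : ∃ gG : G, gG = ((g : ↥N) : G) := ⟨_, rfl⟩
  obtain ⟨yG, hyGdef⟩ : ∃ yG : G, yG = ((y : ↥N) : G) := ⟨_, rfl⟩
  obtain ⟨PG, hPGdef⟩ : ∃ PG : Subgroup G, PG = (P.map X.subtype).map N.subtype := ⟨_, rfl⟩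
  have hPG3 : IsPGroup 3 PG := by rw [hPGdef]; exact (hP3.map _).map _
  have hgGN : gG ∈ N := by rw [hgGdef]; exact (g : ↥N).2
  have hyGN : yG ∈ N := by rw [hyGdef]; exact (y : ↥N).2
  have hgGP : gG ∈ Subgroup.normalizer (PG : Set G) := by
    rw [hPGdef, hgGdef]
    exact Subgroup.le_normalizer_map N.subtype
      ⟨(g : ↥N), Subgroup.le_normalizer_map X.subtype ⟨g, hgP, rfl⟩, rfl⟩
  have hyGP : yG ∈ PG := by
    rw [hPGdef, hyGdef]
    exact ⟨(y : ↥N), ⟨y, hyP, rfl⟩, rfl⟩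
  have hyGC : yG ∉ CG := by
    intro hc
    rw [hyGdef] at hc
    exact hfy1 ((hf1 y).2 hc)
  have hy3C : yG ^ 3 ∈ CG := by
    have h1 : f (y ^ 3) = 1 := by rw [map_pow]; exact hfy3
    have h2 := (hf1 (y ^ 3)).1 h1
    rw [hyGdef]
    simpa using h2
  have hgyC : gG * yG * gG⁻¹ * yG ∈ CG := by
    have h1 : f (g * y * g⁻¹ * y) = 1 := by
      rw [map_mul, map_mul, map_mul, map_inv, hfgy, inv_mul_cancel]
    have h2 := (hf1 (g * y * g⁻¹ * y)).1 h1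
    rw [hgGdef, hyGdef]
    simpa using h2
  have hgGk : gG ^ 2 ^ k = 1 := by
    rw [hgGdef]
    have h1 := congrArg (fun a : ↥X => ((a : ↥N) : G)) hgk
    simpa using h1
  -- the section
  obtain ⟨P0, hP0def⟩ : ∃ P0 : Subgroup G, P0 = PG ⊓ CG := ⟨_, rfl⟩
  have hP0mem : ∀ w : G, w ∈ P0 ↔ w ∈ PG ∧ w ∈ CG := by
    intro w; rw [hP0def]; exact Subgroup.mem_inf
  obtain ⟨K, hKdef⟩ : ∃ K : Subgroup G, K = Subgroup.normalizer (P0 : Set G) ⊓
      Subgroup.normalizer (T : Set G) := ⟨_, rfl⟩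
  have hKP0 : K ≤ Subgroup.normalizer (P0 : Set G) := by rw [hKdef]; exact inf_le_left
  have hKT : K ≤ Subgroup.normalizer (T : Set G) := by rw [hKdef]; exact inf_le_right
  have hKmem : ∀ w : G, w ∈ K ↔ w ∈ Subgroup.normalizer (P0 : Set G) ∧ w ∈ N := by
    intro w; rw [hKdef, hNdef]; exact Subgroup.mem_inf
  have hTK : T ≤ K := by
    intro t ht
    rw [hKmem]
    refine ⟨?_, hTN ht⟩
    apply s4i_mem_normalizer
    intro w hw
    have h1 : t * w = w * t := (hCGmem w).1 ((hP0mem w).1 hw).2 t ht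
    have h2 : t * w * t⁻¹ = w := by rw [h1]; group
    rw [h2]; exact hw
  have hnormP0 : ∀ a : G, a ∈ Subgroup.normalizer (PG : Set G) → a ∈ N →
      a ∈ Subgroup.normalizer (P0 : Set G) := by
    intro a haP haN
    apply s4i_mem_normalizer
    intro w hw
    rw [hP0mem] at hw ⊢
    exact ⟨(Subgroup.mem_normalizer_iff.1 haP w).1 hw.1, hCGconj w hw.2 a haN⟩
  have hgK : gG ∈ K := (hKmem _).2 ⟨hnormP0 gG hgGP hgGN, hgGN⟩
  have hyK : yG ∈ K := (hKmem _).2 ⟨hnormP0 yG (Subgroup.le_normalizer hyGP) hyGN, hyGN⟩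
  haveI hP0n : (P0.subgroupOf K).Normal := Subgroup.normal_subgroupOf_of_le_normalizer hKP0
  haveI hTKn : (T.subgroupOf K).Normal := Subgroup.normal_subgroupOf_of_le_normalizer hKT
  haveI hTbn : ((T.subgroupOf K).map (QuotientGroup.mk' (P0.subgroupOf K))).Normal :=
    Subgroup.Normal.map hTKn _ (QuotientGroup.mk'_surjective _)
  have hq1 : ∀ a : ↥K, QuotientGroup.mk' (P0.subgroupOf K) a = 1 ↔ (a : G) ∈ P0 := by
    intro a
    exact (QuotientGroup.eq_one_iff _).trans Subgroup.mem_subgroupOf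
  have hdisj : ∀ w : G, w ∈ PG → w ∈ T → w = 1 := by
    intro w hw1 hw2
    have h1 : Disjoint PG T := IsPGroup.disjoint_of_ne 3 2 (by norm_num) PG T hPG3 hT
    have h2 : w ∈ PG ⊓ T := Subgroup.mem_inf.2 ⟨hw1, hw2⟩
    rw [h1.eq_bot, Subgroup.mem_bot] at h2
    exact h2
  have hinvE : Involves (Equiv.Perm (Fin 4)) (↥K ⧸ P0.subgroupOf K) := by
    refine s4i_exact ((T.subgroupOf K).map (QuotientGroup.mk' (P0.subgroupOf K)))
      ((hT.comap_subtype).map _) (QuotientGroup.mk' (P0.subgroupOf K) ⟨gG, hgK⟩)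
      (QuotientGroup.mk' (P0.subgroupOf K) ⟨yG, hyK⟩) ?_ ?_ ?_ ?_
    · refine ⟨k, ?_⟩
      rw [← map_pow]
      have h1 : (⟨gG, hgK⟩ : ↥K) ^ 2 ^ k = 1 := Subtype.ext (by simpa using hgGk)
      rw [h1, map_one]
    · rw [← map_pow, hq1]
      have h1 : (((⟨yG, hyK⟩ : ↥K) ^ 3 : ↥K) : G) = yG ^ 3 := by simp
      rw [h1, hP0mem]
      exact ⟨PG.pow_mem hyGP 3, hy3C⟩
    · have h1 : QuotientGroup.mk' (P0.subgroupOf K)
          ((⟨gG, hgK⟩ : ↥K) * ⟨yG, hyK⟩ * (⟨gG, hgK⟩ : ↥K)⁻¹ * ⟨yG, hyK⟩) = 1 := by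
        rw [hq1]
        have h2 : ((((⟨gG, hgK⟩ : ↥K) * ⟨yG, hyK⟩ * (⟨gG, hgK⟩ : ↥K)⁻¹ * ⟨yG, hyK⟩ : ↥K)) : G) =
            gG * yG * gG⁻¹ * yG := by simp
        rw [h2, hP0mem]
        exact ⟨PG.mul_mem ((Subgroup.mem_normalizer_iff.1 hgGP yG).1 hyGP) hyGP, hgyC⟩
      rw [map_mul, map_mul, map_mul, map_inv] at h1
      exact eq_inv_of_mul_eq_one_left h1
    · have hex : ∃ t ∈ T, t * yG ≠ yG * t := by
        by_contra hno
        push Not at hno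
        exact hyGC ((hCGmem yG).2 hno)
      obtain ⟨t, ht, hty⟩ := hex
      refine ⟨QuotientGroup.mk' (P0.subgroupOf K) ⟨t, hTK ht⟩,
        Subgroup.mem_map_of_mem _ (Subgroup.mem_subgroupOf.2 ht), ?_⟩
      intro hc
      apply hty
      have h1 : QuotientGroup.mk' (P0.subgroupOf K)
          ((⟨yG, hyK⟩ : ↥K) * ⟨t, hTK ht⟩ * (⟨yG, hyK⟩ : ↥K)⁻¹ * (⟨t, hTK ht⟩ : ↥K)⁻¹) = 1 := by
        rw [map_mul, map_mul, map_mul, map_inv, map_inv, hc, mul_inv_cancel]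
      rw [hq1] at h1
      have h2 : ((((⟨yG, hyK⟩ : ↥K) * ⟨t, hTK ht⟩ * (⟨yG, hyK⟩ : ↥K)⁻¹ *
          (⟨t, hTK ht⟩ : ↥K)⁻¹ : ↥K)) : G) = yG * t * yG⁻¹ * t⁻¹ := by simp
      rw [h2, hP0mem] at h1
      have h3 : yG * t * yG⁻¹ * t⁻¹ ∈ T := T.mul_mem (hNconj yG hyGN t ht) (T.inv_mem ht)
      have h4 : yG * t * yG⁻¹ * t⁻¹ = 1 := hdisj _ h1.1 h3
      calc t * yG = (yG * t * yG⁻¹ * t⁻¹)⁻¹ * (yG * t) := by group
        _ = yG * t := by rw [h4, inv_one, one_mul]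
  have hinvK : Involves (Equiv.Perm (Fin 4)) ↥K :=
    H52.involves_of_surjective (QuotientGroup.mk' (P0.subgroupOf K))
      (QuotientGroup.mk'_surjective _) hinvE
  exact H52.involves_of_injective K.subtype K.subtype_injective hinvK

/-- If `T` is a `2`-subgroup of the finite group `G` and `S₃` is involved in `N_G(T)/C_G(T)`,
then `S₄` is involved in `G`. -/
theorem s4i_backward {G : Type u} [Group G] [Finite G] (T : Subgroup G) (hT : IsPGroup 2 T)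
    (h : Involves (Equiv.Perm (Fin 3)) (↥(Subgroup.normalizer (T : Set G)) ⧸
      (Subgroup.centralizer (T : Set G)).subgroupOf (Subgroup.normalizer (T : Set G)))) :
    Involves (Equiv.Perm (Fin 4)) G :=
  s4i_backward_aux T _ _ hT rfl rfl h

end Cfsg.Agent.H12
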