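import Mathlib
import Cfsg.Prelude.Def_LocalEven
import Cfsg.Agent.H52.ThS4
import Cfsg.Agent.H10.Dihedral

/-!
# An `S₄`-section gives a 2-subgroup `T` with `S₃` involved in `N(T)/C(T)`

* `s4i_forward`: if `S₄` is involved in the finite group `G`, then there is a `2`-subgroup `T`
  of `G` such that `S₃` is involved in `N_G(T)/C_G(T)`.
-/

set_option autoImplicit false

universe u

namespace Cfsg.Agent.H12

open Cfsg Equiv

theorem s4i_involves_of_subgroup_equiv {G : Type*} [Group G] {L : Type*} [Group L]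
    (K : Subgroup G) (e : K ≃* L) : Cfsg.Involves L G := by
  have hb : (⊥ : Subgroup G).subgroupOf K = ⊥ := Subgroup.bot_subgroupOf K
  have hn : ((⊥ : Subgroup G).subgroupOf K).Normal := by rw [hb]; infer_instance
  refine ⟨K, ⊥, hn, ?_⟩
  exact ⟨(QuotientGroup.quotientMulEquivOfEq hb).trans (QuotientGroup.quotientBot.trans e)⟩

/-- An involution inverting an element of order three generates a copy of `S₃`. -/
theorem s4i_involves_S3_of_inverted {G : Type*} [Group G] (b y : G) (hbb : b * b = 1)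
    (hy1 : y ≠ 1) (hy3 : y ^ 3 = 1) (hby : b * y * b⁻¹ = y⁻¹) :
    Cfsg.Involves (Equiv.Perm (Fin 3)) G := by
  have hbi : b⁻¹ = b := inv_eq_of_mul_eq_one_right hbb
  rw [hbi] at hby
  have he : (b * y) * (b * y) = 1 := by
    calc (b * y) * (b * y) = (b * y * b) * y := by group
      _ = 1 := by rw [hby, inv_mul_cancel]
  have hde : b * (b * y) = y := by rw [← mul_assoc, hbb, one_mul]
  have h3 : (b * (b * y)) ^ 3 = 1 := by rw [hde]; exact hy3
  have hne : b * (b * y) ≠ (b * y) * b := by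
    rw [hde, hby]
    intro h
    apply hy1
    have h2 : y * y = 1 := by
      calc y * y = y * y⁻¹ := by rw [← h]
        _ = 1 := mul_inv_cancel y
    have h4 : y * (y * y) = 1 := by rw [← hy3, pow_succ', pow_two]
    rw [h2, mul_one] at h4
    exact h4
  obtain ⟨e1⟩ := Cfsg.Agent.H10.nonempty_dihedral3_equiv_closure hbb he h3 hne
  obtain ⟨e2⟩ := Cfsg.Agent.H10.nonempty_dihedral3_equiv_perm
  exact s4i_involves_of_subgroup_equiv _ (e1.symm.trans e2)

/-- Transfer of a section along a homomorphism whose kernel lies in a normal subgroup. -/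
theorem s4i_involves_transfer {A Q H : Type*} [Group A] [Group Q] [Group H] (ι : A →* Q)
    (B : Subgroup A) [B.Normal] (hker : ι.ker ≤ B) (h : Involves H (A ⧸ B)) : Involves H Q := by
  obtain ⟨K2, R2, hn, ⟨e⟩⟩ := h
  let φ : K2.comap (QuotientGroup.mk' B) →* K2 := (QuotientGroup.mk' B).subgroupComap K2
  have hφ : Function.Surjective φ :=
    (QuotientGroup.mk' B).subgroupComap_surjective_of_surjective K2 (QuotientGroup.mk'_surjective B)
  let ψ : K2.comap (QuotientGroup.mk' B) →* H :=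
    (e.toMonoidHom.comp (QuotientGroup.mk' (R2.subgroupOf K2))).comp φ
  have hψ : Function.Surjective ψ :=
    (e.surjective.comp (QuotientGroup.mk'_surjective _)).comp hφ
  let ι1 : K2.comap (QuotientGroup.mk' B) →* Q := ι.comp (K2.comap (QuotientGroup.mk' B)).subtype
  have hk : ι1.ker ≤ ψ.ker := by
    intro a ha
    have h1 : (a : A) ∈ B := hker (MonoidHom.mem_ker.1 ha)
    have h2 : φ a = 1 := Subtype.ext ((QuotientGroup.eq_one_iff _).2 h1)
    show e (QuotientGroup.mk' _ (φ a)) = 1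
    rw [h2, map_one, map_one]
  let ψ' : ι1.range →* H := (QuotientGroup.lift ι1.ker ψ hk).comp
    (QuotientGroup.quotientKerEquivRange ι1).symm.toMonoidHom
  have hψ' : Function.Surjective ψ' := by
    intro x
    obtain ⟨a, rfl⟩ := hψ x
    refine ⟨QuotientGroup.quotientKerEquivRange ι1 (QuotientGroup.mk' ι1.ker a), ?_⟩
    show QuotientGroup.lift ι1.ker ψ hk ((QuotientGroup.quotientKerEquivRange ι1).symm
      (QuotientGroup.quotientKerEquivRange ι1 (QuotientGroup.mk' ι1.ker a))) = ψ a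
    rw [MulEquiv.symm_apply_apply]
    rfl
  exact H52.involves_of_hom ι1.range.subtype (Subgroup.subtype_injective _) ψ' hψ'

/-! ### The four-group in `S₄` -/

def s4iD0 : Perm (Fin 4) := swap 0 1 * swap 2 3
def s4iD1 : Perm (Fin 4) := swap 0 2 * swap 1 3
def s4iD2 : Perm (Fin 4) := swap 0 3 * swap 1 2
def s4iB : Perm (Fin 4) := swap 0 1
def s4iC : Perm (Fin 4) := swap 0 1 * swap 1 2

set_option maxRecDepth 100000 in
theorem s4i_V_conj : ∀ σ τ : Perm (Fin 4), (τ = 1 ∨ τ = s4iD0 ∨ τ = s4iD1 ∨ τ = s4iD2) →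
    (σ * τ * σ⁻¹ = 1 ∨ σ * τ * σ⁻¹ = s4iD0 ∨ σ * τ * σ⁻¹ = s4iD1 ∨ σ * τ * σ⁻¹ = s4iD2) := by
  decide

set_option maxRecDepth 100000 in
theorem s4i_V_cent : ∀ σ : Perm (Fin 4), s4iD0 * σ = σ * s4iD0 → s4iD1 * σ = σ * s4iD1 →
    (σ = 1 ∨ σ = s4iD0 ∨ σ = s4iD1 ∨ σ = s4iD2) := by
  decide

set_option maxRecDepth 100000 in
theorem s4i_V_mul : ∀ σ τ : Perm (Fin 4), (σ = 1 ∨ σ = s4iD0 ∨ σ = s4iD1 ∨ σ = s4iD2) →
    (τ = 1 ∨ τ = s4iD0 ∨ τ = s4iD1 ∨ τ = s4iD2) →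
    (σ * τ = 1 ∨ σ * τ = s4iD0 ∨ σ * τ = s4iD1 ∨ σ * τ = s4iD2) := by
  decide

set_option maxRecDepth 100000 in
theorem s4i_V_sq : ∀ σ : Perm (Fin 4), (σ = 1 ∨ σ = s4iD0 ∨ σ = s4iD1 ∨ σ = s4iD2) →
    σ * σ = 1 := by
  decide

set_option maxRecDepth 100000 in
theorem s4i_V_inv : ∀ σ : Perm (Fin 4), (σ = 1 ∨ σ = s4iD0 ∨ σ = s4iD1 ∨ σ = s4iD2) →
    (σ⁻¹ = 1 ∨ σ⁻¹ = s4iD0 ∨ σ⁻¹ = s4iD1 ∨ σ⁻¹ = s4iD2) := by
  decide

/-- The normal four-group of `S₄`. -/
def s4iV : Subgroup (Perm (Fin 4)) where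
  carrier := {σ | σ = 1 ∨ σ = s4iD0 ∨ σ = s4iD1 ∨ σ = s4iD2}
  one_mem' := Or.inl rfl
  mul_mem' := fun {a b} ha hb => s4i_V_mul a b ha hb
  inv_mem' := fun {a} ha => s4i_V_inv a ha

instance s4iV_normal : s4iV.Normal := ⟨fun n hn g => s4i_V_conj g n hn⟩

theorem s4iV_sq (σ : Perm (Fin 4)) (h : σ ∈ s4iV) : σ * σ = 1 := s4i_V_sq σ h

theorem s4iV_cent (σ : Perm (Fin 4)) (h : ∀ τ ∈ s4iV, τ * σ = σ * τ) : σ ∈ s4iV :=
  s4i_V_cent σ (h _ (Or.inr (Or.inl rfl))) (h _ (Or.inr (Or.inr (Or.inl rfl))))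

theorem s4iB_sq : s4iB * s4iB = 1 := by decide

theorem s4iC_cube : s4iC ^ 3 = 1 := by decide

theorem s4iBC : s4iB * s4iC * s4iB⁻¹ * s4iC = 1 := by decide

theorem s4iC_not_mem : s4iC ∉ s4iV := by
  have h : ¬ (s4iC = 1 ∨ s4iC = s4iD0 ∨ s4iC = s4iD1 ∨ s4iC = s4iD2) := by decide
  exact h

/-- If `S₄` is involved in the finite group `G`, then there is a `2`-subgroup `T` of `G` such
that `S₃` is involved in `N_G(T)/C_G(T)`. -/
theorem s4i_forward {G : Type u} [Group G] [Finite G] (h : Involves (Equiv.Perm (Fin 4)) G) :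
    ∃ T : Subgroup G, IsPGroup 2 ↥T ∧ Involves (Equiv.Perm (Fin 3))
      (↥(Subgroup.normalizer (T : Set G)) ⧸
        (Subgroup.centralizer (T : Set G)).subgroupOf (Subgroup.normalizer (T : Set G))) := by
  classical
  haveI : Fact (Nat.Prime 2) := ⟨Nat.prime_two⟩
  obtain ⟨K, R, hn, ⟨e⟩⟩ := h
  obtain ⟨π, hπdef⟩ : ∃ π : ↥K →* Perm (Fin 4),
      π = e.toMonoidHom.comp (QuotientGroup.mk' (R.subgroupOf K)) := ⟨_, rfl⟩
  have hπ : Function.Surjective π := by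
    rw [hπdef]; exact e.surjective.comp (QuotientGroup.mk'_surjective _)
  obtain ⟨L, hLdef⟩ : ∃ L : Subgroup ↥K, L = s4iV.comap π := ⟨_, rfl⟩
  have hLmem : ∀ a : ↥K, a ∈ L ↔ π a ∈ s4iV := by intro a; rw [hLdef]; exact Iff.rfl
  haveI hLn : L.Normal := by rw [hLdef]; infer_instance
  obtain ⟨T0⟩ : Nonempty (Sylow 2 ↥L) := inferInstance
  obtain ⟨T1, hT1def⟩ : ∃ T1 : Subgroup ↥K, T1 = (T0 : Subgroup ↥L).map L.subtype := ⟨_, rfl⟩
  obtain ⟨T, hTdef⟩ : ∃ T : Subgroup G, T = T1.map K.subtype := ⟨_, rfl⟩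
  have hT2 : IsPGroup 2 T := by rw [hTdef, hT1def]; exact (T0.isPGroup'.map _).map _
  have hfr : Subgroup.normalizer ((T1 : Subgroup ↥K) : Set ↥K) ⊔ L = ⊤ := by
    rw [hT1def]; exact Sylow.normalizer_sup_eq_top T0
  obtain ⟨A, hAdef⟩ : ∃ A : Subgroup ↥K,
      A = Subgroup.normalizer ((T1 : Subgroup ↥K) : Set ↥K) := ⟨_, rfl⟩
  rw [← hAdef] at hfr
  -- the four-group is the image of `T1`
  have hVT1 : ∀ τ ∈ s4iV, ∃ t ∈ T1, π t = τ := by
    intro τ hτ
    let f : ↥L →* ↥s4iV := (π.comp L.subtype).codRestrict s4iV (fun l => (hLmem l).1 l.2)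
    have hf : Function.Surjective f := by
      rintro ⟨σ, hσ⟩
      obtain ⟨k, hk⟩ := hπ σ
      exact ⟨⟨k, (hLmem k).2 (by rw [hk]; exact hσ)⟩, Subtype.ext hk⟩
    have hV2 : IsPGroup 2 ↥s4iV := by
      intro σ
      refine ⟨1, Subtype.ext ?_⟩
      have h5 := s4iV_sq σ σ.2
      simpa [pow_two] using h5
    have htop : ((T0.mapSurjective hf : Sylow 2 ↥s4iV) : Subgroup ↥s4iV) = ⊤ :=
      ((T0.mapSurjective hf).is_maximal' (hV2.to_subgroup ⊤) le_top).symm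
    have hτ' : (⟨τ, hτ⟩ : ↥s4iV) ∈ ((T0.mapSurjective hf : Sylow 2 ↥s4iV) : Subgroup ↥s4iV) := by
      rw [htop]; trivial
    rw [Sylow.coe_mapSurjective] at hτ'
    obtain ⟨t, ht, hft⟩ := hτ'
    refine ⟨(t : ↥K), ?_, congrArg Subtype.val hft⟩
    rw [hT1def]; exact ⟨t, ht, rfl⟩
  -- the homomorphism to `N(T)/C(T)`
  have hAN : ∀ a : ↥A, ((a : ↥K) : G) ∈ Subgroup.normalizer (T : Set G) := by
    intro a
    rw [hTdef]
    exact Subgroup.le_normalizer_map K.subtype ⟨(a : ↥K), by rw [← hAdef]; exact a.2, rfl⟩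
  let j : ↥A →* ↥(Subgroup.normalizer (T : Set G)) :=
    (K.subtype.comp A.subtype).codRestrict _ hAN
  let ι : ↥A →* ↥(Subgroup.normalizer (T : Set G)) ⧸
      (Subgroup.centralizer (T : Set G)).subgroupOf (Subgroup.normalizer (T : Set G)) :=
    (QuotientGroup.mk' _).comp j
  have hker : ι.ker ≤ L.subgroupOf A := by
    intro a ha
    have h1 : j a ∈ (Subgroup.centralizer (T : Set G)).subgroupOf
        (Subgroup.normalizer (T : Set G)) := (QuotientGroup.eq_one_iff (j a)).1 ha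
    have h2 : ((a : ↥K) : G) ∈ Subgroup.centralizer (T : Set G) := Subgroup.mem_subgroupOf.1 h1
    rw [Subgroup.mem_subgroupOf, hLmem]
    apply s4iV_cent
    intro τ hτ
    obtain ⟨t, ht, rfl⟩ := hVT1 τ hτ
    have h3 : ((t : ↥K) : G) ∈ T := by rw [hTdef]; exact ⟨t, ht, rfl⟩
    have h4 : (t : G) * ((a : ↥K) : G) = ((a : ↥K) : G) * (t : G) :=
      Subgroup.mem_centralizer_iff.1 h2 _ h3
    have h5 : t * (a : ↥K) = (a : ↥K) * t := Subtype.ext h4
    rw [← map_mul, ← map_mul, h5]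
  -- Frattini decomposition
  have hdecomp : ∀ k : ↥K, ∃ a ∈ A, ∃ l ∈ L, a * l = k := by
    intro k
    have hk : k ∈ ((A ⊔ L : Subgroup ↥K) : Set ↥K) := by rw [hfr]; exact Subgroup.mem_top k
    rw [Subgroup.mul_normal] at hk
    obtain ⟨a, ha, l, hl, hal⟩ := Set.mem_mul.1 hk
    exact ⟨a, ha, l, hl, hal⟩
  obtain ⟨kb, hkb⟩ := hπ s4iB
  obtain ⟨kc, hkc⟩ := hπ s4iC
  obtain ⟨ab, hab, lb, hlb, hablb⟩ := hdecomp kb
  obtain ⟨ac, hac, lc, hlc, haclc⟩ := hdecomp kc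
  have hq1 : ∀ a : ↥A, QuotientGroup.mk' (L.subgroupOf A) a = 1 ↔
      QuotientGroup.mk' s4iV (π (a : ↥K)) = 1 := by
    intro a
    rw [QuotientGroup.mk'_apply, QuotientGroup.mk'_apply, QuotientGroup.eq_one_iff,
      QuotientGroup.eq_one_iff, Subgroup.mem_subgroupOf, hLmem]
  have hqL : ∀ l ∈ L, QuotientGroup.mk' s4iV (π l) = 1 := by
    intro l hl
    rw [QuotientGroup.mk'_apply, QuotientGroup.eq_one_iff]
    exact (hLmem l).1 hl
  have hqb : QuotientGroup.mk' s4iV (π ab) = QuotientGroup.mk' s4iV s4iB := by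
    rw [← hkb, ← hablb, map_mul, map_mul, hqL lb hlb, mul_one]
  have hqc : QuotientGroup.mk' s4iV (π ac) = QuotientGroup.mk' s4iV s4iC := by
    rw [← hkc, ← haclc, map_mul, map_mul, hqL lc hlc, mul_one]
  have hS3 : Involves (Equiv.Perm (Fin 3)) (↥A ⧸ L.subgroupOf A) := by
    apply s4i_involves_S3_of_inverted (QuotientGroup.mk' (L.subgroupOf A) ⟨ab, hab⟩)
      (QuotientGroup.mk' (L.subgroupOf A) ⟨ac, hac⟩)
    · rw [← map_mul, hq1]
      show QuotientGroup.mk' s4iV (π (ab * ab)) = 1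
      rw [map_mul, map_mul, hqb, ← map_mul, s4iB_sq, map_one]
    · intro hc
      rw [hq1] at hc
      have hc' : QuotientGroup.mk' s4iV (π ac) = 1 := hc
      rw [hqc, QuotientGroup.mk'_apply, QuotientGroup.eq_one_iff] at hc'
      exact s4iC_not_mem hc'
    · rw [← map_pow, hq1]
      show QuotientGroup.mk' s4iV (π (ac ^ 3)) = 1
      rw [map_pow, map_pow, hqc, ← map_pow, s4iC_cube, map_one]
    · have h1 : QuotientGroup.mk' (L.subgroupOf A)
          ((⟨ab, hab⟩ : ↥A) * ⟨ac, hac⟩ * (⟨ab, hab⟩ : ↥A)⁻¹ * ⟨ac, hac⟩) = 1 := by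
        rw [hq1]
        show QuotientGroup.mk' s4iV (π (ab * ac * ab⁻¹ * ac)) = 1
        rw [map_mul, map_mul, map_mul, map_inv, map_mul, map_mul, map_mul, map_inv, hqb, hqc,
          ← map_inv, ← map_mul, ← map_mul, ← map_mul, s4iBC, map_one]
      rw [map_mul, map_mul, map_mul, map_inv] at h1
      exact eq_inv_of_mul_eq_one_left h1
  exact ⟨T, hT2, s4i_involves_transfer ι (L.subgroupOf A) hker hS3⟩

end Cfsg.Agent.H12
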