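import Cfsg.Agent.H45.S7Defs
import Cfsg.Agent.H22.S8OmB

/-!
# S2357 (team project, helper45): piece S7-F3 — an element of order 3 of the small Ree group fixes
exactly one point of `Ω = G / B¹`.
-/

set_option autoImplicit false
set_option synthInstance.maxHeartbeats 400000
open Cfsg Cfsg.Lie
open scoped Pointwise

namespace Cfsg.Agent.H12.S7

open Cfsg.Agent.H45.S8 Cfsg.Agent.H45.S7 Cfsg.Agent.H22 Cfsg.Agent.H22.GEx Cfsg.Agent.H22.Ree
  Cfsg.Agent.H7.RT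

universe u

/-- an element of order 3 is conjugate into `U¹` -/
theorem conj_into_U {K : Type u} [Field K] [Fintype K] [CharP K 3] {e m : ℕ} (C : Ctx K e)
    (hK : Fintype.card K = 3 ^ (2 * m + 1)) (hcan : CanonG2 K) (hW : WeylG2 K)
    (w : ↥(twistedG2 K e)) (hw : orderOf w = 3) :
    ∃ c : ↥(twistedG2 K e), c⁻¹ * w * c ∈ U1sub K e ∧ c⁻¹ * w * c ≠ 1 := by
  have : Fact (Nat.Prime 3) := ⟨Nat.prime_three⟩
  obtain ⟨P₀, hP₀⟩ := C.exists_sylow_eq_U1 hK hcan hW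
  have hp : IsPGroup 3 ↥(Subgroup.zpowers w) :=
    IsPGroup.of_card (n := 1) (by rw [Nat.card_zpowers, hw, pow_one])
  obtain ⟨Q, hQ⟩ := hp.exists_le_sylow
  obtain ⟨c, rfl⟩ := MulAction.exists_smul_eq ↥(twistedG2 K e) P₀ Q
  have hwQ : w ∈ ((c • P₀ : Sylow 3 ↥(twistedG2 K e)) : Subgroup ↥(twistedG2 K e)) :=
    hQ (Subgroup.mem_zpowers w)
  rw [Sylow.coe_subgroup_smul, Subgroup.mem_pointwise_smul_iff_inv_smul_mem, MulAut.smul_def,
    MulAut.conj_inv_apply, hP₀] at hwQ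
  refine ⟨c, hwQ, ?_⟩
  intro h
  have h' : w = 1 := by
    calc w = c * (c⁻¹ * w * c) * c⁻¹ := by group
      _ = 1 := by rw [h]; group
  rw [h', orderOf_one] at hw
  norm_num at hw

/-- the only fixed point of `w`, when `c⁻¹ w c` is a non-trivial element of `U¹`, is `c B¹` -/
theorem fix_unique {K : Type u} [Field K] [Fintype K] [CharP K 3] {e m : ℕ} (C : Ctx K e)
    (hK : Fintype.card K = 3 ^ (2 * m + 1)) (hcan : CanonG2 K) (hW : WeylG2 K)
    (w c : ↥(twistedG2 K e)) (hwU : c⁻¹ * w * c ∈ U1sub K e) (hw1 : c⁻¹ * w * c ≠ 1)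
    (y : Om K e) (hy : w • y = y) : y = QuotientGroup.mk c := by
  have hfix : (c⁻¹ * w * c) • (c⁻¹ • y) = c⁻¹ • y := by
    rw [← mul_smul]
    have e1 : c⁻¹ * w * c * c⁻¹ = c⁻¹ * w := by group
    rw [e1, mul_smul, hy]
  have h3 := Cfsg.Agent.H22.S8.omU C hK hcan hW (c⁻¹ * w * c) hwU hw1 _ hfix
  have h4 : y = c • (c⁻¹ • y) := by rw [smul_inv_smul]
  rw [h4, h3]
  show (QuotientGroup.mk (c * 1) : ↥(twistedG2 K e) ⧸ B1sub K e) = _
  rw [mul_one]

/-- the point `c B¹` is fixed by `w` when `c⁻¹ w c ∈ U¹` -/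
theorem fix_mk {K : Type u} [Field K] {e : ℕ}
    (w c : ↥(twistedG2 K e)) (hwU : c⁻¹ * w * c ∈ U1sub K e) :
    w • (QuotientGroup.mk c : Om K e) = QuotientGroup.mk c := by
  show (QuotientGroup.mk (w * c) : ↥(twistedG2 K e) ⧸ B1sub K e) = QuotientGroup.mk c
  rw [mk_eq_iff]
  have hU := inv_mem (U_le_B ((mem_U1sub _).mp hwU))
  have e3 : ((c⁻¹ * w * c : ↥(twistedG2 K e)) : GL chevG2.Idx K)⁻¹ =
      ((w * c : ↥(twistedG2 K e)) : GL chevG2.Idx K)⁻¹ * (c : GL chevG2.Idx K) := by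
    rw [Subgroup.coe_mul, Subgroup.coe_mul, Subgroup.coe_mul, Subgroup.coe_inv]; group
  rw [e3] at hU
  exact hU

/-- (F3) -/
theorem f3 {K : Type u} [Field K] [Fintype K] [CharP K 3] {e m : ℕ} (C : Ctx K e)
    (hK : Fintype.card K = 3 ^ (2 * m + 1)) (hcan : CanonG2 K) (hW : WeylG2 K) :
    StF3 K e := by
  intro w hw
  obtain ⟨c, hc, hc1⟩ := conj_into_U C hK hcan hW w hw
  exact ⟨QuotientGroup.mk c, fix_mk w c hc, fun y hy => fix_unique C hK hcan hW w c hc hc1 y hy⟩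

example {K : Type u} [Field K] (e : ℕ) : StF3 K e =
    (∀ w : ↥(twistedG2 K e), orderOf w = 3 → ∃! x : Om K e, w • x = x) :=
  rfl

end Cfsg.Agent.H12.S7
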