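import Cfsg.Agent.H45.S7Defs
import Cfsg.Agent.H22.S8OmA
import Cfsg.Agent.H22.S8OmB
import Cfsg.Agent.H12.S7F3

/-!
# S2357 (team project, helper45): piece S7-N3 — the small Ree group has `q³ + 1` Sylow
3-subgroups.
-/

set_option autoImplicit false
set_option synthInstance.maxHeartbeats 400000
open Cfsg Cfsg.Lie
open scoped Pointwise

namespace Cfsg.Agent.H12.S7

open Cfsg.Agent.H45.S8 Cfsg.Agent.H45.S7 Cfsg.Agent.H22 Cfsg.Agent.H22.GEx Cfsg.Agent.H22.Ree
  Cfsg.Agent.H7.RT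

universe u

/-- `N(U¹) = B¹` -/
theorem normalizer_U1 {K : Type u} [Field K] [Fintype K] [CharP K 3] {e m : ℕ} (C : Ctx K e)
    (hK : Fintype.card K = 3 ^ (2 * m + 1)) (hcan : CanonG2 K) (hW : WeylG2 K) :
    Subgroup.normalizer ((U1sub K e : Subgroup ↥(twistedG2 K e)) : Set ↥(twistedG2 K e)) =
      B1sub K e := by
  ext n
  rw [Subgroup.mem_normalizer_iff]
  constructor
  · intro hn
    have hcU : Nat.card ↥(U1sub K e) = (3 ^ (2 * m + 1)) ^ 3 := by
      rw [Nat.card_congr (Subgroup.subgroupOfEquivOfLe inf_le_right).toEquiv, C.card_eq,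
        Nat.card_eq_fintype_card, hK]
    have hne : U1sub K e ≠ ⊥ := by
      intro h
      rw [h, Subgroup.card_bot] at hcU
      have h1 : 1 < (3 ^ (2 * m + 1)) ^ 3 :=
        Nat.one_lt_pow (by norm_num) (Nat.one_lt_pow (by omega) (by norm_num))
      omega
    obtain ⟨u, hu1⟩ := (Subgroup.ne_bot_iff_exists_ne_one).mp hne
    have hu : (u : ↥(twistedG2 K e)) ∈ U1sub K e := u.2
    have hu1' : (u : ↥(twistedG2 K e)) ≠ 1 := by
      intro h
      exact hu1 (Subtype.ext h)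
    have hnu : n * (u : ↥(twistedG2 K e)) * n⁻¹ ∈ U1sub K e := (hn _).mp hu
    have hnu1 : n * (u : ↥(twistedG2 K e)) * n⁻¹ ≠ 1 := by
      intro h
      apply hu1'
      calc (u : ↥(twistedG2 K e)) = n⁻¹ * (n * (u : ↥(twistedG2 K e)) * n⁻¹) * n := by group
        _ = 1 := by rw [h]; group
    have hfix1 : (u : ↥(twistedG2 K e)) • (QuotientGroup.mk 1 : Om K e) = QuotientGroup.mk 1 :=
      fix_mk _ 1 (by simpa using hu)
    have hfix : (n * (u : ↥(twistedG2 K e)) * n⁻¹) • (QuotientGroup.mk n : Om K e) =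
        QuotientGroup.mk n := by
      have h0 : (QuotientGroup.mk n : Om K e) = n • (QuotientGroup.mk 1 : Om K e) := by
        show _ = (QuotientGroup.mk (n * 1) : ↥(twistedG2 K e) ⧸ B1sub K e)
        rw [mul_one]
      rw [h0, ← mul_smul]
      have e1 : n * (u : ↥(twistedG2 K e)) * n⁻¹ * n = n * (u : ↥(twistedG2 K e)) := by group
      rw [e1, mul_smul, hfix1]
    have h3 := Cfsg.Agent.H22.S8.omU C hK hcan hW _ hnu hnu1 _ hfix
    have h4 := inv_mem (QuotientGroup.eq.mp h3)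
    simpa using h4
  · intro hn u
    have hnB : (n : GL chevG2.Idx K) ∈ chevG2.borelSubgroup K := (Subgroup.mem_subgroupOf.mp hn).1
    rw [mem_U1sub, mem_U1sub]
    constructor
    · intro hu
      have h1 := C.B_conj_U (n : GL chevG2.Idx K) (u : GL chevG2.Idx K) hnB hu
      have e1 : ((n * u * n⁻¹ : ↥(twistedG2 K e)) : GL chevG2.Idx K) =
          (n : GL chevG2.Idx K) * (u : GL chevG2.Idx K) * (n : GL chevG2.Idx K)⁻¹ := by
        rw [Subgroup.coe_mul, Subgroup.coe_mul, Subgroup.coe_inv]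
      rw [e1]
      exact h1
    · intro hu
      have h1 := C.B_conj_U ((n : GL chevG2.Idx K)⁻¹) _ (inv_mem hnB) hu
      have e1 : (n : GL chevG2.Idx K)⁻¹ * ((n * u * n⁻¹ : ↥(twistedG2 K e)) : GL chevG2.Idx K) *
          ((n : GL chevG2.Idx K)⁻¹)⁻¹ = (u : GL chevG2.Idx K) := by
        rw [Subgroup.coe_mul, Subgroup.coe_mul, Subgroup.coe_inv]; group
      rw [e1] at h1
      exact h1

/-- (N3) -/
theorem n3 {K : Type u} [Field K] [Fintype K] [CharP K 3] {m : ℕ} (C : Ctx K (3 ^ m))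
    (hK : Fintype.card K = 3 ^ (2 * m + 1)) (hcan : CanonG2 K) (hW : WeylG2 K) :
    StN3 K m := by
  have : Fact (Nat.Prime 3) := ⟨Nat.prime_three⟩
  obtain ⟨P₀, hP₀⟩ := C.exists_sylow_eq_U1 hK hcan hW
  unfold StN3
  rw [Sylow.card_eq_index_normalizer P₀]
  show (Subgroup.normalizer (((P₀ : Subgroup ↥(twistedG2 K (3 ^ m))) :
    Set ↥(twistedG2 K (3 ^ m))))).index = _
  rw [hP₀, normalizer_U1 C hK hcan hW]
  exact Cfsg.Agent.H22.S8.card_quot C hK hcan hW

example {K : Type u} [Field K] (m : ℕ) : StN3 K m =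
    (Nat.card (Sylow 3 ↥(twistedG2 K (3 ^ m))) = qq m ^ 3 + 1) :=
  rfl

end Cfsg.Agent.H12.S7
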