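import Cfsg.Agent.H45.S7Defs
import Cfsg.Agent.H22.ReeCube

/-!
# S2357 (team project, helper45): piece S7-U39 — the numbers of elements of order 3 and 9 in the
Sylow 3-subgroup `U¹` of the small Ree group.
-/

set_option autoImplicit false
set_option synthInstance.maxHeartbeats 400000
open Cfsg Cfsg.Lie
open scoped Pointwise

namespace Cfsg.Agent.H12.S7

open Cfsg.Agent.H45.S8 Cfsg.Agent.H45.S7 Cfsg.Agent.H22 Cfsg.Agent.H22.GEx Cfsg.Agent.H22.Ree
  Cfsg.Agent.H7.RT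

universe u

/-- every element of `U ∩ ²G₂` has ninth power 1 -/
theorem pow_nine_U {K : Type u} [Field K] [CharP K 3] {e : ℕ} (C : Ctx K e)
    (x : ↥(chevG2.posUnipotent K ⊓ twistedG2 K e)) : x ^ 9 = 1 := by
  obtain ⟨⟨t, a, b⟩, rfl⟩ := C.reeEl_bij.2 x
  obtain ⟨⟨t', a', b'⟩, hq'⟩ := C.reeEl_bij.2 (C.reeEl (t, a, b) ^ 3)
  have ht' : t' = 0 := by
    have h1 : ((C.reeEl (t', a', b') : ↥(chevG2.posUnipotent K ⊓ twistedG2 K e)) :
        GL chevG2.Idx K) =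
        ((C.reeEl (t, a, b) ^ 3 : ↥(chevG2.posUnipotent K ⊓ twistedG2 K e)) :
          GL chevG2.Idx K) := by rw [hq']
    have h2 : C.SP.R C.τ t' a' b' =
        C.SP.R C.τ t a b * C.SP.R C.τ t a b * C.SP.R C.τ t a b := by
      apply Subtype.ext
      rw [Subgroup.coe_mul, Subgroup.coe_mul]
      have h3 : ((C.reeEl (t, a, b) ^ 3 : ↥(chevG2.posUnipotent K ⊓ twistedG2 K e)) :
          GL chevG2.Idx K) =
          (C.SP.R C.τ t a b : GL chevG2.Idx K) * (C.SP.R C.τ t a b : GL chevG2.Idx K) *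
            (C.SP.R C.τ t a b : GL chevG2.Idx K) := by
        rw [Subgroup.coe_pow, pow_succ, pow_two]
        rfl
      rw [← h3]
      exact h1
    rw [USys.R_eq_E (signs_pos K C.θ)] at h2
    have h4 : C.SP.R C.τ t a b * C.SP.R C.τ t a b * C.SP.R C.τ t a b =
        C.SP.E 0 0 0 ((2 : K) * C.SP.e1 * C.τ t ^ 2 * t) 0
          (((-1 : K) * C.SP.e3 - C.SP.e4) * C.τ t ^ 3 * t ^ 2) := by
      unfold USys.R
      rw [(extPos K C.θ).E'_cube, C.P_eq_E]
    rw [h4] at h2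
    exact (C.E_inj _ _ _ _ _ _ _ _ _ _ _ _ h2).1
  subst ht'
  have h9 : (9 : ℕ) = 3 * 3 := rfl
  rw [h9, pow_mul, ← hq']
  by_cases hz : ((a', b') : K × K) = 0
  · have h5 : C.reeEl (0, a', b') = 1 := by
      rw [hz]
      exact C.reeEl_zero
    rw [h5, one_pow]
  · have h5 := (C.orderOf_reeEl (0, a', b')).mpr ⟨rfl, hz⟩
    rw [← h5]
    exact pow_orderOf_eq_one _

/-- transport of the elements of a given order of `U¹` to `U ∩ ²G₂` -/
def ordEquiv {K : Type u} [Field K] (e k : ℕ) :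
    {x : ↥(twistedG2 K e) // x ∈ U1sub K e ∧ orderOf x = k} ≃
      {x : ↥(chevG2.posUnipotent K ⊓ twistedG2 K e) // orderOf x = k} where
  toFun x := ⟨⟨(x.1 : GL chevG2.Idx K), ⟨(mem_U1sub x.1).mp x.2.1, x.1.2⟩⟩,
    (Subgroup.orderOf_coe (⟨(x.1 : GL chevG2.Idx K), ⟨(mem_U1sub x.1).mp x.2.1, x.1.2⟩⟩ :
      ↥(chevG2.posUnipotent K ⊓ twistedG2 K e))).symm.trans
      ((Subgroup.orderOf_coe x.1).trans x.2.2)⟩
  invFun y := ⟨⟨(y.1 : GL chevG2.Idx K), y.1.2.2⟩, (mem_U1sub _).mpr y.1.2.1,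
    (Subgroup.orderOf_coe (⟨(y.1 : GL chevG2.Idx K), y.1.2.2⟩ : ↥(twistedG2 K e))).symm.trans
      ((Subgroup.orderOf_coe y.1).trans y.2)⟩
  left_inv _ := rfl
  right_inv _ := rfl

/-- (U39) -/
theorem u39 {K : Type u} [Field K] [Fintype K] [CharP K 3] {m : ℕ} (C : Ctx K (3 ^ m))
    (hK : Fintype.card K = 3 ^ (2 * m + 1)) : StU39 K m := by
  have h3 : Nat.card {x : ↥(chevG2.posUnipotent K ⊓ twistedG2 K (3 ^ m)) // orderOf x = 3} =
      (3 ^ (2 * m + 1)) ^ 2 - 1 := by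
    rw [C.card_order_three, hK]
  have hU : Nat.card ↥(chevG2.posUnipotent K ⊓ twistedG2 K (3 ^ m)) = (3 ^ (2 * m + 1)) ^ 3 := by
    rw [C.card_eq, Nat.card_eq_fintype_card, hK]
  have hfin : Finite ↥(chevG2.posUnipotent K ⊓ twistedG2 K (3 ^ m)) := inferInstance
  have hun : (Set.univ : Set ↥(chevG2.posUnipotent K ⊓ twistedG2 K (3 ^ m))) =
      {x | orderOf x = 9} ∪ ({x | orderOf x = 3} ∪ {1}) := by
    ext x
    simp only [Set.mem_univ, Set.mem_union, Set.mem_ofPred_eq, Set.mem_singleton_iff, true_iff]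
    have hd : orderOf x ∣ 3 ^ 2 := orderOf_dvd_of_pow_eq_one (pow_nine_U C x)
    obtain ⟨k, hk, hk'⟩ := (Nat.dvd_prime_pow Nat.prime_three).1 hd
    interval_cases k
    · right; right
      exact orderOf_eq_one_iff.mp (by simpa using hk')
    · right; left
      simpa using hk'
    · left
      rw [hk']; norm_num
  have hd1 : Disjoint {x : ↥(chevG2.posUnipotent K ⊓ twistedG2 K (3 ^ m)) | orderOf x = 9}
      ({x | orderOf x = 3} ∪ {1}) := by
    rw [Set.disjoint_left]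
    intro x h9 h
    rw [Set.mem_ofPred_eq] at h9
    rcases h with h | h
    · rw [Set.mem_ofPred_eq] at h
      omega
    · rw [Set.mem_singleton_iff] at h
      rw [h, orderOf_one] at h9
      omega
  have hd2 : Disjoint {x : ↥(chevG2.posUnipotent K ⊓ twistedG2 K (3 ^ m)) | orderOf x = 3}
      {1} := by
    rw [Set.disjoint_left]
    intro x h3' h
    rw [Set.mem_ofPred_eq] at h3'
    rw [Set.mem_singleton_iff] at h
    rw [h, orderOf_one] at h3'
    omega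
  have hc := Set.ncard_univ ↥(chevG2.posUnipotent K ⊓ twistedG2 K (3 ^ m))
  rw [hun, Set.ncard_union_eq hd1, Set.ncard_union_eq hd2, Set.ncard_singleton, hU] at hc
  have h3' : ({x : ↥(chevG2.posUnipotent K ⊓ twistedG2 K (3 ^ m)) | orderOf x = 3}).ncard =
      (3 ^ (2 * m + 1)) ^ 2 - 1 := by
    rw [← h3]
    exact (_root_.Nat.card_coe_set_eq _).symm
  have h9' : Nat.card {x : ↥(chevG2.posUnipotent K ⊓ twistedG2 K (3 ^ m)) // orderOf x = 9} =
      ({x : ↥(chevG2.posUnipotent K ⊓ twistedG2 K (3 ^ m)) | orderOf x = 9}).ncard :=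
    _root_.Nat.card_coe_set_eq _
  have hpos : 1 ≤ (3 ^ (2 * m + 1)) ^ 2 := Nat.one_le_pow _ _ (by positivity)
  refine ⟨?_, ?_⟩
  · rw [Nat.card_congr (ordEquiv (3 ^ m) 3), h3]
    rfl
  · rw [Nat.card_congr (ordEquiv (3 ^ m) 9), h9']
    show _ = (3 ^ (2 * m + 1)) ^ 3 - (3 ^ (2 * m + 1)) ^ 2
    rw [h3'] at hc
    omega

example {K : Type u} [Field K] (m : ℕ) : StU39 K m =
    (Nat.card {u : ↥(twistedG2 K (3 ^ m)) // u ∈ U1sub K (3 ^ m) ∧ orderOf u = 3} = qq m ^ 2 - 1 ∧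
  Nat.card {u : ↥(twistedG2 K (3 ^ m)) // u ∈ U1sub K (3 ^ m) ∧ orderOf u = 9} =
    qq m ^ 3 - qq m ^ 2) :=
  rfl

end Cfsg.Agent.H12.S7
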