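import Cfsg.Agent.H45.S7Defs
import Cfsg.Agent.H22.S8OmB
import Cfsg.Agent.H12.S7F3

/-!
# S2357 (team project, helper45): piece S7-UB — the elements of order 3 of `B¹` lie in `U¹ ≤ B¹`.
-/

set_option autoImplicit false
set_option synthInstance.maxHeartbeats 400000
open Cfsg Cfsg.Lie
open scoped Pointwise

namespace Cfsg.Agent.H12.S7

open Cfsg.Agent.H45.S8 Cfsg.Agent.H45.S7 Cfsg.Agent.H22 Cfsg.Agent.H22.GEx Cfsg.Agent.H22.Ree
  Cfsg.Agent.H7.RT

universe u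

/-- `U¹ ≤ B¹` -/
theorem U1_le_B1 {K : Type u} [Field K] {e : ℕ} : U1sub K e ≤ B1sub K e := by
  intro x hx
  rw [Subgroup.mem_subgroupOf]
  exact ⟨U_le_B ((mem_U1sub x).mp hx), x.2⟩

/-- (UB) -/
theorem ub {K : Type u} [Field K] [Fintype K] [CharP K 3] {e m : ℕ} (C : Ctx K e)
    (hK : Fintype.card K = 3 ^ (2 * m + 1)) (hcan : CanonG2 K) (hW : WeylG2 K) :
    StUB K e := by
  refine ⟨?_, U1_le_B1⟩
  intro w hwB hw
  obtain ⟨c, hc, hc1⟩ := conj_into_U C hK hcan hW w hw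
  have hfix1 : w • (QuotientGroup.mk 1 : Om K e) = QuotientGroup.mk 1 := by
    show (QuotientGroup.mk (w * 1) : ↥(twistedG2 K e) ⧸ B1sub K e) = QuotientGroup.mk 1
    rw [QuotientGroup.eq]
    simpa using inv_mem hwB
  have h1 := fix_unique C hK hcan hW w c hc hc1 _ hfix1
  have hcB : (c : GL chevG2.Idx K) ∈ chevG2.borelSubgroup K := by
    have h2 := (mk_eq_iff _ _).mp h1
    simpa using h2
  rw [mem_U1sub]
  have h3 := C.B_conj_U (c : GL chevG2.Idx K)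
    ((c⁻¹ * w * c : ↥(twistedG2 K e)) : GL chevG2.Idx K) hcB ((mem_U1sub _).mp hc)
  have e1 : (c : GL chevG2.Idx K) * ((c⁻¹ * w * c : ↥(twistedG2 K e)) : GL chevG2.Idx K) *
      (c : GL chevG2.Idx K)⁻¹ = (w : GL chevG2.Idx K) := by
    rw [Subgroup.coe_mul, Subgroup.coe_mul, Subgroup.coe_inv]; group
  rw [e1] at h3
  exact h3

example {K : Type u} [Field K] (e : ℕ) : StUB K e =
    ((∀ w ∈ B1sub K e, orderOf w = 3 → w ∈ U1sub K e) ∧ U1sub K e ≤ B1sub K e) :=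
  rfl

end Cfsg.Agent.H12.S7
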