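import Mathlib
import Cfsg.Agent.H13.SaDefs

set_option autoImplicit false

/-! helper12: piece S4025-P5 of helper13's S4025 team project — a subgroup of `AΓL(1,32)` of
order divisible by `32 * 155` is all of `AΓL(1,32)`. -/

namespace Cfsg.Agent.H12.Sa

open Cfsg

universe u

/-- The semi-affine group of a finite field has at most `(q - 1) * q * |Aut F|` elements. -/
theorem card_semiaffine_le {F : Type} [Field F] [Fintype F] :
    Nat.card (semiaffineGroup F) ≤ (Nat.card F - 1) * Nat.card F * Nat.card (F ≃+* F) := by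
  have : Finite (F ≃+* F) :=
    Finite.of_injective (fun e : F ≃+* F => (e : F → F)) DFunLike.coe_injective
  have h : ∀ σ : semiaffineGroup F, ∃ a : Fˣ, ∃ b : F, ∃ φ : F ≃+* F,
      ∀ x, (σ : Equiv.Perm F) x = (a : F) * φ x + b := fun σ => σ.2
  choose a b φ hσ using h
  have hinj : Function.Injective (fun σ : semiaffineGroup F => ((a σ, b σ), φ σ)) := by
    intro σ τ hστ
    simp only [Prod.mk.injEq] at hστ
    obtain ⟨⟨h1, h2⟩, h3⟩ := hστ
    apply Subtype.ext
    ext x
    rw [hσ σ x, hσ τ x, h1, h2, h3]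
  have hle := Nat.card_le_card_of_injective _ hinj
  rw [Nat.card_prod, Nat.card_prod, Nat.card_units] at hle
  exact hle

/-- **S4025-P5.** -/
theorem p5 (h : Cfsg.Agent.H13.Sa.AutStmt) : Cfsg.Agent.H13.Sa.P5Stmt.{u} := by
  intro F _ _ hF X _ _ f hf hdvd
  have : Fact (Nat.Prime 2) := ⟨Nat.prime_two⟩
  have haut : Nat.card (F ≃+* F) = 5 := h 2 5 (by rw [hF]; norm_num)
  have hle := card_semiaffine_le (F := F)
  rw [hF, haut] at hle
  have hX : 4960 ≤ Nat.card X := Nat.le_of_dvd Nat.card_pos hdvd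
  have hbij : Function.Bijective f :=
    hf.bijective_of_nat_card_le (by omega)
  exact ⟨MulEquiv.ofBijective f hbij⟩

end Cfsg.Agent.H12.Sa

section check
universe u
example (h : Cfsg.Agent.H13.Sa.AutStmt) : Cfsg.Agent.H13.Sa.P5Stmt.{u} := Cfsg.Agent.H12.Sa.p5 h
end check
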