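import Mathlib
import Cfsg.Agent.H13.SaDefs

set_option autoImplicit false

/-! helper12: piece S4025-TRANS of helper13's S4025 team project — transport of the (semi)affine
group of a finite field with `p ^ n` elements to the Galois field `GaloisField p n`. -/

namespace Cfsg.Agent.H12.Sa

open Cfsg

universe u

/-- A ring isomorphism transports the semi-affine group. -/
theorem semiaffine_congr {R S : Type u} [Ring R] [Ring S] (e : R ≃+* S) :
    Nonempty (semiaffineGroup R ≃* semiaffineGroup S) := by
  have key : ∀ {R S : Type u} [Ring R] [Ring S] (e : R ≃+* S) (σ : Equiv.Perm R),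
      σ ∈ semiaffineGroup R → e.toEquiv.permCongr σ ∈ semiaffineGroup S := by
    intro R S _ _ e σ hσ
    obtain ⟨a, b, φ, h⟩ := hσ
    refine ⟨Units.map (e : R →* S) a, e b, (e.symm.trans φ).trans e, fun y => ?_⟩
    rw [Equiv.permCongr_apply, h]
    simp
  refine ⟨{ toFun := fun σ => ⟨e.toEquiv.permCongr σ.1, key e σ.1 σ.2⟩
            invFun := fun τ => ⟨e.symm.toEquiv.permCongr τ.1, key e.symm τ.1 τ.2⟩
            left_inv := ?_
            right_inv := ?_
            map_mul' := ?_ }⟩
  · intro σ
    apply Subtype.ext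
    ext x
    simp
  · intro τ
    apply Subtype.ext
    ext x
    simp
  · intro σ τ
    apply Subtype.ext
    ext x
    simp

/-- A ring isomorphism transports the affine group. -/
theorem affine_congr {R S : Type u} [Ring R] [Ring S] (e : R ≃+* S) :
    Nonempty (affineGroup R ≃* affineGroup S) := by
  have key : ∀ {R S : Type u} [Ring R] [Ring S] (e : R ≃+* S) (σ : Equiv.Perm R),
      σ ∈ affineGroup R → e.toEquiv.permCongr σ ∈ affineGroup S := by
    intro R S _ _ e σ hσ
    obtain ⟨a, b, h⟩ := hσ
    refine ⟨Units.map (e : R →* S) a, e b, fun y => ?_⟩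
    rw [Equiv.permCongr_apply, h]
    simp
  refine ⟨{ toFun := fun σ => ⟨e.toEquiv.permCongr σ.1, key e σ.1 σ.2⟩
            invFun := fun τ => ⟨e.symm.toEquiv.permCongr τ.1, key e.symm τ.1 τ.2⟩
            left_inv := ?_
            right_inv := ?_
            map_mul' := ?_ }⟩
  · intro σ
    apply Subtype.ext
    ext x
    simp
  · intro τ
    apply Subtype.ext
    ext x
    simp
  · intro σ τ
    apply Subtype.ext
    ext x
    simp

/-- A finite field with `p ^ n` elements is isomorphic to `GaloisField p n`. -/
theorem exists_ringEquiv_galois {F : Type} [Field F] [Fintype F] (p n : ℕ) [Fact p.Prime]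
    (h : Nat.card F = p ^ n) : Nonempty (F ≃+* GaloisField p n) := by
  have hn : n ≠ 0 := by
    rintro rfl
    rw [pow_zero, Nat.card_eq_fintype_card] at h
    have := Fintype.one_lt_card (α := F)
    omega
  have : Fintype (GaloisField p n) := Fintype.ofFinite _
  refine ⟨FiniteField.ringEquivOfCardEq ?_⟩
  rw [← Nat.card_eq_fintype_card, ← Nat.card_eq_fintype_card, h, GaloisField.card p n hn]

/-- **S4025-TRANS.** -/
theorem trans : Cfsg.Agent.H13.Sa.TransStmt := by
  intro F _ _ p n _ h
  obtain ⟨e⟩ := exists_ringEquiv_galois p n h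
  exact ⟨semiaffine_congr e, affine_congr e⟩

end Cfsg.Agent.H12.Sa

section check
example : Cfsg.Agent.H13.Sa.TransStmt := Cfsg.Agent.H12.Sa.trans
end check
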