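import Mathlib
import Cfsg.Prelude.Def_Solvable
import Cfsg.Agent.H75.FrobeniusThm

/-!
# A Shult-type centrality criterion (S3064)

If `x` lies in a Sylow `p`-subgroup `S`, is the only conjugate of itself in `S`, and centralizes
every `p'`-subgroup it normalizes, then `x` is central.  Proof: minimal counterexample; every
proper subgroup containing `x` centralizes `x`, so `C_G(x)` is a Frobenius complement modulo the
centre, and Frobenius' theorem produces a normal `p'`-complement which `x` must centralize.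
-/

set_option autoImplicit false

namespace Cfsg.Agent.H12.Shult

universe u

open scoped Pointwise

section Basic

variable {G : Type u} [Group G]

theorem conj_pow_eq (g x : G) (n : ℕ) : (g⁻¹ * x * g) ^ n = g⁻¹ * x ^ n * g := by
  induction n with
  | zero => simp
  | succ n ih => rw [pow_succ, ih, pow_succ]; group

theorem conj_inv_smul (a b : G) : (MulAut.conj a)⁻¹ • b = a⁻¹ * b * a := by
  rw [← map_inv, MulAut.smul_def, MulAut.conj_apply, inv_inv]

theorem isPGroup_zpowers {p : ℕ} {x : G} (h : ∃ k : ℕ, x ^ p ^ k = 1) :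
    IsPGroup p (Subgroup.zpowers x) := by
  obtain ⟨k, hk⟩ := h
  rintro ⟨y, hy⟩
  obtain ⟨n, rfl⟩ := Subgroup.mem_zpowers_iff.mp hy
  refine ⟨k, Subtype.ext ?_⟩
  show (x ^ n) ^ p ^ k = 1
  rw [← zpow_natCast, ← zpow_mul, mul_comm, zpow_mul, zpow_natCast, hk, one_zpow]

theorem exists_pgroup_of_commute {p : ℕ} [Fact p.Prime] {x y : G} (hx : ∃ k : ℕ, x ^ p ^ k = 1)
    (hy : ∃ k : ℕ, y ^ p ^ k = 1) (hc : x * y = y * x) :
    ∃ P : Subgroup G, IsPGroup p P ∧ x ∈ P ∧ y ∈ P := by
  refine ⟨Subgroup.zpowers x ⊔ Subgroup.zpowers y, ?_, ?_, ?_⟩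
  · apply IsPGroup.to_sup_of_normal_right' (isPGroup_zpowers hx) (isPGroup_zpowers hy)
    intro a ha
    obtain ⟨n, rfl⟩ := Subgroup.mem_zpowers_iff.mp ha
    rw [Subgroup.mem_normalizer_iff]
    intro h
    have hcomm : ∀ m : ℤ, x ^ n * y ^ m * (x ^ n)⁻¹ = y ^ m := by
      intro m
      have h1 : Commute x y := hc
      have h2 : Commute (x ^ n) (y ^ m) := (h1.zpow_left n).zpow_right m
      rw [h2.eq]; group
    constructor
    · intro hh
      obtain ⟨m, rfl⟩ := Subgroup.mem_zpowers_iff.mp hh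
      rw [hcomm]; exact hh
    · intro hh
      obtain ⟨m, hm⟩ := Subgroup.mem_zpowers_iff.mp hh
      have h3 : h = (x ^ n)⁻¹ * (x ^ n * h * (x ^ n)⁻¹) * x ^ n := by group
      rw [h3, ← hm]
      have h1 : Commute x y := hc
      have h2 : Commute (x ^ n) (y ^ m) := (h1.zpow_left n).zpow_right m
      have h4 : (x ^ n)⁻¹ * y ^ m * x ^ n = y ^ m := by
        rw [mul_assoc, ← h2.eq]; group
      rw [h4]
      exact Subgroup.zpow_mem_zpowers y m
  · exact Subgroup.mem_sup_left (Subgroup.mem_zpowers x)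
  · exact Subgroup.mem_sup_right (Subgroup.mem_zpowers y)

/-- a `p`-element of `S N` (`S` Sylow, `N` normal) is `N`-conjugate into `S` -/
theorem exists_conj_mem_sylow {p : ℕ} [Fact p.Prime] [Finite G] (S : Sylow p G) (N : Subgroup G)
    [N.Normal] (w : G) (hw : ∃ k : ℕ, w ^ p ^ k = 1) (hwS : w ∈ N ⊔ (S : Subgroup G)) :
    ∃ n ∈ N, n⁻¹ * w * n ∈ (S : Subgroup G) := by
  set L : Subgroup G := N ⊔ (S : Subgroup G) with hL
  let S' : Sylow p L := S.subtype le_sup_right
  have hw' : ∃ k : ℕ, (⟨w, hwS⟩ : L) ^ p ^ k = 1 := by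
    obtain ⟨k, hk⟩ := hw
    exact ⟨k, Subtype.ext (by simpa using hk)⟩
  obtain ⟨Q, hQ⟩ := (isPGroup_zpowers hw').exists_le_sylow
  obtain ⟨c, hc⟩ := MulAction.exists_smul_eq L S' Q
  have h1 : (⟨w, hwS⟩ : L) ∈ (c • S' : Sylow p L) := by
    rw [hc]; exact hQ (Subgroup.mem_zpowers _)
  have h2 : c⁻¹ * (⟨w, hwS⟩ : L) * c ∈ (S' : Subgroup L) := by
    have h1' : (⟨w, hwS⟩ : L) ∈ MulAut.conj c • (S' : Subgroup L) := h1
    rw [Subgroup.mem_pointwise_smul_iff_inv_smul_mem] at h1'
    simpa [MulAut.smul_def, MulAut.conj_apply, ← map_inv] using h1'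
  have h3 : (c : G)⁻¹ * w * (c : G) ∈ (S : Subgroup G) := by
    have h4 : c⁻¹ * (⟨w, hwS⟩ : L) * c ∈ (S : Subgroup G).subgroupOf L := by
      rw [← Sylow.coe_subtype]; exact h2
    rw [Subgroup.mem_subgroupOf] at h4
    simpa using h4
  have hcL : (c : G) ∈ ((N ⊔ (S : Subgroup G) : Subgroup G) : Set G) := c.2
  rw [Subgroup.normal_mul] at hcL
  obtain ⟨n, hn, s, hs, hns⟩ := Set.mem_mul.mp hcL
  refine ⟨n, hn, ?_⟩
  have h5 : n⁻¹ * w * n = s * ((c : G)⁻¹ * w * (c : G)) * s⁻¹ := by
    rw [← hns]; group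
  rw [h5]
  exact Subgroup.mul_mem _ (Subgroup.mul_mem _ hs h3) (Subgroup.inv_mem _ hs)

/-- a group that is central-by-`p'`: it is the product of the central subgroup and a
`p'`-subgroup cut out by an equation `m ^ c = 1` -/
theorem central_decomp (p : ℕ) [hp : Fact p.Prime] {M : Type u} [Group M] [Finite M]
    (Zc : Subgroup M) (hZc : Zc ≤ Subgroup.center M) (e : ℕ) (he : e.Coprime p)
    (hpow : ∀ m : M, m ^ e ∈ Zc) :
    ∃ (H₁ : Subgroup M) (c : ℕ), (Nat.card H₁).Coprime p ∧ (∀ m : M, m ∈ H₁ ↔ m ^ c = 1) ∧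
      ∀ m : M, ∃ t ∈ Zc, ∃ h ∈ H₁, m = t * h := by
  classical
  have hZn : Zc.Normal := ⟨fun n hn g => by
    have := Subgroup.mem_center_iff.mp (hZc hn) g
    rw [this, mul_inv_cancel_right]; exact hn⟩
  obtain ⟨T⟩ : Nonempty (Sylow p M) := inferInstance
  have hTZ : (T : Subgroup M) ≤ Zc := by
    intro t ht
    obtain ⟨k, hk⟩ := T.isPGroup' ⟨t, ht⟩
    have hk' : t ^ p ^ k = 1 := by simpa using congrArg Subtype.val hk
    have h1 : orderOf (QuotientGroup.mk t : M ⧸ Zc) ∣ p ^ k := by
      apply orderOf_dvd_of_pow_eq_one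
      rw [← QuotientGroup.mk_pow, hk']; rfl
    have h2 : orderOf (QuotientGroup.mk t : M ⧸ Zc) ∣ e := by
      apply orderOf_dvd_of_pow_eq_one
      rw [← QuotientGroup.mk_pow]
      exact (QuotientGroup.eq_one_iff _).mpr (hpow t)
    have h3 : orderOf (QuotientGroup.mk t : M ⧸ Zc) = 1 := by
      have h4 : e.Coprime (p ^ k) := Nat.Coprime.pow_right k he
      exact Nat.eq_one_of_dvd_coprimes h4 h2 h1
    rw [orderOf_eq_one_iff, QuotientGroup.eq_one_iff] at h3
    exact h3
  have hTn : (T : Subgroup M).Normal := ⟨fun n hn g => by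
    have := Subgroup.mem_center_iff.mp (hZc (hTZ hn)) g
    rw [this, mul_inv_cancel_right]; exact hn⟩
  obtain ⟨H₁, hcomp⟩ := Subgroup.exists_right_complement'_of_coprime
    (N := (T : Subgroup M)) T.card_coprime_index
  have hcard : Nat.card H₁ = (T : Subgroup M).index := (hcomp.symm.index_eq_card).symm
  have hcop : (Nat.card H₁).Coprime p := by
    rw [hcard]
    exact Nat.Coprime.symm ((Nat.Prime.coprime_iff_not_dvd hp.out).mpr T.not_dvd_index)
  have hdec : ∀ m : M, ∃ t ∈ (T : Subgroup M), ∃ h ∈ H₁, m = t * h := by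
    intro m
    obtain ⟨⟨⟨t, ht⟩, ⟨h, hh⟩⟩, hth, -⟩ := (Subgroup.isComplement'_def.mp hcomp).existsUnique m
    exact ⟨t, ht, h, hh, hth.symm⟩
  refine ⟨H₁, Nat.card H₁, hcop, ?_, ?_⟩
  · intro m
    constructor
    · intro hm
      exact orderOf_dvd_iff_pow_eq_one.mp (Subgroup.orderOf_dvd_natCard H₁ hm)
    · intro hm
      obtain ⟨t, ht, h, hh, rfl⟩ := hdec m
      have hcomm : Commute t h := by
        have := Subgroup.mem_center_iff.mp (hZc (hTZ ht)) h
        exact this.symm
      have hh1 : h ^ Nat.card H₁ = 1 :=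
        orderOf_dvd_iff_pow_eq_one.mp (Subgroup.orderOf_dvd_natCard H₁ hh)
      rw [hcomm.mul_pow, hh1, mul_one] at hm
      obtain ⟨k, hk⟩ := T.isPGroup' ⟨t, ht⟩
      have hk' : t ^ p ^ k = 1 := by simpa using congrArg Subtype.val hk
      have h1 : orderOf t ∣ p ^ k := orderOf_dvd_of_pow_eq_one hk'
      have h2 : orderOf t ∣ Nat.card H₁ := orderOf_dvd_of_pow_eq_one hm
      have h3 : orderOf t = 1 :=
        Nat.eq_one_of_dvd_coprimes (Nat.Coprime.pow_right k hcop) h2 h1
      rw [orderOf_eq_one_iff] at h3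
      rw [h3, one_mul]; exact hh
  · intro m
    obtain ⟨t, ht, h, hh, e⟩ := hdec m
    exact ⟨t, hTZ ht, h, hh, e⟩

end Basic

section Main

theorem key (p : ℕ) [hp : Fact p.Prime] : ∀ (n : ℕ) (G : Type u) [Group G] [Finite G],
    Nat.card G = n → ∀ x : G, (∃ k : ℕ, x ^ p ^ k = 1) →
    (∀ P : Subgroup G, IsPGroup p P → x ∈ P → ∀ g : G, g⁻¹ * x * g ∈ P → g⁻¹ * x * g = x) →
    (∀ H : Subgroup G, (Nat.card H).Coprime p → (∀ h ∈ H, x * h * x⁻¹ ∈ H) →
      ∀ h ∈ H, x * h = h * x) →
    x ∈ Subgroup.center G := by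
  intro n
  induction n using Nat.strong_induction_on with
  | _ n ih =>
  intro G _ _ hn x hxp hU hb
  by_contra hxc
  have hconjp : ∀ g : G, ∃ k : ℕ, (g⁻¹ * x * g) ^ p ^ k = 1 := by
    intro g
    obtain ⟨k, hk⟩ := hxp
    exact ⟨k, by rw [conj_pow_eq, hk]; group⟩
  have hcomm : ∀ g : G, x * (g⁻¹ * x * g) = (g⁻¹ * x * g) * x → g⁻¹ * x * g = x := by
    intro g hg
    obtain ⟨P, hP, hxP, hyP⟩ := exists_pgroup_of_commute hxp (hconjp g) hg
    exact hU P hP hxP g hyP
  by_cases hZ : Subgroup.center G = ⊥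
  · -- Frobenius case
    set C : Subgroup G := Subgroup.centralizer {x} with hCdef
    have hmemC : ∀ g : G, g ∈ C ↔ x * g = g * x := by
      intro g
      rw [hCdef, Subgroup.mem_centralizer_iff]
      simp
    have hxC : x ∈ C := (hmemC x).mpr rfl
    have hCtop : C ≠ ⊤ := by
      intro h
      apply hxc
      rw [Subgroup.mem_center_iff]
      intro g
      have : g ∈ C := h ▸ Subgroup.mem_top g
      exact ((hmemC g).mp this).symm
    have hx1 : x ≠ 1 := fun h => hxc (h ▸ Subgroup.one_mem _)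
    have hA : ∀ L : Subgroup G, x ∈ L → L ≠ ⊤ → L ≤ C := by
      intro L hxL hL
      have hcard : Nat.card L < n := by
        rw [← hn]
        exact lt_of_le_of_ne (Subgroup.card_le_card_group L)
          (fun h => hL ((Subgroup.card_eq_iff_eq_top L).mp h))
      have h1 : (⟨x, hxL⟩ : L) ∈ Subgroup.center L := by
        apply ih (Nat.card L) hcard L rfl ⟨x, hxL⟩
        · obtain ⟨k, hk⟩ := hxp
          exact ⟨k, Subtype.ext (by simpa using hk)⟩
        · intro P hP hxP l hl
          have h2 := hU (P.map L.subtype) (hP.map _) ⟨⟨x, hxL⟩, hxP, rfl⟩ (l : G)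
            ⟨_, hl, by simp⟩
          exact Subtype.ext (by simpa using h2)
        · intro H hH hnorm h hh
          have hcardH : Nat.card (H.map L.subtype) = Nat.card H :=
            Subgroup.card_map_of_injective (Subgroup.subtype_injective L)
          have h2 := hb (H.map L.subtype) (by rw [hcardH]; exact hH) (by
            rintro _ ⟨h', hh', rfl⟩
            exact ⟨_, hnorm h' hh', by simp⟩) (h : G) ⟨h, hh, rfl⟩
          exact Subtype.ext (by simpa using h2)
      intro l hl
      rw [hmemC]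
      have := Subgroup.mem_center_iff.mp h1 ⟨l, hl⟩
      exact (congrArg Subtype.val this).symm
    have hB : ∀ g : G, g ∉ C → C ⊓ (MulAut.conj g • C) = ⊥ := by
      intro g hg
      rw [eq_bot_iff]
      intro u hu
      obtain ⟨huC, hu2⟩ := Subgroup.mem_inf.mp hu
      rw [Subgroup.mem_pointwise_smul_iff_inv_smul_mem] at hu2
      have hu2' : g⁻¹ * u * g ∈ C := by
        simpa [MulAut.smul_def, MulAut.conj_apply, ← map_inv] using hu2
      rw [Subgroup.mem_bot]
      have hL : Subgroup.centralizer {u} = ⊤ := by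
        by_contra hLtop
        have hxL : x ∈ Subgroup.centralizer {u} := by
          rw [Subgroup.mem_centralizer_iff]
          intro h hh
          rw [Set.mem_singleton_iff] at hh
          subst hh
          exact ((hmemC h).mp huC).symm
        have hle := hA _ hxL hLtop
        have hyL : g * x * g⁻¹ ∈ Subgroup.centralizer {u} := by
          rw [Subgroup.mem_centralizer_iff]
          intro h hh
          rw [Set.mem_singleton_iff] at hh
          subst hh
          have h3 := (hmemC _).mp hu2'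
          calc h * (g * x * g⁻¹) = g * ((g⁻¹ * h * g) * x) * g⁻¹ := by group
            _ = g * (x * (g⁻¹ * h * g)) * g⁻¹ := by rw [h3]
            _ = g * x * g⁻¹ * h := by group
        have hyC := hle hyL
        have h4 := hcomm g⁻¹ (by simpa using (hmemC _).mp hyC)
        apply hg
        rw [hmemC]
        have h5 : g * x * g⁻¹ = x := by simpa using h4
        calc x * g = (g * x * g⁻¹) * g := by rw [h5]
          _ = g * x := by group
      have hucen : u ∈ Subgroup.center G := by
        rw [Subgroup.mem_center_iff]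
        intro a
        have ha : a ∈ Subgroup.centralizer {u} := hL ▸ Subgroup.mem_top a
        rw [Subgroup.mem_centralizer_iff] at ha
        exact (ha u rfl).symm
      rw [hZ] at hucen
      exact Subgroup.mem_bot.mp hucen
    have hCbot : C ≠ ⊥ := fun h => hx1 (Subgroup.mem_bot.mp (h ▸ hxC))
    have hF : Cfsg.IsFrobeniusComplement C := ⟨hCbot, hCtop, hB⟩
    obtain ⟨N, -, hNn, hNC⟩ := Cfsg.Agent.H75.frobenius_theorem C hF
    obtain ⟨S, hS⟩ := (isPGroup_zpowers hxp).exists_le_sylow
    have hxS : x ∈ (S : Subgroup G) := hS (Subgroup.mem_zpowers x)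
    have hSC : (S : Subgroup G) ≤ C := by
      intro s hs
      rw [hmemC]
      have h1 := hU S S.isPGroup' hxS s
        (Subgroup.mul_mem _ (Subgroup.mul_mem _ (Subgroup.inv_mem _ hs) hxS) hs)
      calc x * s = s * (s⁻¹ * x * s) := by group
        _ = s * x := by rw [h1]
    have hpC : ¬ p ∣ C.index := by
      intro h
      exact S.not_dvd_index (dvd_trans h (Subgroup.index_dvd_of_le hSC))
    have hNcard : Nat.card N = C.index := (hNC.index_eq_card).symm
    have hNcop : (Nat.card N).Coprime p := by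
      rw [hNcard]
      exact Nat.Coprime.symm ((Nat.Prime.coprime_iff_not_dvd hp.out).mpr hpC)
    have hNx := hb N hNcop (fun h hh => hNn.conj_mem h hh x)
    have hNle : N ≤ C := fun h hh => (hmemC h).mpr (hNx h hh)
    have hNbot : N = ⊥ := by
      have := hNC.disjoint
      rw [disjoint_iff, inf_eq_left.mpr hNle] at this
      exact this
    have := hNC.sup_eq_top
    rw [hNbot, bot_sup_eq] at this
    exact hCtop this
  · -- quotient by the centre
    set Z : Subgroup G := Subgroup.center G with hZdef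
    have hcard : Nat.card (G ⧸ Z) < n := by
      rw [← hn, Subgroup.card_eq_card_quotient_mul_card_subgroup Z]
      have h1 : 1 < Nat.card Z := by
        rw [Subgroup.one_lt_card_iff_ne_bot]; exact hZ
      have h2 : 0 < Nat.card (G ⧸ Z) := Nat.card_pos
      nlinarith
    have h1 : (QuotientGroup.mk x : G ⧸ Z) ∈ Subgroup.center (G ⧸ Z) := by
      apply ih _ hcard (G ⧸ Z) rfl
      · obtain ⟨k, hk⟩ := hxp
        exact ⟨k, by rw [← QuotientGroup.mk_pow, hk]; rfl⟩
      · intro P hP hxP gbar hgP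
        obtain ⟨g, rfl⟩ := QuotientGroup.mk_surjective gbar
        obtain ⟨S, hS⟩ := (isPGroup_zpowers hxp).exists_le_sylow
        have hxS : x ∈ (S : Subgroup G) := hS (Subgroup.mem_zpowers x)
        let Sbar : Sylow p (G ⧸ Z) := S.mapSurjective (QuotientGroup.mk'_surjective Z)
        obtain ⟨Q, hQ⟩ := hP.exists_le_sylow
        obtain ⟨cbar, hc⟩ := MulAction.exists_smul_eq (G ⧸ Z) Sbar Q
        obtain ⟨c, rfl⟩ := QuotientGroup.mk_surjective cbar
        have key : ∀ d : G, (QuotientGroup.mk (d⁻¹ * x * d) : G ⧸ Z) ∈ (Q : Subgroup (G ⧸ Z)) →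
            (QuotientGroup.mk (c⁻¹ * (d⁻¹ * x * d) * c) : G ⧸ Z) = QuotientGroup.mk x := by
          intro d hd
          rw [← hc] at hd
          have hd' : (QuotientGroup.mk (d⁻¹ * x * d) : G ⧸ Z) ∈
              MulAut.conj (QuotientGroup.mk c : G ⧸ Z) • (Sbar : Subgroup (G ⧸ Z)) := hd
          rw [Subgroup.mem_pointwise_smul_iff_inv_smul_mem] at hd'
          rw [conj_inv_smul] at hd'
          have hd2 : (QuotientGroup.mk (c⁻¹ * (d⁻¹ * x * d) * c) : G ⧸ Z) ∈
              (S : Subgroup G).map (QuotientGroup.mk' Z) := by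
            have h0 : ((Sbar : Sylow p (G ⧸ Z)) : Subgroup (G ⧸ Z)) =
                (S : Subgroup G).map (QuotientGroup.mk' Z) := Sylow.coe_mapSurjective _ _
            rw [← h0]; exact hd'
          obtain ⟨s, hs, hse⟩ := hd2
          have hmem : c⁻¹ * (d⁻¹ * x * d) * c ∈ Z ⊔ (S : Subgroup G) := by
            have h3 : s⁻¹ * (c⁻¹ * (d⁻¹ * x * d) * c) ∈ Z := by
              rw [← QuotientGroup.eq]; exact hse
            have h5 : c⁻¹ * (d⁻¹ * x * d) * c = s * (s⁻¹ * (c⁻¹ * (d⁻¹ * x * d) * c)) := by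
              group
            rw [h5]
            exact Subgroup.mul_mem _ (Subgroup.mem_sup_right hs) (Subgroup.mem_sup_left h3)
          have hpe : ∃ k : ℕ, (c⁻¹ * (d⁻¹ * x * d) * c) ^ p ^ k = 1 := by
            have h3 := hconjp (d * c)
            have e : (d * c)⁻¹ * x * (d * c) = c⁻¹ * (d⁻¹ * x * d) * c := by group
            rwa [e] at h3
          obtain ⟨z, hz, hzS⟩ := exists_conj_mem_sylow S Z _ hpe hmem
          have e : z⁻¹ * (c⁻¹ * (d⁻¹ * x * d) * c) * z = (d * c * z)⁻¹ * x * (d * c * z) := by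
            group
          rw [e] at hzS
          have h6 := hU S S.isPGroup' hxS (d * c * z) hzS
          have h7 : c⁻¹ * (d⁻¹ * x * d) * c = z * x * z⁻¹ := by
            calc c⁻¹ * (d⁻¹ * x * d) * c
                = z * ((d * c * z)⁻¹ * x * (d * c * z)) * z⁻¹ := by group
              _ = z * x * z⁻¹ := by rw [h6]
          have h8 : z * x * z⁻¹ = x := by
            have h9 := Subgroup.mem_center_iff.mp hz x
            rw [← h9]; group
          rw [h7, h8]
        have k1 := key 1 (by simpa using hQ hxP)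
        have k2 := key g (hQ hgP)
        have k1' : (QuotientGroup.mk c : G ⧸ Z)⁻¹ * QuotientGroup.mk x * QuotientGroup.mk c
            = QuotientGroup.mk x := by simpa using k1
        have k2' : (QuotientGroup.mk c : G ⧸ Z)⁻¹ *
            ((QuotientGroup.mk g)⁻¹ * QuotientGroup.mk x * QuotientGroup.mk g) *
            QuotientGroup.mk c = QuotientGroup.mk x := k2
        have k3 : (QuotientGroup.mk c : G ⧸ Z)⁻¹ *
            ((QuotientGroup.mk g)⁻¹ * QuotientGroup.mk x * QuotientGroup.mk g) *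
            QuotientGroup.mk c = (QuotientGroup.mk c : G ⧸ Z)⁻¹ * QuotientGroup.mk x *
            QuotientGroup.mk c := by rw [k1', k2']
        exact mul_left_cancel (mul_right_cancel k3)
      · intro Mbar hMcop hMnorm mbar hm
        obtain ⟨m, rfl⟩ := QuotientGroup.mk_surjective mbar
        let M : Subgroup G := Mbar.comap (QuotientGroup.mk' Z)
        have hmM : m ∈ M := hm
        have hZc : Z.subgroupOf M ≤ Subgroup.center M := by
          intro z hz
          rw [Subgroup.mem_subgroupOf] at hz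
          rw [Subgroup.mem_center_iff]
          intro a
          exact Subtype.ext (Subgroup.mem_center_iff.mp hz a)
        have hpow : ∀ a : M, a ^ Nat.card Mbar ∈ Z.subgroupOf M := by
          intro a
          rw [Subgroup.mem_subgroupOf]
          have h3 : (QuotientGroup.mk (a : G) : G ⧸ Z) ^ Nat.card Mbar = 1 :=
            orderOf_dvd_iff_pow_eq_one.mp (Subgroup.orderOf_dvd_natCard Mbar a.2)
          rw [← QuotientGroup.mk_pow] at h3
          have h4 := (QuotientGroup.eq_one_iff _).mp h3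
          simpa using h4
        obtain ⟨H₁, c, hH₁cop, hH₁mem, hdec⟩ :=
          central_decomp p (Z.subgroupOf M) hZc (Nat.card Mbar) hMcop hpow
        have hxM : ∀ a ∈ M, x * a * x⁻¹ ∈ M := by
          intro a ha
          exact hMnorm (QuotientGroup.mk a) ha
        have hcardH : Nat.card (H₁.map M.subtype) = Nat.card H₁ :=
          Subgroup.card_map_of_injective (Subgroup.subtype_injective M)
        have hH := hb (H₁.map M.subtype) (by rw [hcardH]; exact hH₁cop) (by
          rintro _ ⟨h', hh', rfl⟩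
          have hh'' : h' ^ c = 1 := (hH₁mem h').mp hh'
          refine ⟨⟨x * h' * x⁻¹, hxM _ h'.2⟩, (hH₁mem _).mpr ?_, rfl⟩
          apply Subtype.ext
          have h3 : ((h' : G)) ^ c = 1 := by simpa using congrArg Subtype.val hh''
          show (x * (h' : G) * x⁻¹) ^ c = 1
          have h4 := conj_pow_eq x⁻¹ (h' : G) c
          rw [inv_inv] at h4
          rw [h4, h3]; group)
        obtain ⟨t, ht, h, hh, e⟩ := hdec ⟨m, hmM⟩
        have e' : m = (t : G) * (h : G) := congrArg Subtype.val e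
        have ht' : (t : G) ∈ Z := Subgroup.mem_subgroupOf.mp ht
        have hxh : x * (h : G) = (h : G) * x := hH _ ⟨h, hh, rfl⟩
        have hxt : x * (t : G) = (t : G) * x := Subgroup.mem_center_iff.mp ht' x
        have hxm : x * m = m * x := by
          rw [e', ← mul_assoc, hxt, mul_assoc, hxh, mul_assoc]
        show (QuotientGroup.mk x : G ⧸ Z) * QuotientGroup.mk m = QuotientGroup.mk m * QuotientGroup.mk x
        rw [← QuotientGroup.mk_mul, ← QuotientGroup.mk_mul, hxm]
    apply hxc
    rw [Subgroup.mem_center_iff]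
    intro g
    have h2 := Subgroup.mem_center_iff.mp h1 (QuotientGroup.mk g)
    have h3 : (g * x)⁻¹ * (x * g) ∈ Z := by
      rw [← QuotientGroup.eq]; exact h2
    have h4 : x * (g⁻¹ * x * g) = (g⁻¹ * x * g) * x := by
      have h5 := Subgroup.mem_center_iff.mp h3 x
      have e : g⁻¹ * x * g = x * ((g * x)⁻¹ * (x * g)) := by group
      rw [e, mul_assoc x _ x, ← h5]
    have h6 := hcomm g h4
    calc g * x = g * (g⁻¹ * x * g) := by rw [h6]
      _ = x * g := by group

/-- **Shult-type criterion**: `x ∈ S` (Sylow `p`), `x` the only conjugate of itself in `S`, and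
`x` centralizes every `p'`-subgroup it normalizes; then `x` is central. -/
theorem shult {G : Type u} [Group G] [Finite G] {p : ℕ} [Fact p.Prime]
    (S : Sylow p G) (x : G) (hx : x ∈ S)
    (hU : ∀ g : G, g⁻¹ * x * g ∈ S → g⁻¹ * x * g = x)
    (hb : ∀ H : Subgroup G, (Nat.card H).Coprime p → (∀ h ∈ H, x * h * x⁻¹ ∈ H) →
      ∀ h ∈ H, x * h = h * x) :
    x ∈ Subgroup.center G := by
  apply key p (Nat.card G) G rfl x
  · obtain ⟨k, hk⟩ := S.isPGroup' ⟨x, hx⟩
    exact ⟨k, by simpa using congrArg Subtype.val hk⟩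
  · intro P hP hxP g hgP
    obtain ⟨Q, hQ⟩ := hP.exists_le_sylow
    obtain ⟨h, hh⟩ := MulAction.exists_smul_eq G S Q
    have hmem : ∀ a ∈ P, h⁻¹ * a * h ∈ (S : Subgroup G) := by
      intro a ha
      have h1 : a ∈ (Q : Subgroup G) := hQ ha
      rw [← hh] at h1
      have h2 : a ∈ MulAut.conj h • (S : Subgroup G) := h1
      rw [Subgroup.mem_pointwise_smul_iff_inv_smul_mem, conj_inv_smul] at h2
      exact h2
    have h1 := hU h (hmem x hxP)
    have h2 : (g * h)⁻¹ * x * (g * h) = x := by
      apply hU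
      have h3 := hmem _ hgP
      have e : (g * h)⁻¹ * x * (g * h) = h⁻¹ * (g⁻¹ * x * g) * h := by group
      rw [e]; exact h3
    calc g⁻¹ * x * g = h * ((g * h)⁻¹ * x * (g * h)) * h⁻¹ := by group
      _ = h * x * h⁻¹ := by rw [h2]
      _ = h * (h⁻¹ * x * h) * h⁻¹ := by rw [h1]
      _ = x := by group
  · exact hb

end Main



end Cfsg.Agent.H12.Shult
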