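import Mathlib
import Cfsg.Agent.H78.StM3
import Cfsg.Agent.H4.Frob
import Cfsg.Agent.S0298
import Cfsg.Agent.S2544

/-!
# S2547 (helper12): abstract tools for the Steinberg character of `PΩ_{2m+1}(q)`

* `steinberg_of_equiv` : transfer of the Steinberg statement along a group isomorphism;
* `steinberg_sub` : the Steinberg module of a group `G` (stable under `G`) gives the Steinberg
  character of every subgroup `H ≥ U` which still reaches the whole apartment;
* `m_one` : the case `m = 1` (`PΩ₃(q) ≅ PSL₂(q)`).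
-/

set_option autoImplicit false

namespace Cfsg.Agent.H12.StO

open Cfsg.Agent.H78.StM

universe u

/-- transfer of a Steinberg character along an isomorphism. -/
theorem steinberg_of_equiv {A B : Type*} [Group A] [Group B] (e : A ≃* B) (p : ℕ)
    [Fact p.Prime]
    (h : ∃ χ : B → ℂ, Cfsg.IsIrrCharacter B χ ∧
      ∀ P : Sylow p B, χ 1 = Nat.card P ∧ ∀ x : B, x ∈ P → x ≠ 1 → χ x = 0) :
    ∃ χ : A → ℂ, Cfsg.IsIrrCharacter A χ ∧
      ∀ P : Sylow p A, χ 1 = Nat.card P ∧ ∀ x : A, x ∈ P → x ≠ 1 → χ x = 0 := by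
  obtain ⟨χ, hχ, hP⟩ := h
  refine ⟨fun a => χ (e a),
    Cfsg.Agent.H4.isIrrCharacter_comp_surjective e.toMonoidHom e.surjective hχ, ?_⟩
  intro P
  obtain ⟨P', hP'⟩ : ∃ P' : Sylow p B,
      (P' : Subgroup B) = (P : Subgroup A).comap e.symm.toMonoidHom :=
    ⟨P.comapOfInjective e.symm.toMonoidHom e.symm.injective (by
      intro x _
      exact ⟨e x, by simp⟩), Sylow.coe_comapOfInjective _ _ _ _⟩
  have hmem : ∀ y : B, y ∈ P' ↔ e.symm y ∈ P := fun y => by
    show y ∈ (P' : Subgroup B) ↔ _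
    rw [hP']
    exact Subgroup.mem_comap
  have hcard : Nat.card P' = Nat.card P :=
    Nat.card_congr (Equiv.subtypeEquiv e.symm.toEquiv (fun y => hmem y))
  obtain ⟨h1, h2⟩ := hP P'
  refine ⟨?_, ?_⟩
  · show χ (e 1) = _
    rw [map_one, h1, hcard]
  · intro x hx hx1
    show χ (e x) = 0
    apply h2
    · rw [hmem]
      simpa using hx
    · intro h
      apply hx1
      have := congrArg e.symm h
      simpa using this

/-- The Steinberg module of `G`, once stable under `G`, gives the Steinberg character of every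
subgroup `H` containing `U` and reaching the whole apartment. -/
theorem steinberg_sub {G : Type u} [Group G] [Finite G] {Ω : Type*} [MulAction G Ω] {W : Type*}
    [Fintype W] (p : ℕ) [Fact p.Prime] (U : Subgroup G) (a : W → Ω) (sg : W → ℂ) (ω₀ : Ω)
    (hU : ∀ u ∈ U, u • ω₀ = ω₀) (w₀ : W) (hw₀ : sg w₀ ≠ 0)
    (hind : ∀ v ∈ U, ∀ w, v • a w₀ = a w → v = 1 ∧ w = w₀)
    (hst : ∀ g : G, ∀ v ∈ stV U a sg, trep G Ω g v ∈ stV U a sg)
    (hUp : IsPGroup p U) (hUi : ¬ p ∣ U.index)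
    (H : Subgroup G) (hUH : U ≤ H) (horb : ∀ w, ∃ g ∈ H, g • ω₀ = a w) :
    ∃ χ : H → ℂ, Cfsg.IsIrrCharacter H χ ∧
      ∀ P : Sylow p H, χ 1 = Nat.card P ∧ ∀ x : H, x ∈ P → x ≠ 1 → χ x = 0 := by
  have htrep : ∀ (h : H) (f : Ω → ℂ), trep H Ω h f = trep G Ω (h : G) f := fun h f => rfl
  have hstV : stV (U.subgroupOf H) a sg = stV U a sg := by
    unfold stV
    congr 1
    ext f
    constructor
    · rintro ⟨u, rfl⟩
      exact ⟨⟨((u : H) : G), Subgroup.mem_subgroupOf.mp u.2⟩, rfl⟩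
    · rintro ⟨u, rfl⟩
      exact ⟨⟨⟨(u : G), hUH u.2⟩, Subgroup.mem_subgroupOf.mpr u.2⟩, rfl⟩
  have key := steinberg_quot (G := H) p (U.subgroupOf H) a sg ω₀
    (fun u hu => hU (u : G) (Subgroup.mem_subgroupOf.mp hu))
    (fun w => by
      obtain ⟨g, hg, hgw⟩ := horb w
      exact ⟨⟨g, hg⟩, hgw⟩)
    w₀ hw₀
    (fun v hv w hvw => by
      obtain ⟨h1, h2⟩ := hind (v : G) (Subgroup.mem_subgroupOf.mp hv) w hvw
      exact ⟨Subtype.ext h1, h2⟩)
    (fun g v hv => by
      rw [hstV] at hv ⊢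
      rw [htrep]
      exact hst (g : G) v hv)
    (hUp.comap_of_injective H.subtype H.subtype_injective)
    (fun hdvd => hUi (dvd_trans hdvd (Dvd.intro _ (Subgroup.relIndex_mul_index hUH))))
    (⊥ : Subgroup H)
    (fun z hz => by
      rw [Subgroup.mem_bot] at hz
      subst hz
      exact ⟨fun u _ => by rw [one_mul, mul_one], fun w => one_smul _ _⟩)
  exact steinberg_of_equiv (QuotientGroup.quotientBot (G := H)).symm p key

/-- The case `m = 1`: `PΩ₃(q) ≅ PSL₂(q)`. -/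
theorem m_one {F : Type*} [Field F] [Fintype F] (p : ℕ) [Fact p.Prime] [CharP F p]
    (hodd : Odd (Fintype.card F)) :
    ∃ χ : Cfsg.POmega F (Cfsg.quadFormOdd 1 F) → ℂ,
      Cfsg.IsIrrCharacter (Cfsg.POmega F (Cfsg.quadFormOdd 1 F)) χ ∧
      ∀ P : Sylow p (Cfsg.POmega F (Cfsg.quadFormOdd 1 F)), χ 1 = Nat.card P ∧
        ∀ x : Cfsg.POmega F (Cfsg.quadFormOdd 1 F), x ∈ P → x ≠ 1 → χ x = 0 := by
  obtain ⟨e⟩ := Cfsg.Agent.S0298.result hodd
  exact steinberg_of_equiv e p (Cfsg.Agent.S2544.result p 2 le_rfl)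

end Cfsg.Agent.H12.StO
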