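import Mathlib
import Cfsg.Agent.H12.StO1
import Cfsg.Agent.H88.StUDefs
import Cfsg.Agent.S0292

/-!
# S2547 (helper12): the Steinberg character of `PΩ_{2m+1}(q)`, `m ≥ 2`, from the flag data of
`SO_{2m+1}(q) = UG (2m+1) id`, the comparison map `Ψ` and the Sylow statement.
-/

set_option autoImplicit false

namespace Cfsg.Agent.H12.StO

open Matrix Cfsg.Agent.H88.Un Cfsg.Agent.H88.StU Cfsg.Agent.H78.StSL Cfsg.Agent.H78.StM

/-- The assembly for `m ≥ 2`. -/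
theorem so_of {F : Type*} [Field F] [Fintype F] (p : ℕ) [Fact p.Prime] [CharP F p]
    (hodd : Odd (Fintype.card F)) (m : ℕ) (hm : 2 ≤ m)
    {W : Type*} [Fintype W] (a : W → Flg (2 * m + 1) F) (sg : W → ℂ) (ω₀ : Flg (2 * m + 1) F)
    (w₀ : W) (hw₀ : sg w₀ ≠ 0)
    (hU : ∀ u ∈ (EL (RingHom.id F) (rk (2 * m + 1)) : Subgroup (UG (2 * m + 1) (RingHom.id F))),
      u • ω₀ = ω₀)
    (horb : ∀ w, ∃ g : UG (2 * m + 1) (RingHom.id F), g • ω₀ = a w)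
    (hind : ∀ v ∈ (EL (RingHom.id F) (rk (2 * m + 1)) :
      Subgroup (UG (2 * m + 1) (RingHom.id F))), ∀ w, v • a w₀ = a w → v = 1 ∧ w = w₀)
    (hst : ∀ g : UG (2 * m + 1) (RingHom.id F),
      ∀ v ∈ stV (EL (RingHom.id F) (rk (2 * m + 1)) :
        Subgroup (UG (2 * m + 1) (RingHom.id F))) a sg,
      trep (UG (2 * m + 1) (RingHom.id F)) (Flg (2 * m + 1) F) g v ∈
        stV (EL (RingHom.id F) (rk (2 * m + 1)) :
          Subgroup (UG (2 * m + 1) (RingHom.id F))) a sg)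
    (hdiag : ∀ t : UG (2 * m + 1) (RingHom.id F),
      (∃ d : Fin (2 * m + 1) → F, t.1.1 = Matrix.diagonal d) → t • ω₀ = ω₀)
    (hpsi : ∃ (Ψ : ↥(UG (2 * m + 1) (RingHom.id F)) →*
        ↥(Cfsg.isometryGroup F (Cfsg.quadFormOdd m F)))
      (t₀ : ↥(UG (2 * m + 1) (RingHom.id F))),
      Function.Injective Ψ ∧
      commutator ↥(Cfsg.isometryGroup F (Cfsg.quadFormOdd m F)) ≤ Ψ.range ∧
      (∃ d : Fin (2 * m + 1) → F, t₀.1.1 = Matrix.diagonal d) ∧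
      (∀ g, Ψ g ∈ commutator ↥(Cfsg.isometryGroup F (Cfsg.quadFormOdd m F)) ∨
        Ψ (g * t₀) ∈ commutator ↥(Cfsg.isometryGroup F (Cfsg.quadFormOdd m F))) ∧
      (∀ g, Odd (orderOf g) → Ψ g ∈ commutator ↥(Cfsg.isometryGroup F (Cfsg.quadFormOdd m F))))
    (hsyl : IsPGroup p (EL (RingHom.id F) (rk (2 * m + 1)) :
        Subgroup (UG (2 * m + 1) (RingHom.id F))) ∧
      ¬ p ∣ (EL (RingHom.id F) (rk (2 * m + 1)) :
        Subgroup (UG (2 * m + 1) (RingHom.id F))).index) :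
    ∃ χ : Cfsg.POmega F (Cfsg.quadFormOdd m F) → ℂ,
      Cfsg.IsIrrCharacter (Cfsg.POmega F (Cfsg.quadFormOdd m F)) χ ∧
      ∀ P : Sylow p (Cfsg.POmega F (Cfsg.quadFormOdd m F)), χ 1 = Nat.card P ∧
        ∀ x : Cfsg.POmega F (Cfsg.quadFormOdd m F), x ∈ P → x ≠ 1 → χ x = 0 := by
  classical
  have h2 : (2 : F) ≠ 0 := Cfsg.Agent.H7.two_ne_zero_of_odd_card hodd
  obtain ⟨Ψ, t₀, hinj, hrange, ht₀, hcos, hoddΨ⟩ := hpsi
  obtain ⟨hUp, hUi⟩ := hsyl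
  -- `p` is odd
  have hp2 : p ≠ 2 := by
    rintro rfl
    have : ((2 : ℕ) : F) = 0 := CharP.cast_eq_zero F 2
    exact h2 (by exact_mod_cast this)
  have hpodd : Odd p := (Fact.out : p.Prime).odd_of_ne_two hp2
  set Ωs : Subgroup ↥(Cfsg.isometryGroup F (Cfsg.quadFormOdd m F)) :=
    commutator ↥(Cfsg.isometryGroup F (Cfsg.quadFormOdd m F)) with hΩs
  set H : Subgroup (UG (2 * m + 1) (RingHom.id F)) := Ωs.comap Ψ with hH
  have hUH : (EL (RingHom.id F) (rk (2 * m + 1)) : Subgroup (UG (2 * m + 1) (RingHom.id F))) ≤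
      H := by
    intro u hu
    apply hoddΨ
    obtain ⟨k, hk⟩ := hUp ⟨u, hu⟩
    have hk' : u ^ p ^ k = 1 := by
      have := congrArg Subtype.val hk
      simpa using this
    have hdvd : orderOf u ∣ p ^ k := orderOf_dvd_of_pow_eq_one hk'
    exact Odd.of_dvd_nat (hpodd.pow) hdvd
  have horbH : ∀ w, ∃ g ∈ H, g • ω₀ = a w := by
    intro w
    obtain ⟨g, hg⟩ := horb w
    rcases hcos g with h | h
    · exact ⟨g, h, hg⟩
    · refine ⟨g * t₀, h, ?_⟩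
      rw [mul_smul, hdiag t₀ ht₀, hg]
  obtain ⟨χ, hχ⟩ := steinberg_sub p (EL (RingHom.id F) (rk (2 * m + 1))) a sg ω₀ hU w₀ hw₀ hind
    hst hUp hUi H hUH horbH
  -- `H ≃* Ω`
  let f : ↥H →* ↥Ωs := (Ψ.comp H.subtype).codRestrict Ωs (fun h => h.2)
  have hfb : Function.Bijective f := by
    constructor
    · intro x y hxy
      have : Ψ (x : UG (2 * m + 1) (RingHom.id F)) = Ψ y := congrArg Subtype.val hxy
      exact Subtype.ext (hinj this)
    · intro s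
      obtain ⟨g, hg⟩ := hrange s.2
      exact ⟨⟨g, by show Ψ g ∈ Ωs; rw [hg]; exact s.2⟩, Subtype.ext hg⟩
  have e1 : ↥H ≃* ↥Ωs := MulEquiv.ofBijective f hfb
  have hc : Subgroup.center ↥Ωs = ⊥ := by
    have := Cfsg.Agent.S0292.center_eq_bot (F := F) h2 m hm
    rw [Cfsg.Agent.H7.qOdd_coe] at this
    exact this
  have e2 : Cfsg.POmega F (Cfsg.quadFormOdd m F) ≃* ↥Ωs :=
    (QuotientGroup.quotientMulEquivOfEq hc).trans QuotientGroup.quotientBot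
  exact steinberg_of_equiv (e2.trans e1.symm) p ⟨χ, hχ⟩

end Cfsg.Agent.H12.StO
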