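import Mathlib
import Cfsg.Agent.H78.StODefs
import Cfsg.Agent.H49.Levi

/-!
helper12: piece `S2548-OMEGA` for helper78 (Steinberg character of `PΩ⁺_{2m}(q)`):
unitriangular isometries and root elements of `O⁺_{2(m+1)}(F)` lie in `Ω = [O, O]`.

Characteristic two: an isometry stabilising the totally singular subspace `{y = 0}` is in `Ω`
(H49 `even_iff_mem_commutator_plus_two`). Odd characteristic: `g = levi(A) · s` with `A`
unitriangular (`det A = 1`, H49 `leviO_mem_commutator_iff_odd`) and `s` of shape `[[1, B], [0, 1]]`,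
which has odd order dividing `#F`, hence is a square. Lower root elements are conjugate to upper
ones under the total flip `e_i ↔ f_i`.
-/

set_option autoImplicit false
set_option linter.unusedVariables false
set_option linter.unusedSimpArgs false

namespace Cfsg.Agent.H12.StOP

open Matrix Cfsg.Agent.H78.StO

variable {F : Type*} [Field F]

/-- Characteristic two: an isometry stabilising `{y = 0}` lies in `Ω`. -/
theorem uni_mem_two [Fintype F] (h2 : (2 : F) = 0) (m : ℕ)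
    (h : Fintype.card F ≠ 2 ∨ m + 1 ≠ 2) (g : OG m F)
    (hC : ∀ i j, mat g (Sum.inr i) (Sum.inl j) = 0) :
    g ∈ Cfsg.Omega F (Cfsg.quadFormPlus (m + 1) F) := by
  have key := Cfsg.Agent.H49.even_iff_mem_commutator_plus_two h2 h g
  rw [← key]
  have hle : (Cfsg.Agent.H49.U0 (m + 1) F).map (Matrix.mulVecLin (mat g)) ≤
      Cfsg.Agent.H49.U0 (m + 1) F := by
    rintro _ ⟨x, hx0, rfl⟩
    have hx : x ∈ Cfsg.Agent.H49.U0 (m + 1) F := hx0
    rw [Cfsg.Agent.H49.mem_U0] at hx ⊢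
    intro j
    rw [Matrix.mulVecLin_apply, Matrix.mulVec, dotProduct, Fintype.sum_sum_type]
    simp [hC, hx]
  have hle' : (Cfsg.Agent.H49.U0 (m + 1) F).map (Matrix.mulVecLin
      ((g : Matrix.GeneralLinearGroup (Fin (m + 1) ⊕ Fin (m + 1)) F) :
        Matrix (Fin (m + 1) ⊕ Fin (m + 1)) (Fin (m + 1) ⊕ Fin (m + 1)) F)) ≤
      Cfsg.Agent.H49.U0 (m + 1) F := hle
  rw [inf_eq_right.mpr hle', Cfsg.Agent.H49.finrank_map_iso, Cfsg.Agent.H49.finrank_U0]
  simp

/-- An isometry with matrix `[[1, B], [0, D]]` has `D = 1`. -/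
theorem d_eq_one (m : ℕ) (g : OG m F) (B D : Matrix (Fin (m + 1)) (Fin (m + 1)) F)
    (hg : mat g = fromBlocks 1 B 0 D) : D = 1 := by
  ext i j
  have h1 := quad_mat g (Pi.single (Sum.inr j) 1)
  have h2 := quad_mat g (Pi.single (Sum.inl i) 1 + Pi.single (Sum.inr j) 1)
  have e1 : ∀ k, (mat g *ᵥ (Pi.single (Sum.inr j) (1 : F))) (Sum.inl k) = B k j := by
    intro k
    rw [Matrix.mulVec_single_one, hg]
    rfl
  have e2 : ∀ k, (mat g *ᵥ (Pi.single (Sum.inr j) (1 : F))) (Sum.inr k) = D k j := by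
    intro k
    rw [Matrix.mulVec_single_one, hg]
    rfl
  have e3 : ∀ k, (mat g *ᵥ (Pi.single (Sum.inl i) (1 : F))) (Sum.inl k) =
      (1 : Matrix (Fin (m + 1)) (Fin (m + 1)) F) k i := by
    intro k
    rw [Matrix.mulVec_single_one, hg]
    rfl
  have e4 : ∀ k, (mat g *ᵥ (Pi.single (Sum.inl i) (1 : F))) (Sum.inr k) = 0 := by
    intro k
    rw [Matrix.mulVec_single_one, hg]
    rfl
  have q1 : ∑ k, B k j * D k j = 0 := by
    have : Cfsg.quadFormPlus (m + 1) F (mat g *ᵥ Pi.single (Sum.inr j) 1) =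
        ∑ k, B k j * D k j := by
      unfold Cfsg.quadFormPlus
      exact Finset.sum_congr rfl (fun k _ => by rw [e1, e2])
    rw [← this, h1]
    unfold Cfsg.quadFormPlus
    apply Finset.sum_eq_zero
    intro k _
    simp
  have q2 : Cfsg.quadFormPlus (m + 1) F (mat g *ᵥ
      (Pi.single (Sum.inl i) 1 + Pi.single (Sum.inr j) 1)) = D i j + ∑ k, B k j * D k j := by
    unfold Cfsg.quadFormPlus
    rw [Matrix.mulVec_add]
    simp only [Pi.add_apply, e1, e2, e3, e4, zero_add, add_mul, Finset.sum_add_distrib]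
    congr 1
    rw [Finset.sum_eq_single i]
    · rw [Matrix.one_apply_eq, one_mul]
    · intro k _ hk
      rw [Matrix.one_apply_ne hk, zero_mul]
    · intro hi
      exact absurd (Finset.mem_univ i) hi
  rw [q2, q1, add_zero] at h2
  rw [h2]
  unfold Cfsg.quadFormPlus
  simp only [Pi.add_apply, Pi.single_apply, Sum.inl.injEq, Sum.inr.injEq, reduceCtorEq, if_false,
    add_zero, zero_add]
  rw [Matrix.one_apply]
  simp [eq_comm]


/-- Powers of an upper Siegel-shaped isometry. -/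
theorem mat_pow_siegel (m : ℕ) (g : OG m F) (B : Matrix (Fin (m + 1)) (Fin (m + 1)) F)
    (hg : mat g = fromBlocks 1 B 0 1) (k : ℕ) : mat (g ^ k) = fromBlocks 1 (k • B) 0 1 := by
  induction k with
  | zero =>
    rw [pow_zero, mat_one, zero_smul, Matrix.fromBlocks_one]
  | succ k ih =>
    rw [pow_succ, mat_mul, ih, hg, Matrix.fromBlocks_multiply]
    simp only [Matrix.mul_one, Matrix.one_mul, Matrix.mul_zero, Matrix.zero_mul, add_zero,
      zero_add]
    rw [succ_nsmul, add_comm B]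

/-- Odd characteristic: an upper Siegel-shaped isometry lies in `Ω`. -/
theorem siegel_mem_odd [Fintype F] (h2 : (2 : F) ≠ 0) (m : ℕ) (g : OG m F)
    (B : Matrix (Fin (m + 1)) (Fin (m + 1)) F) (hg : mat g = fromBlocks 1 B 0 1) :
    g ∈ Cfsg.Omega F (Cfsg.quadFormPlus (m + 1) F) := by
  classical
  have hq : Fintype.card F % 2 = 1 := by
    rcases Nat.mod_two_eq_zero_or_one (Fintype.card F) with h0 | h1
    · exfalso
      have hc : ringChar F = 2 := FiniteField.even_card_iff_char_two.2 h0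
      apply h2
      have h3 : ((2 : ℕ) : F) = 0 := by
        rw [ringChar.spec, hc]
      exact_mod_cast h3
    · exact h1
  have hpow : g ^ Fintype.card F = 1 := by
    apply mat_injective
    rw [mat_pow_siegel m g B hg, mat_one, ← Nat.cast_smul_eq_nsmul F,
      FiniteField.cast_card_eq_zero, zero_smul, Matrix.fromBlocks_one]
  have hsq : g = g ^ ((Fintype.card F + 1) / 2) * g ^ ((Fintype.card F + 1) / 2) := by
    rw [← pow_add]
    have e : (Fintype.card F + 1) / 2 + (Fintype.card F + 1) / 2 = Fintype.card F + 1 := by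
      omega
    rw [e, pow_succ, hpow, one_mul]
  rw [hsq]
  exact Cfsg.Agent.H49.sq_mem_commutator
    (Cfsg.Agent.H49.reflSet (Cfsg.Agent.H49.QP (m + 1) F))
    (Cfsg.Agent.H49.reflSet_invol (Cfsg.Agent.H49.QP (m + 1) F))
    (Cfsg.Agent.H49.closure_reflSet_eq_top (Cfsg.Agent.H49.QP (m + 1) F) h2
      (Cfsg.Agent.H49.QP_nondeg (m + 1) F)) _


/-- Odd characteristic: unitriangular isometries lie in `Ω`. -/
theorem uni_mem_odd [Fintype F] (h2 : (2 : F) ≠ 0) (m : ℕ) (g : OG m F) (hg : IsUniO g) :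
    g ∈ Cfsg.Omega F (Cfsg.quadFormPlus (m + 1) F) := by
  classical
  obtain ⟨hC, hA1, hA2, hD1, hD2⟩ := hg
  obtain ⟨A, hA⟩ : ∃ A : Matrix (Fin (m + 1)) (Fin (m + 1)) F, A = (mat g).toBlocks₁₁ := ⟨_, rfl⟩
  have hAe : ∀ i j, A i j = mat g (Sum.inl i) (Sum.inl j) := by
    intro i j
    rw [hA]
    rfl
  have hdet : A.det = 1 := by
    have hbt : A.BlockTriangular id := by
      intro i j hij
      rw [hAe]
      exact hA1 i j hij
    rw [Matrix.det_of_isUpperTriangular hbt]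
    apply Finset.prod_eq_one
    intro i _
    rw [hAe]
    exact hA2 i
  obtain ⟨Ag, hAg⟩ : ∃ Ag : GL (Fin (m + 1)) F, (Ag : Matrix (Fin (m + 1)) (Fin (m + 1)) F) = A :=
    ⟨Matrix.GeneralLinearGroup.mkOfDetNeZero A (by rw [hdet]; exact one_ne_zero), rfl⟩
  obtain ⟨l, hl⟩ : ∃ l : OG m F, l = Cfsg.Agent.H49.leviO (m + 1) F Ag := ⟨_, rfl⟩
  have hlmem : l ∈ Cfsg.Omega F (Cfsg.quadFormPlus (m + 1) F) := by
    rw [hl]
    exact (Cfsg.Agent.H49.leviO_mem_commutator_iff_odd (m + 1) F h2 Ag).2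
      ⟨1, by rw [hAg, hdet, one_mul]⟩
  obtain ⟨Bm, hBm⟩ : ∃ Bm : Matrix (Fin (m + 1)) (Fin (m + 1)) F, Bm = (mat g).toBlocks₁₂ :=
    ⟨_, rfl⟩
  obtain ⟨Dm, hDm⟩ : ∃ Dm : Matrix (Fin (m + 1)) (Fin (m + 1)) F, Dm = (mat g).toBlocks₂₂ :=
    ⟨_, rfl⟩
  have hmatg : mat g = fromBlocks A Bm 0 Dm := by
    conv_lhs => rw [← Matrix.fromBlocks_toBlocks (mat g)]
    rw [hA, hBm, hDm]
    congr 1
    ext i j
    exact hC i j
  have hlinv : l⁻¹ = Cfsg.Agent.H49.leviO (m + 1) F Ag⁻¹ := by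
    rw [hl]
    exact (map_inv (Cfsg.Agent.H49.leviO (m + 1) F) Ag).symm
  have hmatl : mat l⁻¹ = fromBlocks ((Ag⁻¹ : GL (Fin (m + 1)) F) :
      Matrix (Fin (m + 1)) (Fin (m + 1)) F) 0 0 Aᵀ := by
    rw [hlinv]
    have h := Cfsg.Agent.H49.leviO_coe (m + 1) F Ag⁻¹
    rw [inv_inv, hAg] at h
    exact h
  have hinvA : ((Ag⁻¹ : GL (Fin (m + 1)) F) : Matrix (Fin (m + 1)) (Fin (m + 1)) F) * A = 1 := by
    rw [← hAg, ← Units.val_mul, inv_mul_cancel]
    rfl
  have hg' : mat (l⁻¹ * g) = fromBlocks 1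
      (((Ag⁻¹ : GL (Fin (m + 1)) F) : Matrix (Fin (m + 1)) (Fin (m + 1)) F) * Bm)
      0 (Aᵀ * Dm) := by
    rw [mat_mul, hmatl, hmatg, Matrix.fromBlocks_multiply]
    simp only [Matrix.mul_zero, Matrix.zero_mul, add_zero, zero_add, hinvA]
  have hD := d_eq_one m (l⁻¹ * g) _ _ hg'
  rw [hD] at hg'
  have h3 := siegel_mem_odd h2 m (l⁻¹ * g) _ hg'
  have e : g = l * (l⁻¹ * g) := by group
  rw [e]
  exact mul_mem hlmem h3

/-- `S2548-OMEGA`, first part: unitriangular isometries lie in `Ω`. -/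
theorem oplus_uni_mem_omega [Fintype F] (m : ℕ) (hm : 1 ≤ m) (h : Fintype.card F ≠ 2 ∨ m ≠ 1)
    (g : OG m F) (hg : IsUniO g) : g ∈ Cfsg.Omega F (Cfsg.quadFormPlus (m + 1) F) := by
  by_cases h2 : (2 : F) = 0
  · exact uni_mem_two h2 m (h.imp id (fun h' => by omega)) g hg.1
  · exact uni_mem_odd h2 m g hg


/-- The total flip `e_i ↔ f_i`. -/
theorem exists_total_flip (m : ℕ) : ∃ ρ : OG m F,
    mat ρ = fromBlocks (0 : Matrix (Fin (m + 1)) (Fin (m + 1)) F) (1 : Matrix (Fin (m + 1)) (Fin (m + 1)) F) (1 : Matrix (Fin (m + 1)) (Fin (m + 1)) F) (0 : Matrix (Fin (m + 1)) (Fin (m + 1)) F) := by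
  have hJ : (fromBlocks (0 : Matrix (Fin (m + 1)) (Fin (m + 1)) F) (1 : Matrix (Fin (m + 1)) (Fin (m + 1)) F) (1 : Matrix (Fin (m + 1)) (Fin (m + 1)) F) (0 : Matrix (Fin (m + 1)) (Fin (m + 1)) F)) *
      fromBlocks (0 : Matrix (Fin (m + 1)) (Fin (m + 1)) F) (1 : Matrix (Fin (m + 1)) (Fin (m + 1)) F) (1 : Matrix (Fin (m + 1)) (Fin (m + 1)) F) (0 : Matrix (Fin (m + 1)) (Fin (m + 1)) F) = 1 := by
    rw [Matrix.fromBlocks_multiply]
    simp only [Matrix.mul_zero, Matrix.zero_mul, Matrix.mul_one, add_zero, zero_add]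
    exact Matrix.fromBlocks_one
  refine ⟨⟨⟨fromBlocks (0 : Matrix (Fin (m + 1)) (Fin (m + 1)) F) (1 : Matrix (Fin (m + 1)) (Fin (m + 1)) F) (1 : Matrix (Fin (m + 1)) (Fin (m + 1)) F) (0 : Matrix (Fin (m + 1)) (Fin (m + 1)) F),
    fromBlocks (0 : Matrix (Fin (m + 1)) (Fin (m + 1)) F) (1 : Matrix (Fin (m + 1)) (Fin (m + 1)) F) (1 : Matrix (Fin (m + 1)) (Fin (m + 1)) F) (0 : Matrix (Fin (m + 1)) (Fin (m + 1)) F), hJ, hJ⟩, ?_⟩, rfl⟩
  rw [Cfsg.Agent.H49.mem_isometryGroup_iff]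
  intro u
  show Cfsg.quadFormPlus (m + 1) F
    (fromBlocks (0 : Matrix (Fin (m + 1)) (Fin (m + 1)) F) (1 : Matrix (Fin (m + 1)) (Fin (m + 1)) F) (1 : Matrix (Fin (m + 1)) (Fin (m + 1)) F) (0 : Matrix (Fin (m + 1)) (Fin (m + 1)) F) *ᵥ u) =
      Cfsg.quadFormPlus (m + 1) F u
  unfold Cfsg.quadFormPlus
  apply Finset.sum_congr rfl
  intro i _
  have e1 : (fromBlocks (0 : Matrix (Fin (m + 1)) (Fin (m + 1)) F) (1 : Matrix (Fin (m + 1)) (Fin (m + 1)) F) (1 : Matrix (Fin (m + 1)) (Fin (m + 1)) F) (0 : Matrix (Fin (m + 1)) (Fin (m + 1)) F) *ᵥ u) (Sum.inl i) =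
      u (Sum.inr i) := by
    rw [Matrix.mulVec, dotProduct, Fintype.sum_sum_type]
    simp [Matrix.one_apply]
  have e2 : (fromBlocks (0 : Matrix (Fin (m + 1)) (Fin (m + 1)) F) (1 : Matrix (Fin (m + 1)) (Fin (m + 1)) F) (1 : Matrix (Fin (m + 1)) (Fin (m + 1)) F) (0 : Matrix (Fin (m + 1)) (Fin (m + 1)) F) *ᵥ u) (Sum.inr i) =
      u (Sum.inl i) := by
    rw [Matrix.mulVec, dotProduct, Fintype.sum_sum_type]
    simp [Matrix.one_apply]
  rw [e1, e2, mul_comm]

/-- Conjugation by the total flip swaps the blocks. -/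
theorem flip_conj (m : ℕ) (ρ : OG m F)
    (hρ : mat ρ = fromBlocks (0 : Matrix (Fin (m + 1)) (Fin (m + 1)) F) (1 : Matrix (Fin (m + 1)) (Fin (m + 1)) F) (1 : Matrix (Fin (m + 1)) (Fin (m + 1)) F) (0 : Matrix (Fin (m + 1)) (Fin (m + 1)) F)) (g : OG m F)
    (A B C D : Matrix (Fin (m + 1)) (Fin (m + 1)) F) (hg : mat g = fromBlocks A B C D) :
    mat (ρ * g * ρ⁻¹) = fromBlocks D C B A := by
  have hinv : ρ⁻¹ = ρ := by
    apply inv_eq_of_mul_eq_one_left
    apply mat_injective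
    rw [mat_mul, hρ, mat_one, Matrix.fromBlocks_multiply]
    simp only [Matrix.mul_zero, Matrix.zero_mul, Matrix.mul_one, add_zero, zero_add]
    exact Matrix.fromBlocks_one
  rw [hinv, mat_mul, mat_mul, hρ, hg, Matrix.fromBlocks_multiply, Matrix.fromBlocks_multiply]
  simp only [Matrix.mul_zero, Matrix.zero_mul, Matrix.mul_one, Matrix.one_mul, add_zero, zero_add]

/-- Membership in `Ω` can be tested after conjugation. -/
theorem mem_of_conj_mem (m : ℕ) (ρ g : OG m F)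
    (h : ρ * g * ρ⁻¹ ∈ Cfsg.Omega F (Cfsg.quadFormPlus (m + 1) F)) :
    g ∈ Cfsg.Omega F (Cfsg.quadFormPlus (m + 1) F) := by
  have h' := (inferInstance : (commutator (OG m F)).Normal).conj_mem _ h ρ⁻¹
  have e : ρ⁻¹ * (ρ * g * ρ⁻¹) * ρ⁻¹⁻¹ = g := by group
  rw [e] at h'
  exact h'

/-- Upper Levi transvections are unitriangular. -/
theorem uni_tv (m : ℕ) (g : OG m F) (i j : Fin (m + 1)) (hij : i < j) (t : F)
    (hg : mat g = fromBlocks (transvection i j t) 0 0 (transvection j i (-t))) : IsUniO g := by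
  refine ⟨?_, ?_, ?_, ?_, ?_⟩
  · intro a b
    rw [hg]
    rfl
  · intro a b hba
    rw [hg, Matrix.fromBlocks_apply₁₁, Matrix.transvection, Matrix.add_apply,
      Matrix.one_apply_ne (ne_of_gt hba), Matrix.single_apply, if_neg, add_zero]
    rintro ⟨rfl, rfl⟩
    exact absurd hij (not_lt.2 hba.le)
  · intro a
    rw [hg, Matrix.fromBlocks_apply₁₁, Matrix.transvection, Matrix.add_apply,
      Matrix.one_apply_eq, Matrix.single_apply, if_neg, add_zero]
    rintro ⟨rfl, rfl⟩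
    exact absurd hij (lt_irrefl _)
  · intro a b hab
    rw [hg, Matrix.fromBlocks_apply₂₂, Matrix.transvection, Matrix.add_apply,
      Matrix.one_apply_ne (ne_of_lt hab), Matrix.single_apply, if_neg, add_zero]
    rintro ⟨rfl, rfl⟩
    exact absurd hij (not_lt.2 hab.le)
  · intro a
    rw [hg, Matrix.fromBlocks_apply₂₂, Matrix.transvection, Matrix.add_apply,
      Matrix.one_apply_eq, Matrix.single_apply, if_neg, add_zero]
    rintro ⟨rfl, rfl⟩
    exact absurd hij (lt_irrefl _)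

/-- Upper Siegel elements are unitriangular. -/
theorem uni_siegel (m : ℕ) (g : OG m F) (S : Matrix (Fin (m + 1)) (Fin (m + 1)) F)
    (hg : mat g = fromBlocks 1 S 0 1) : IsUniO g := by
  refine ⟨?_, ?_, ?_, ?_, ?_⟩
  · intro a b
    rw [hg]
    rfl
  · intro a b hba
    rw [hg, Matrix.fromBlocks_apply₁₁, Matrix.one_apply_ne (ne_of_gt hba)]
  · intro a
    rw [hg, Matrix.fromBlocks_apply₁₁, Matrix.one_apply_eq]
  · intro a b hab
    rw [hg, Matrix.fromBlocks_apply₂₂, Matrix.one_apply_ne (ne_of_lt hab)]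
  · intro a
    rw [hg, Matrix.fromBlocks_apply₂₂, Matrix.one_apply_eq]

/-- `S2548-OMEGA`, second part: the root elements lie in `Ω`. -/
theorem oplus_root_mem_omega [Fintype F] (m : ℕ) (hm : 1 ≤ m) (h : Fintype.card F ≠ 2 ∨ m ≠ 1)
    (g : OG m F) :
    ((∃ (i j : Fin (m + 1)) (t : F), i ≠ j ∧
        mat g = fromBlocks (transvection i j t) 0 0 (transvection j i (-t))) ∨
      (∃ S : Matrix (Fin (m + 1)) (Fin (m + 1)) F, IsAlt S ∧ mat g = fromBlocks 1 S 0 1) ∨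
      (∃ S : Matrix (Fin (m + 1)) (Fin (m + 1)) F, IsAlt S ∧ mat g = fromBlocks 1 0 S 1)) →
    g ∈ Cfsg.Omega F (Cfsg.quadFormPlus (m + 1) F) := by
  obtain ⟨ρ, hρ⟩ := exists_total_flip (F := F) m
  rintro (⟨i, j, t, hij, hg⟩ | ⟨S, -, hg⟩ | ⟨S, -, hg⟩)
  · rcases lt_or_gt_of_ne hij with hlt | hgt
    · exact oplus_uni_mem_omega m hm h g (uni_tv m g i j hlt t hg)
    · apply mem_of_conj_mem m ρ g
      apply oplus_uni_mem_omega m hm h
      have h1 := flip_conj m ρ hρ g _ _ _ _ hg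
      apply uni_tv m _ j i hgt (-t)
      rw [h1, neg_neg]
  · exact oplus_uni_mem_omega m hm h g (uni_siegel m g S hg)
  · apply mem_of_conj_mem m ρ g
    apply oplus_uni_mem_omega m hm h
    exact uni_siegel m _ S (flip_conj m ρ hρ g _ _ _ _ hg)

end Cfsg.Agent.H12.StOP
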