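import Mathlib
import Cfsg.Agent.H97.SuLDefs

/-!
# S2334 / S2335 (team project, helper97): piece SuL-AMOVE — the commutator of two Heisenberg
elements, `E(e,a,c) E(e,b,d) = E(e,b,d) E(e,a,c) E(e,0,h(a,b)-h(b,a))`.
-/

set_option autoImplicit false

namespace Cfsg.Agent.H12.SuL

open Module Cfsg.Agent.H17 Cfsg.Agent.H97.SuL

universe u

theorem aMove : StAMove.{u} := by
  intro F _ _ q n hF e a b c d g g' z hee hae hbe hg hg' hz
  have hq : q ≠ 0 := by
    have := two_le_of_card_sq hF
    omega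
  have hea : Cfsg.hermForm n F q e a = 0 := by
    rw [← hermForm_conj n hF, hae, zero_pow hq]
  have heb : Cfsg.hermForm n F q e b = 0 := by
    rw [← hermForm_conj n hF, hbe, zero_pow hq]
  apply su_ext
  intro v
  rw [suAct_mul, suAct_mul, suAct_mul, hg' v, hz v, hg _, hg _, hg' _]
  simp only [hermForm_add_left n, hermForm_smul_left n, hermForm_add_right n hF,
    hermForm_zero_right n hF, hermForm_zero_left n, hee, hae, hbe, hea, heb]
  ext i
  simp only [Pi.add_apply, Pi.smul_apply, smul_eq_mul, Pi.zero_apply]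
  ring

example : StAMove.{u} =
    (∀ {F : Type u} [Field F] [Fintype F] {q n : ℕ}, Fintype.card F = q ^ 2 →
    ∀ (e a b : Fin n → F) (c d : F) (g g' z : ↥(Cfsg.SU n F q)),
      Cfsg.hermForm n F q e e = 0 → Cfsg.hermForm n F q a e = 0 → Cfsg.hermForm n F q b e = 0 →
      IsE e a c g → IsE e b d g' →
      IsE e 0 (Cfsg.hermForm n F q a b - Cfsg.hermForm n F q b a) z → g * g' = g' * g * z) :=
  rfl

end Cfsg.Agent.H12.SuL
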