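import Mathlib
import Cfsg.Agent.H97.SuLDefs

/-!
# S2334 / S2335 (team project, helper97): piece SuL-ECONJ — conjugation of Eichler elements,
`t E(e,a,c) t⁻¹ = E(t e, t a, c)`.
-/

set_option autoImplicit false

namespace Cfsg.Agent.H12.SuL

open Module Cfsg.Agent.H17 Cfsg.Agent.H97.SuL

universe u

theorem eConj : StEConj.{u} := by
  intro F _ _ q n hF t g e a c hg
  intro z
  have key : ∀ y : Fin n → F, Cfsg.hermForm n F q (suAct t⁻¹ z) y =
      Cfsg.hermForm n F q z (suAct t y) := by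
    intro y
    rw [← suAct_herm t (suAct t⁻¹ z) y, suAct_apply_inv]
  rw [suAct_mul, suAct_mul, hg _]
  simp only [suAct_add, suAct_smul, suAct_apply_inv, key]

example : StEConj.{u} =
    (∀ {F : Type u} [Field F] [Fintype F] {q n : ℕ}, Fintype.card F = q ^ 2 →
    ∀ (t g : ↥(Cfsg.SU n F q)) (e a : Fin n → F) (c : F),
      IsE e a c g → IsE (suAct t e) (suAct t a) c (t * g * t⁻¹)) :=
  rfl

end Cfsg.Agent.H12.SuL
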