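import Mathlib
import Cfsg.Agent.H97.SuLDefs

/-!
# S2334 / S2335 (team project, helper97): piece SuL-EMUL — the Heisenberg law
`E(e,a,c) * E(e,b,d) = E(e, a+b, c+d-h(b,a))`.
-/

set_option autoImplicit false

namespace Cfsg.Agent.H12.SuL

open Module Cfsg.Agent.H17 Cfsg.Agent.H97.SuL

universe u

theorem eMul : StEMul.{u} := by
  intro F _ _ q n hF e a b c d g g' hee hae hbe hg hg'
  have hq : q ≠ 0 := by
    have := two_le_of_card_sq hF
    omega
  have hea : Cfsg.hermForm n F q e a = 0 := by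
    rw [← hermForm_conj n hF, hae, zero_pow hq]
  intro z
  rw [suAct_mul, hg' z, hg _]
  simp only [hermForm_add_left n, hermForm_smul_left n, hermForm_add_right n hF, hee, hae, hbe,
    hea]
  ext i
  simp only [Pi.add_apply, Pi.smul_apply, smul_eq_mul]
  ring

example : StEMul.{u} =
    (∀ {F : Type u} [Field F] [Fintype F] {q n : ℕ}, Fintype.card F = q ^ 2 →
    ∀ (e a b : Fin n → F) (c d : F) (g g' : ↥(Cfsg.SU n F q)),
      Cfsg.hermForm n F q e e = 0 → Cfsg.hermForm n F q a e = 0 → Cfsg.hermForm n F q b e = 0 →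
      IsE e a c g → IsE e b d g' → IsE e (a + b) (c + d - Cfsg.hermForm n F q b a) (g * g')) :=
  rfl

end Cfsg.Agent.H12.SuL
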