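import Mathlib
import Cfsg.Agent.H97.SuLDefs

/-!
# S2334 / S2335 (team project, helper97): piece SuL-ESCAL — rescaling the isotropic vector of a
root element, `E(s • e, 0, c) = E(e, 0, N(s) c)`.
-/

set_option autoImplicit false

namespace Cfsg.Agent.H12.SuL

open Module Cfsg.Agent.H17 Cfsg.Agent.H97.SuL

universe u

theorem eScal : StEScal.{u} := by
  intro F _ _ q n hF s e c g hg
  intro z
  rw [hg z]
  simp only [hermForm_smul_right n, hermForm_zero_right n hF]
  ext i
  simp only [Pi.add_apply, Pi.smul_apply, smul_eq_mul, Pi.zero_apply]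
  ring

example : StEScal.{u} =
    (∀ {F : Type u} [Field F] [Fintype F] {q n : ℕ}, Fintype.card F = q ^ 2 →
    ∀ (s : F) (e : Fin n → F) (c : F) (g : ↥(Cfsg.SU n F q)),
      IsE (s • e) 0 c g → IsE e 0 (s ^ (q + 1) * c) g) :=
  rfl

end Cfsg.Agent.H12.SuL
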