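import Mathlib
import Cfsg.Agent.Lib.Lead.SylAlt.Defs

set_option autoImplicit false
set_option linter.unusedSectionVars false

/-! helper12: piece S2221-ABS1 of lead's S2221 team project — a finite 2-group with a unique
non-trivial central element is not an internal direct product of two non-trivial subgroups. -/

namespace Cfsg.Agent.H12.SylAlt

open Equiv Cfsg.Agent.Lib.Lead.SylAlt

variable {α : Type*} [Fintype α] [DecidableEq α]

/-- A non-trivial subgroup of a finite 2-group has a non-trivial element central in it. -/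
theorem exists_central_ne_one {G : Type*} [Group G] [Finite G] (S : Subgroup G)
    (hS : IsPGroup 2 S) (h : S ≠ ⊥) : ∃ z ∈ S, z ≠ 1 ∧ ∀ s ∈ S, s * z = z * s := by
  have : Fact (Nat.Prime 2) := ⟨Nat.prime_two⟩
  have : Nontrivial S := (Subgroup.nontrivial_iff_ne_bot S).2 h
  have := hS.center_nontrivial
  obtain ⟨z, hz⟩ := exists_ne (1 : Subgroup.center S)
  refine ⟨((z : S) : G), (z : S).2, ?_, ?_⟩
  · intro h1
    apply hz
    apply Subtype.ext
    apply Subtype.ext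
    exact h1
  · intro s hs
    have hc := Subgroup.mem_center_iff.1 z.2 ⟨s, hs⟩
    exact congrArg (fun t : S => (t : G)) hc

/-- **S2221-ABS1.** -/
theorem abs1 {G : Type*} [Group G] [Finite G] (Q : Subgroup G) (hQ : IsPGroup 2 Q)
    (huniq : ∀ c c' : G, c ∈ Q → c' ∈ Q → c ≠ 1 → c' ≠ 1 → (∀ g ∈ Q, g * c = c * g) →
      (∀ g ∈ Q, g * c' = c' * g) → c = c')
    (S₁ S₂ : Subgroup G) (h₁ : S₁ ≠ ⊥) (h₂ : S₂ ≠ ⊥)
    (hS : Cfsg.IsInternalDirectProduct S₁ S₂ Q) : False := by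
  obtain ⟨hle₁, hle₂, hcomm, hinf, hsup⟩ := hS
  obtain ⟨z₁, hz₁, hz₁1, hz₁c⟩ := exists_central_ne_one S₁ (hQ.to_le hle₁) h₁
  obtain ⟨z₂, hz₂, hz₂1, hz₂c⟩ := exists_central_ne_one S₂ (hQ.to_le hle₂) h₂
  have hc₁ : ∀ g ∈ Q, g * z₁ = z₁ * g := by
    intro g hg
    have hle : S₁ ⊔ S₂ ≤ Subgroup.centralizer {z₁} := by
      apply sup_le
      · intro s hs
        rw [Subgroup.mem_centralizer_iff]
        intro h hh
        rw [Set.mem_singleton_iff] at hh
        rw [hh]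
        exact (hz₁c s hs).symm
      · intro s hs
        rw [Subgroup.mem_centralizer_iff]
        intro h hh
        rw [Set.mem_singleton_iff] at hh
        rw [hh]
        exact hcomm z₁ hz₁ s hs
    have hg' : g ∈ Subgroup.centralizer {z₁} := hle (hsup ▸ hg)
    rw [Subgroup.mem_centralizer_iff] at hg'
    exact (hg' z₁ rfl).symm
  have hc₂ : ∀ g ∈ Q, g * z₂ = z₂ * g := by
    intro g hg
    have hle : S₁ ⊔ S₂ ≤ Subgroup.centralizer {z₂} := by
      apply sup_le
      · intro s hs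
        rw [Subgroup.mem_centralizer_iff]
        intro h hh
        rw [Set.mem_singleton_iff] at hh
        rw [hh]
        exact (hcomm s hs z₂ hz₂).symm
      · intro s hs
        rw [Subgroup.mem_centralizer_iff]
        intro h hh
        rw [Set.mem_singleton_iff] at hh
        rw [hh]
        exact (hz₂c s hs).symm
    have hg' : g ∈ Subgroup.centralizer {z₂} := hle (hsup ▸ hg)
    rw [Subgroup.mem_centralizer_iff] at hg'
    exact (hg' z₂ rfl).symm
  have heq := huniq z₁ z₂ (hle₁ hz₁) (hle₂ hz₂) hz₁1 hz₂1 hc₁ hc₂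
  have hmem : z₁ ∈ S₁ ⊓ S₂ := ⟨hz₁, heq ▸ hz₂⟩
  rw [hinf, Subgroup.mem_bot] at hmem
  exact hz₁1 hmem

end Cfsg.Agent.H12.SylAlt

section check
open Equiv Cfsg.Agent.Lib.Lead.SylAlt
variable {α : Type*} [Fintype α] [DecidableEq α]
example {G : Type*} [Group G] [Finite G] (Q : Subgroup G) (hQ : IsPGroup 2 Q)
    (huniq : ∀ c c' : G, c ∈ Q → c' ∈ Q → c ≠ 1 → c' ≠ 1 → (∀ g ∈ Q, g * c = c * g) →
      (∀ g ∈ Q, g * c' = c' * g) → c = c')
    (S₁ S₂ : Subgroup G) (h₁ : S₁ ≠ ⊥) (h₂ : S₂ ≠ ⊥)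
    (hS : Cfsg.IsInternalDirectProduct S₁ S₂ Q) : False :=
  Cfsg.Agent.H12.SylAlt.abs1 Q hQ huniq S₁ S₂ h₁ h₂ hS
end check
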