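import Mathlib
import Cfsg.Agent.Lib.Lead.SylAlt.Defs

set_option autoImplicit false
set_option linter.unusedSectionVars false

/-! helper12: piece S2221-NONAB of lead's S2221 team project — the restriction of a Sylow
2-subgroup `T` of `Perm α` to an orbit with at least three points is not commutative. -/

namespace Cfsg.Agent.H12.SylAlt

open Equiv Cfsg.Agent.Lib.Lead.SylAlt

variable {α : Type*} [Fintype α] [DecidableEq α]

/-- **S2221-NONAB.** -/
theorem nonab (T : Subgroup (Perm α)) (hT : IsSyl2 T) (hs : HSplit T) (htr : HTr T) : HNonab T := by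
  intro x hx
  obtain ⟨g₀, hg₀, hg₀x, -⟩ := hx x
  obtain ⟨y, hyx, hswap⟩ := htr x ⟨g₀, hg₀, hg₀x⟩
  have hy : y ∈ orb T x := ⟨swap x y, hswap, swap_apply_left x y⟩
  have ht : swap x y ∈ res T (orb T x) := by
    refine ⟨hswap, fun z hz => ?_⟩
    have hzx : z ≠ x := fun h => hz (h ▸ mem_orb_self T x)
    have hzy : z ≠ y := fun h => hz (h ▸ hy)
    exact swap_apply_of_ne_of_ne hzx hzy
  obtain ⟨g, hg, hgx, hgy⟩ := hx y
  obtain ⟨a, ha, b, hb, hab⟩ := hs (orb T x) (orb_inv T x) g hg
  have hax : a x = g x := by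
    rw [hab, Perm.mul_apply, hb.2 x (fun h => h (mem_orb_self T x))]
  refine ⟨a, ha, swap x y, ht, ?_⟩
  intro h
  have h1 : a (swap x y y) = swap x y (a y) := by
    have := congrArg (fun f : Perm α => f y) h
    simpa [Perm.mul_apply] using this
  rw [swap_apply_right] at h1
  have h2 : swap x y (a x) = a x := by
    rw [hax]
    exact swap_apply_of_ne_of_ne hgx hgy
  have h3 : swap x y (a x) = a y := by
    rw [h1, swap_apply_self]
  rw [h2] at h3
  exact hyx (a.injective h3).symm

end Cfsg.Agent.H12.SylAlt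

section check
open Equiv Cfsg.Agent.Lib.Lead.SylAlt
variable {α : Type*} [Fintype α] [DecidableEq α]
example (T : Subgroup (Perm α)) (hT : IsSyl2 T) (hs : HSplit T) (htr : HTr T) : HNonab T :=
  Cfsg.Agent.H12.SylAlt.nonab T hT hs htr
end check
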