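import Mathlib
import Cfsg.Agent.Lib.Lead.SylAlt.Defs

set_option autoImplicit false
set_option linter.unusedSectionVars false

/-! helper12: piece S2221-SPLIT of lead's S2221 team project — a Sylow 2-subgroup `T` of
`Perm α` contains the `O`-part and the `Oᶜ`-part of each of its elements, for every
`T`-invariant set `O`. -/

namespace Cfsg.Agent.H12.SylAlt

open Equiv Cfsg.Agent.Lib.Lead.SylAlt

variable {α : Type*} [Fintype α] [DecidableEq α]

/-- The "`O`-part" homomorphism of a group of permutations preserving `O`. -/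
theorem exists_part {α : Type*} (T : Subgroup (Perm α)) (O : Set α)
    (hO : ∀ g ∈ T, ∀ x, g x ∈ O ↔ x ∈ O) :
    ∃ ψ : T →* Perm α, ∀ g : T, (∀ x ∈ O, ψ g x = (g : Perm α) x) ∧ (∀ x, x ∉ O → ψ g x = x) := by
  classical
  have key : ∀ g : T, (∀ x ∈ O,
        Perm.ofSubtype (Perm.subtypePerm (p := (· ∈ O)) (g : Perm α) (hO g g.2)) x = (g : Perm α) x) ∧
      (∀ x, x ∉ O →
        Perm.ofSubtype (Perm.subtypePerm (p := (· ∈ O)) (g : Perm α) (hO g g.2)) x = x) := by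
    intro g
    exact ⟨fun x hx => Perm.ofSubtype_subtypePerm_of_mem (p := (· ∈ O)) (hO g g.2) hx,
      fun x hx => Perm.ofSubtype_subtypePerm_of_not_mem (p := (· ∈ O)) (hO g g.2) hx⟩
  refine ⟨{ toFun := fun g => Perm.ofSubtype (Perm.subtypePerm (p := (· ∈ O)) (g : Perm α) (hO g g.2))
            map_one' := ?_
            map_mul' := ?_ }, key⟩
  · ext x
    by_cases hx : x ∈ O
    · rw [(key 1).1 x hx]
      rfl
    · rw [(key 1).2 x hx]
      rfl
  · intro g h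
    ext x
    by_cases hx : x ∈ O
    · rw [(key (g * h)).1 x hx, Perm.mul_apply, (key h).1 x hx,
        (key g).1 _ ((hO h h.2 x).2 hx)]
      rfl
    · rw [(key (g * h)).2 x hx, Perm.mul_apply, (key h).2 x hx, (key g).2 x hx]

/-- **S2221-SPLIT.** -/
theorem split (T : Subgroup (Perm α)) (hT : IsSyl2 T) : HSplit T := by
  intro O hO g hg
  have hiff : ∀ g ∈ T, ∀ x, g x ∈ O ↔ x ∈ O := by
    intro g hg x
    constructor
    · intro h
      have h1 := hO g⁻¹ (T.inv_mem hg) (g x) h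
      simpa using h1
    · exact hO g hg x
  have hiff' : ∀ g ∈ T, ∀ x, g x ∈ Oᶜ ↔ x ∈ Oᶜ := fun g hg x => not_congr (hiff g hg x)
  obtain ⟨ψ, hψ⟩ := exists_part T O hiff
  obtain ⟨ψ', hψ'⟩ := exists_part T Oᶜ hiff'
  have hA : IsPGroup 2 ψ.range := hT.1.of_surjective ψ.rangeRestrict ψ.rangeRestrict_surjective
  have hB : IsPGroup 2 ψ'.range := hT.1.of_surjective ψ'.rangeRestrict ψ'.rangeRestrict_surjective
  have hcomm : ∀ a ∈ ψ.range, ∀ b ∈ ψ'.range, a * b = b * a := by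
    rintro _ ⟨g₁, rfl⟩ _ ⟨g₂, rfl⟩
    have hd : Perm.Disjoint (ψ g₁) (ψ' g₂) := by
      intro x
      by_cases hx : x ∈ O
      · right
        exact (hψ' g₂).2 x (fun h => h hx)
      · left
        exact (hψ g₁).2 x hx
    exact hd.commute.eq
  have hnorm : ψ.range ≤ Subgroup.normalizer (ψ'.range : Set (Perm α)) := by
    intro a ha
    rw [Subgroup.mem_normalizer_iff]
    intro b
    constructor
    · intro hb
      have e : a * b * a⁻¹ = b := by rw [hcomm a ha b hb, mul_inv_cancel_right]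
      rw [e]
      exact hb
    · intro hb
      have e : a * (a * b * a⁻¹) = (a * b * a⁻¹) * a := hcomm a ha _ hb
      have e2 : b = a * b * a⁻¹ := by
        have e3 : a * (a * b * a⁻¹) = a * b := by rw [e]; group
        exact (mul_left_cancel e3).symm
      rw [e2]
      exact hb
  have hAB : IsPGroup 2 (ψ.range ⊔ ψ'.range : Subgroup (Perm α)) :=
    IsPGroup.to_sup_of_normal_right' hA hB hnorm
  have hdecomp : ∀ (k : Perm α) (hk : k ∈ T), k = ψ ⟨k, hk⟩ * ψ' ⟨k, hk⟩ := by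
    intro k hk
    ext x
    rw [Perm.mul_apply]
    by_cases hx : x ∈ O
    · rw [(hψ' ⟨k, hk⟩).2 x (fun h => h hx), (hψ ⟨k, hk⟩).1 x hx]
    · rw [(hψ' ⟨k, hk⟩).1 x hx, (hψ ⟨k, hk⟩).2 _ (fun h => hx ((hiff k hk x).1 h))]
  have hle : T ≤ ψ.range ⊔ ψ'.range := by
    intro k hk
    rw [hdecomp k hk]
    exact Subgroup.mul_mem _ (Subgroup.mem_sup_left ⟨_, rfl⟩) (Subgroup.mem_sup_right ⟨_, rfl⟩)
  have heq := hT.2 _ hAB hle
  have hmem : ψ ⟨g, hg⟩ ∈ T := heq.le (Subgroup.mem_sup_left ⟨_, rfl⟩)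
  have hmem' : ψ' ⟨g, hg⟩ ∈ T := heq.le (Subgroup.mem_sup_right ⟨_, rfl⟩)
  exact ⟨ψ ⟨g, hg⟩, ⟨hmem, fun x hx => (hψ ⟨g, hg⟩).2 x hx⟩, ψ' ⟨g, hg⟩,
    ⟨hmem', fun x hx => (hψ' ⟨g, hg⟩).2 x hx⟩, hdecomp g hg⟩

end Cfsg.Agent.H12.SylAlt

section check
open Equiv Cfsg.Agent.Lib.Lead.SylAlt
variable {α : Type*} [Fintype α] [DecidableEq α]
example (T : Subgroup (Perm α)) (hT : IsSyl2 T) : HSplit T :=
  Cfsg.Agent.H12.SylAlt.split T hT
end check
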