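import Mathlib
import Cfsg.Agent.H72.ZasDefs

/-!
# S0690-EMB (piece for helper72): norm-one elements of a commutative-coefficient quaternion span
generate a group which maps to `SL₂` of a finite field without eigenvalue 1.
-/

set_option autoImplicit false

namespace Cfsg.Agent.H12.Zas

open Cfsg.Agent.H72.Zas

open Quaternion

universe u

section quat

variable {E : Type*} [Ring E]

/-- product of two quaternion forms; only the coefficients of the left factor have to commute with
`t` and `s`. -/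
theorem quat_mul (t s : E) (ht : t * t = -1) (hs : s * s = -1) (hst : s * t = -(t * s))
    (a₀ a₁ a₂ a₃ b₀ b₁ b₂ b₃ : E)
    (h0t : a₀ * t = t * a₀) (h0s : a₀ * s = s * a₀) (h1t : a₁ * t = t * a₁)
    (h1s : a₁ * s = s * a₁) (h2t : a₂ * t = t * a₂) (h2s : a₂ * s = s * a₂)
    (h3t : a₃ * t = t * a₃) (h3s : a₃ * s = s * a₃) :
    (a₀ + t * a₁ + s * a₂ + t * s * a₃) * (b₀ + t * b₁ + s * b₂ + t * s * b₃) =
      (a₀ * b₀ - a₁ * b₁ - a₂ * b₂ - a₃ * b₃) + t * (a₀ * b₁ + a₁ * b₀ + a₂ * b₃ - a₃ * b₂) +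
      s * (a₀ * b₂ - a₁ * b₃ + a₂ * b₀ + a₃ * b₁) +
      t * s * (a₀ * b₃ + a₁ * b₂ - a₂ * b₁ + a₃ * b₀) := by
  have tt : ∀ x : E, t * (t * x) = -x := fun x => by rw [← mul_assoc, ht, neg_one_mul]
  have ss : ∀ x : E, s * (s * x) = -x := fun x => by rw [← mul_assoc, hs, neg_one_mul]
  have st : ∀ x : E, s * (t * x) = -(t * (s * x)) := fun x => by
    rw [← mul_assoc, hst, neg_mul, mul_assoc]
  have c0t : ∀ x : E, a₀ * (t * x) = t * (a₀ * x) := fun x => by
    rw [← mul_assoc, h0t, mul_assoc]
  have c0s : ∀ x : E, a₀ * (s * x) = s * (a₀ * x) := fun x => by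
    rw [← mul_assoc, h0s, mul_assoc]
  have c1t : ∀ x : E, a₁ * (t * x) = t * (a₁ * x) := fun x => by
    rw [← mul_assoc, h1t, mul_assoc]
  have c1s : ∀ x : E, a₁ * (s * x) = s * (a₁ * x) := fun x => by
    rw [← mul_assoc, h1s, mul_assoc]
  have c2t : ∀ x : E, a₂ * (t * x) = t * (a₂ * x) := fun x => by
    rw [← mul_assoc, h2t, mul_assoc]
  have c2s : ∀ x : E, a₂ * (s * x) = s * (a₂ * x) := fun x => by
    rw [← mul_assoc, h2s, mul_assoc]
  have c3t : ∀ x : E, a₃ * (t * x) = t * (a₃ * x) := fun x => by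
    rw [← mul_assoc, h3t, mul_assoc]
  have c3s : ∀ x : E, a₃ * (s * x) = s * (a₃ * x) := fun x => by
    rw [← mul_assoc, h3s, mul_assoc]
  simp only [mul_add, add_mul, mul_sub, mul_assoc, c0t, c0s, c1t, c1s, c2t, c2s, c3t, c3s, tt, ss,
    st, mul_neg, neg_neg]
  abel

variable {C : Type*} [CommRing C]

/-- the quaternion span embedding. -/
def emb (f : C →+* E) (t s : E) (p : Quaternion C) : E :=
  f p.re + t * f p.imI + s * f p.imJ + t * s * f p.imK

/-- the sum of the four squares. -/
def nrm (p : Quaternion C) : C :=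
  p.re * p.re + p.imI * p.imI + p.imJ * p.imJ + p.imK * p.imK

theorem nrm_mul (p q : Quaternion C) : nrm (p * q) = nrm p * nrm q := by
  simp only [nrm, Quaternion.re_mul, Quaternion.imI_mul, Quaternion.imJ_mul, Quaternion.imK_mul]
  ring

theorem nrm_star (p : Quaternion C) : nrm (star p) = nrm p := by
  simp [nrm]

theorem nrm_one : nrm (1 : Quaternion C) = 1 := by
  simp [nrm]

theorem mul_star_eq (p : Quaternion C) : p * star p = ((nrm p : C) : Quaternion C) := by
  ext <;> simp [nrm] <;> ring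

theorem emb_add (f : C →+* E) (t s : E) (p q : Quaternion C) :
    emb f t s (p + q) = emb f t s p + emb f t s q := by
  simp only [emb, Quaternion.re_add, Quaternion.imI_add, Quaternion.imJ_add, Quaternion.imK_add,
    map_add, mul_add]
  abel

theorem emb_neg (f : C →+* E) (t s : E) (p : Quaternion C) :
    emb f t s (-p) = -emb f t s p := by
  simp only [emb, Quaternion.re_neg, Quaternion.imI_neg, Quaternion.imJ_neg, Quaternion.imK_neg,
    map_neg, mul_neg]
  abel

theorem emb_sub (f : C →+* E) (t s : E) (p q : Quaternion C) :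
    emb f t s (p - q) = emb f t s p - emb f t s q := by
  rw [sub_eq_add_neg, emb_add, emb_neg, ← sub_eq_add_neg]

theorem emb_coe (f : C →+* E) (t s : E) (c : C) : emb f t s (c : Quaternion C) = f c := by
  simp [emb]

theorem emb_one (f : C →+* E) (t s : E) : emb f t s 1 = 1 := by
  simp [emb]

theorem emb_mul (f : C →+* E) (t s : E) (ht : t * t = -1) (hs : s * s = -1)
    (hst : s * t = -(t * s)) (hft : ∀ c, f c * t = t * f c) (hfs : ∀ c, f c * s = s * f c)
    (p q : Quaternion C) : emb f t s (p * q) = emb f t s p * emb f t s q := by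
  unfold emb
  rw [quat_mul t s ht hs hst _ _ _ _ _ _ _ _ (hft _) (hfs _) (hft _) (hfs _) (hft _) (hfs _)
    (hft _) (hfs _)]
  simp only [Quaternion.re_mul, Quaternion.imI_mul, Quaternion.imJ_mul, Quaternion.imK_mul,
    map_add, map_sub, map_mul]

/-- the quaternion units. -/
def qI : Quaternion C := QuaternionAlgebra.mk 0 1 0 0
/-- the quaternion units. -/
def qJ : Quaternion C := QuaternionAlgebra.mk 0 0 1 0
/-- the quaternion units. -/
def qK : Quaternion C := QuaternionAlgebra.mk 0 0 0 1
@[simp] theorem qI_re : (qI : Quaternion C).re = 0 := rfl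
@[simp] theorem qI_imI : (qI : Quaternion C).imI = 1 := rfl
@[simp] theorem qI_imJ : (qI : Quaternion C).imJ = 0 := rfl
@[simp] theorem qI_imK : (qI : Quaternion C).imK = 0 := rfl
@[simp] theorem qJ_re : (qJ : Quaternion C).re = 0 := rfl
@[simp] theorem qJ_imI : (qJ : Quaternion C).imI = 0 := rfl
@[simp] theorem qJ_imJ : (qJ : Quaternion C).imJ = 1 := rfl
@[simp] theorem qJ_imK : (qJ : Quaternion C).imK = 0 := rfl
@[simp] theorem qK_re : (qK : Quaternion C).re = 0 := rfl
@[simp] theorem qK_imI : (qK : Quaternion C).imI = 0 := rfl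
@[simp] theorem qK_imJ : (qK : Quaternion C).imJ = 0 := rfl
@[simp] theorem qK_imK : (qK : Quaternion C).imK = 1 := rfl

/-- `emb` kills only quaternions with zero real part. -/
theorem emb_re_zero (f : C →+* E) (hf : Function.Injective f) (t s : E) (ht : t * t = -1)
    (hs : s * s = -1) (hst : s * t = -(t * s)) (h2 : IsUnit (2 : E))
    (hft : ∀ c, f c * t = t * f c) (hfs : ∀ c, f c * s = s * f c)
    (p : Quaternion C) (h : emb f t s p = 0) : p.re = 0 := by
  have hm := emb_mul f t s ht hs hst hft hfs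
  have e : p - qI * p * qI - qJ * p * qJ - qK * p * qK = ((4 * p.re : C) : Quaternion C) := by
    ext <;> simp <;> ring
  have h0 : emb f t s (p - qI * p * qI - qJ * p * qJ - qK * p * qK) = 0 := by
    rw [emb_sub, emb_sub, emb_sub, hm, hm, hm, hm, hm, hm, h]
    simp
  rw [e, emb_coe, map_mul] at h0
  have h4 : IsUnit (f 4) := by
    have : (f 4 : E) = 2 * 2 := by
      rw [show (4 : C) = 2 * 2 by norm_num, map_mul, map_ofNat]
    rw [this]; exact h2.mul h2
  have := h4.mul_right_eq_zero.mp h0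
  exact hf (by rw [this, map_zero])

theorem emb_injective (f : C →+* E) (hf : Function.Injective f) (t s : E) (ht : t * t = -1)
    (hs : s * s = -1) (hst : s * t = -(t * s)) (h2 : IsUnit (2 : E))
    (hft : ∀ c, f c * t = t * f c) (hfs : ∀ c, f c * s = s * f c) :
    Function.Injective (emb f t s) := by
  have hm := emb_mul f t s ht hs hst hft hfs
  have key : ∀ p : Quaternion C, emb f t s p = 0 → p = 0 := by
    intro p h
    have hr := emb_re_zero f hf t s ht hs hst h2 hft hfs
    have h1 := hr p h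
    have h2' := hr (qI * p) (by rw [hm, h, mul_zero])
    have h3 := hr (qJ * p) (by rw [hm, h, mul_zero])
    have h4 := hr (qK * p) (by rw [hm, h, mul_zero])
    simp at h2' h3 h4
    ext <;> simp [h1, h2', h3, h4]
  intro p q h
  have := key (p - q) (by rw [emb_sub, h, sub_self])
  exact sub_eq_zero.mp this

end quat

section mat

variable {C : Type*} [CommRing C] {F : Type*} [Field F]

/-- the matrix of a quaternion, for `I = !![0,-1;1,0]`, `J = !![a,b;b,-a]`. -/
def mat (π : C →+* F) (a b : F) (p : Quaternion C) : Matrix (Fin 2) (Fin 2) F :=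
  !![π p.re + π p.imJ * a - π p.imK * b, -π p.imI + π p.imJ * b + π p.imK * a;
     π p.imI + π p.imJ * b + π p.imK * a, π p.re - π p.imJ * a + π p.imK * b]

theorem mat_mul (π : C →+* F) (a b : F) (hab : a ^ 2 + b ^ 2 = -1) (p q : Quaternion C) :
    mat π a b (p * q) = mat π a b p * mat π a b q := by
  ext i j
  fin_cases i <;> fin_cases j
  · simp only [mat, Matrix.mul_apply, Fin.sum_univ_two, Quaternion.re_mul, Quaternion.imI_mul,
      Quaternion.imJ_mul, Quaternion.imK_mul, map_add, map_sub, map_mul]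
    simp
    linear_combination (-(π p.imJ * π q.imJ + π p.imK * π q.imK)) * hab
  · simp only [mat, Matrix.mul_apply, Fin.sum_univ_two, Quaternion.re_mul, Quaternion.imI_mul,
      Quaternion.imJ_mul, Quaternion.imK_mul, map_add, map_sub, map_mul]
    simp
    linear_combination (π p.imK * π q.imJ - π p.imJ * π q.imK) * hab
  · simp only [mat, Matrix.mul_apply, Fin.sum_univ_two, Quaternion.re_mul, Quaternion.imI_mul,
      Quaternion.imJ_mul, Quaternion.imK_mul, map_add, map_sub, map_mul]
    simp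
    linear_combination (-(π p.imK * π q.imJ - π p.imJ * π q.imK)) * hab
  · simp only [mat, Matrix.mul_apply, Fin.sum_univ_two, Quaternion.re_mul, Quaternion.imI_mul,
      Quaternion.imJ_mul, Quaternion.imK_mul, map_add, map_sub, map_mul]
    simp
    linear_combination (-(π p.imJ * π q.imJ + π p.imK * π q.imK)) * hab

theorem det_mat (π : C →+* F) (a b : F) (hab : a ^ 2 + b ^ 2 = -1) (p : Quaternion C) :
    (mat π a b p).det = π (nrm p) := by
  simp only [mat, Matrix.det_fin_two_of, nrm, map_add, map_mul]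
  linear_combination (-(π p.imJ * π p.imJ + π p.imK * π p.imK)) * hab

theorem mat_sub_one (π : C →+* F) (a b : F) (p : Quaternion C) :
    mat π a b p - 1 = mat π a b (p - 1) := by
  ext i j
  fin_cases i <;> fin_cases j <;> simp [mat] <;> ring

theorem mat_neg_one (π : C →+* F) (a b : F) : mat π a b (-1) = -1 := by
  ext i j
  fin_cases i <;> fin_cases j <;> simp [mat]

theorem mat_one (π : C →+* F) (a b : F) : mat π a b 1 = 1 := by
  ext i j
  fin_cases i <;> fin_cases j <;> simp [mat]

end mat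

theorem isUnit_of_map {E : Type*} [Ring E] {C : Type*} [CommRing C] [Finite C] (f : C →+* E)
    (hf : Function.Injective f) (c : C) (hc : IsUnit (f c)) : IsUnit c := by
  have hinj : Function.Injective (fun x : C => c * x) := by
    intro x y hxy
    have : f c * f x = f c * f y := by rw [← map_mul, ← map_mul]; exact congrArg f hxy
    exact hf (hc.mul_left_cancel this)
  obtain ⟨x, hx⟩ := (Finite.injective_iff_surjective.mp hinj) 1
  exact IsUnit.of_mul_eq_one x hx

/-- the abstract form of EMB, for an injective ring hom `f` from a commutative ring. -/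
theorem emb_core {G : Type u} [Group G] [Finite G] {E : Type u} [Ring E] [Finite E]
    [Nontrivial E] (R : FpfRing G E) (t s : E) (ht : t * t = -1) (hs : s * s = -1)
    (hst : s * t = -(t * s)) (h2 : IsUnit (2 : E)) {C : Type u} [CommRing C] (f : C →+* E)
    (hf : Function.Injective f) (hft : ∀ c, f c * t = t * f c) (hfs : ∀ c, f c * s = s * f c)
    (X : Set G) (hX : ∀ g ∈ X, ∃ p : Quaternion C, R.ι g = emb f t s p ∧ nrm p = 1) :
    ∃ (F : Type u) (_ : Field F) (_ : Finite F)
      (φ : ↥(Subgroup.closure X) →* Matrix.SpecialLinearGroup (Fin 2) F),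
      (∀ g, g ≠ 1 → ((φ g : Matrix (Fin 2) (Fin 2) F) - 1).det ≠ 0) ∧
      (∀ g : ↥(Subgroup.closure X), R.ι (g : G) = -1 →
        (φ g : Matrix (Fin 2) (Fin 2) F) = -1) := by
  classical
  haveI : Finite C := Finite.of_injective f hf
  haveI : Nontrivial C := ⟨⟨0, 1, fun h => by
    have := congrArg f h
    rw [map_zero, map_one] at this
    exact zero_ne_one this⟩⟩
  obtain ⟨m, hm⟩ := Ideal.exists_maximal C
  haveI := hm
  letI : Field (C ⧸ m) := Ideal.Quotient.field m
  haveI : Finite (C ⧸ m) := Finite.of_surjective _ Ideal.Quotient.mk_surjective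
  set π : C →+* C ⧸ m := Ideal.Quotient.mk m with hπ
  obtain ⟨a, b, hab⟩ : ∃ a b : C ⧸ m, a ^ 2 + b ^ 2 = -1 := by
    haveI : NeZero (ringChar (C ⧸ m)) := ⟨CharP.char_ne_zero_of_finite (C ⧸ m) _⟩
    obtain ⟨a, b, h⟩ := CharP.sq_add_sq (C ⧸ m) (ringChar (C ⧸ m)) (-1)
    exact ⟨a, b, by simpa using h⟩
  have hm' := emb_mul f t s ht hs hst hft hfs
  have hinj := emb_injective f hf t s ht hs hst h2 hft hfs
  have hinv : ∀ (g : G) (p : Quaternion C), R.ι g = emb f t s p → nrm p = 1 →
      R.ι g⁻¹ = emb f t s (star p) := by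
    intro g p hp hn
    have h1 : emb f t s p * emb f t s (star p) = 1 := by
      rw [← hm', mul_star_eq, hn, emb_coe, map_one]
    have h2 : R.ι g⁻¹ * R.ι g = 1 := by rw [← map_mul, inv_mul_cancel, map_one]
    calc R.ι g⁻¹ = R.ι g⁻¹ * (emb f t s p * emb f t s (star p)) := by rw [h1, mul_one]
      _ = (R.ι g⁻¹ * R.ι g) * emb f t s (star p) := by rw [hp, mul_assoc]
      _ = emb f t s (star p) := by rw [h2, one_mul]
  have hcl : ∀ g ∈ Subgroup.closure X, ∃ p : Quaternion C, R.ι g = emb f t s p ∧ nrm p = 1 := by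
    intro g hg
    induction hg using Subgroup.closure_induction with
    | mem x hx => exact hX x hx
    | one => exact ⟨1, by rw [map_one, emb_one], nrm_one⟩
    | mul x y _ _ hx hy =>
      obtain ⟨p, hp, hnp⟩ := hx
      obtain ⟨q, hq, hnq⟩ := hy
      exact ⟨p * q, by rw [map_mul, hp, hq, hm'], by rw [nrm_mul, hnp, hnq, mul_one]⟩
    | inv x _ hx =>
      obtain ⟨p, hp, hnp⟩ := hx
      exact ⟨star p, hinv x p hp hnp, by rw [nrm_star, hnp]⟩
  choose ψ hψ hψn using fun g : ↥(Subgroup.closure X) => hcl g.1 g.2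
  have hψmul : ∀ g h, ψ (g * h) = ψ g * ψ h := by
    intro g h
    apply hinj
    rw [hm', ← hψ, ← hψ, ← hψ]
    simp
  have hψone : ψ 1 = 1 := hinj (by rw [← hψ, emb_one]; simp)
  let φ : ↥(Subgroup.closure X) →* Matrix.SpecialLinearGroup (Fin 2) (C ⧸ m) :=
    { toFun := fun g => ⟨mat π a b (ψ g), by rw [det_mat π a b hab, hψn, map_one]⟩
      map_one' := by
        apply Subtype.ext
        simp [hψone, mat_one]
      map_mul' := fun g h => by
        apply Subtype.ext
        show mat π a b (ψ (g * h)) = mat π a b (ψ g) * mat π a b (ψ h)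
        rw [hψmul, mat_mul π a b hab] }
  refine ⟨C ⧸ m, inferInstance, inferInstance, φ, ?_, ?_⟩
  · intro g hg
    show (mat π a b (ψ g) - 1).det ≠ 0
    rw [mat_sub_one, det_mat π a b hab]
    have hu : IsUnit (nrm (ψ g - 1)) := by
      apply isUnit_of_map f hf
      have e : f (nrm (ψ g - 1)) = (R.ι (g : G) - 1) * (R.ι (g : G)⁻¹ - 1) := by
        have hgi := hinv g (ψ g) (hψ g) (hψn g)
        rw [hgi, hψ g, ← emb_one f t s, ← emb_sub, ← emb_sub, ← hm', ← emb_coe f t s]
        congr 1
        rw [← mul_star_eq]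
        simp
      rw [e]
      have hg1 : (g : G) ≠ 1 := fun h => hg (Subtype.ext h)
      exact (R.unit _ hg1).mul (R.unit _ (inv_ne_one.mpr hg1))
    exact (hu.map π).ne_zero
  · intro g hg
    show mat π a b (ψ g) = -1
    have : ψ g = -1 := hinj (by rw [← hψ, hg, emb_neg, emb_one])
    rw [this, mat_neg_one]

/-- **S0690-EMB**: the piece `StEmb` of helper72's team project. -/
theorem stEmb : StEmb.{u} := by
  intro G _ _ E _ _ _ R t s ht hs hst h2 B hB hBt hBs X hX
  letI : CommRing ↥B :=
    { (inferInstance : Ring ↥B) with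
      mul_comm := fun x y => Subtype.ext (hB x x.2 y y.2) }
  refine emb_core R t s ht hs hst h2 (C := ↥B) B.subtype Subtype.val_injective
    (fun c => hBt c c.2) (fun c => hBs c c.2) X ?_
  intro g hg
  obtain ⟨b₀, h₀, b₁, h₁, b₂, h₂, b₃, h₃, e, n⟩ := hX g hg
  refine ⟨(QuaternionAlgebra.mk ⟨b₀, h₀⟩ ⟨b₁, h₁⟩ ⟨b₂, h₂⟩ ⟨b₃, h₃⟩ : Quaternion ↥B), ?_, ?_⟩
  · rw [e]; rfl
  · apply Subtype.ext
    simpa [nrm] using n

end Cfsg.Agent.H12.Zas
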